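import Cfsg.Agent.H4.SL2

/-!
# Groups acting on an elementary abelian group of order `p²`
-/

set_option autoImplicit false

namespace Cfsg.Agent.H4

open Subgroup
open scoped commutatorElement MatrixGroups

variable {G : Type*} [Group G] {p : ℕ} [hp : Fact p.Prime]

/-- The power `u ^ x` for `x : ZMod p`. -/
def zp (u : G) (x : ZMod p) : G := u ^ x.val

theorem zp_natCast {u : G} (hu : u ^ p = 1) (n : ℕ) : zp u (n : ZMod p) = u ^ n := by
  rw [zp, ZMod.val_natCast, ← pow_eq_pow_mod _ hu]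

theorem zp_zero (u : G) : zp u (0 : ZMod p) = 1 := by rw [zp, ZMod.val_zero, pow_zero]

theorem zp_one {u : G} (hu : u ^ p = 1) : zp u (1 : ZMod p) = u := by
  rw [← Nat.cast_one, zp_natCast hu, pow_one]

theorem zp_add {u : G} (hu : u ^ p = 1) (x y : ZMod p) : zp u (x + y) = zp u x * zp u y := by
  conv_lhs => rw [← ZMod.natCast_zmod_val x, ← ZMod.natCast_zmod_val y, ← Nat.cast_add,
    zp_natCast hu, pow_add]
  rfl

theorem zp_neg {u : G} (hu : u ^ p = 1) (x : ZMod p) : zp u (-x) = (zp u x)⁻¹ := by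
  rw [eq_inv_iff_mul_eq_one, ← zp_add hu, neg_add_cancel, zp_zero]

theorem zp_zp {u : G} (hu : u ^ p = 1) (x y : ZMod p) : zp (zp u x) y = zp u (x * y) := by
  conv_rhs => rw [← ZMod.natCast_zmod_val x, ← ZMod.natCast_zmod_val y, ← Nat.cast_mul,
    zp_natCast hu, pow_mul]
  rfl

omit hp in
theorem zp_mul {u v : G} (h : Commute u v) (x : ZMod p) : zp (u * v) x = zp u x * zp v x :=
  h.mul_pow _

omit hp in
theorem conj_zp (g u : G) (x : ZMod p) : g * zp u x * g⁻¹ = zp (g * u * g⁻¹) x := conj_pow.symm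

omit hp in
theorem zp_mem {W : Subgroup G} {u : G} (hu : u ∈ W) (x : ZMod p) : zp u x ∈ W := pow_mem hu _

theorem exists_zp_of_mem_zpowers {u w : G} (hu : u ^ p = 1) (hw : w ∈ zpowers u) :
    ∃ x : ZMod p, zp u x = w := by
  rw [(isOfFinOrder_iff_pow_eq_one.2 ⟨p, hp.out.pos, hu⟩).mem_powers_iff_mem_zpowers.symm] at hw
  obtain ⟨n, rfl⟩ := hw
  exact ⟨n, zp_natCast hu n⟩

theorem eq_zero_of_zp_eq_one {u : G} (hu : u ^ p = 1) (h1 : u ≠ 1) {x : ZMod p}
    (hx : zp u x = 1) : x = 0 := by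
  have h2 := orderOf_dvd_of_pow_eq_one hx
  rw [orderOf_eq_prime hu h1] at h2
  rw [← ZMod.val_eq_zero]
  exact Nat.eq_zero_of_dvd_of_lt h2 (ZMod.val_lt x)

/-- A basis `u, v` of the elementary abelian group `W` of order `p²`. -/
structure IsPlane (p : ℕ) (W : Subgroup G) (u v : G) : Prop where
  ea : IsElementaryAbelian p W
  sup : zpowers u ⊔ zpowers v = W
  inf : zpowers u ⊓ zpowers v = ⊥
  u_ne : u ≠ 1
  v_ne : v ≠ 1

namespace IsPlane

variable {W : Subgroup G} {u v : G}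

omit hp in
theorem u_mem (h : IsPlane p W u v) : u ∈ W := h.sup ▸ mem_sup_left (mem_zpowers u)
omit hp in
theorem v_mem (h : IsPlane p W u v) : v ∈ W := h.sup ▸ mem_sup_right (mem_zpowers v)
omit hp in
theorem u_pow (h : IsPlane p W u v) : u ^ p = 1 := h.ea.2 _ h.u_mem
omit hp in
theorem v_pow (h : IsPlane p W u v) : v ^ p = 1 := h.ea.2 _ h.v_mem

/-- The vector with coordinates `x, y`. -/
def vec (u v : G) (x y : ZMod p) : G := zp u x * zp v y

omit hp in
theorem vec_mem (h : IsPlane p W u v) (x y : ZMod p) : vec u v x y ∈ W :=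
  mul_mem (zp_mem h.u_mem x) (zp_mem h.v_mem y)

theorem vec_add (h : IsPlane p W u v) (x y x' y' : ZMod p) :
    vec u v x y * vec u v x' y' = vec u v (x + x') (y + y') := by
  have := EA.comm h.ea (zp_mem h.v_mem y) (zp_mem h.u_mem x')
  rw [vec, vec, vec, zp_add h.u_pow, zp_add h.v_pow, mul_assoc, ← mul_assoc (zp v y), this]
  group

theorem vec_zero : vec u v (0 : ZMod p) 0 = 1 := by rw [vec, zp_zero, zp_zero, one_mul]

theorem vec_inv (h : IsPlane p W u v) (x y : ZMod p) : (vec u v x y)⁻¹ = vec u v (-x) (-y) := by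
  rw [inv_eq_iff_mul_eq_one, h.vec_add, add_neg_cancel, add_neg_cancel, vec_zero]

theorem zp_vec (h : IsPlane p W u v) (x y c : ZMod p) :
    zp (vec u v x y) c = vec u v (x * c) (y * c) := by
  rw [vec, zp_mul (EA.comm h.ea (zp_mem h.u_mem x) (zp_mem h.v_mem y)), zp_zp h.u_pow,
    zp_zp h.v_pow, vec]

theorem vec_one_zero (h : IsPlane p W u v) : vec u v (1 : ZMod p) 0 = u := by
  rw [vec, zp_one h.u_pow, zp_zero, mul_one]

theorem vec_zero_one (h : IsPlane p W u v) : vec u v (0 : ZMod p) 1 = v := by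
  rw [vec, zp_one h.v_pow, zp_zero, one_mul]

theorem vec_inj (h : IsPlane p W u v) {x y x' y' : ZMod p} (he : vec u v x y = vec u v x' y') :
    x = x' ∧ y = y' := by
  have h1 : vec u v (x + -x') (y + -y') = 1 := by
    rw [← h.vec_add, ← h.vec_inv, he, mul_inv_cancel]
  have h2 : zp u (x + -x') ∈ zpowers u ⊓ zpowers v := by
    refine ⟨zp_mem (mem_zpowers u) _, ?_⟩
    rw [eq_inv_of_mul_eq_one_left h1]
    exact (zpowers v).inv_mem (zp_mem (mem_zpowers v) _)
  rw [h.inf, mem_bot] at h2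
  rw [vec, h2, one_mul] at h1
  exact ⟨add_neg_eq_zero.1 (eq_zero_of_zp_eq_one h.u_pow h.u_ne h2),
    add_neg_eq_zero.1 (eq_zero_of_zp_eq_one h.v_pow h.v_ne h1)⟩

theorem exists_vec (h : IsPlane p W u v) {w : G} (hw : w ∈ W) :
    ∃ x y : ZMod p, vec u v x y = w := by
  rw [← h.sup, H8.mem_sup_of_le_normalizer ((zpowers_le.2 h.v_mem).trans
    (EA.le_normalizer_of_le h.ea (zpowers_le.2 h.u_mem)))] at hw
  obtain ⟨a, ha, b, hb, rfl⟩ := hw
  obtain ⟨x, rfl⟩ := exists_zp_of_mem_zpowers h.u_pow ha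
  obtain ⟨y, rfl⟩ := exists_zp_of_mem_zpowers h.v_pow hb
  exact ⟨x, y, rfl⟩

/-- `g` acts on the plane through the matrix with the given entries. -/
def Acts (u v g : G) (a b c d : ZMod p) : Prop :=
  ∀ x y : ZMod p, g * vec u v x y * g⁻¹ = vec u v (a * x + b * y) (c * x + d * y)

theorem acts_of (h : IsPlane p W u v) {g : G} {a b c d : ZMod p}
    (h1 : g * u * g⁻¹ = vec u v a c) (h2 : g * v * g⁻¹ = vec u v b d) : Acts u v g a b c d := by
  intro x y
  have : g * vec u v x y * g⁻¹ = (g * zp u x * g⁻¹) * (g * zp v y * g⁻¹) := by rw [vec]; group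
  rw [this, conj_zp, conj_zp, h1, h2, h.zp_vec, h.zp_vec, h.vec_add]

theorem exists_acts (h : IsPlane p W u v) {g : G} (hg : g ∈ normalizer (W : Set G)) :
    ∃ a b c d : ZMod p, Acts u v g a b c d := by
  obtain ⟨a, c, h1⟩ := h.exists_vec ((mem_normalizer_iff.1 hg u).1 h.u_mem)
  obtain ⟨b, d, h2⟩ := h.exists_vec ((mem_normalizer_iff.1 hg v).1 h.v_mem)
  exact ⟨a, b, c, d, h.acts_of h1.symm h2.symm⟩

theorem acts_unique (h : IsPlane p W u v) {g : G} {a b c d a' b' c' d' : ZMod p}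
    (h1 : Acts u v g a b c d) (h2 : Acts u v g a' b' c' d') :
    a = a' ∧ b = b' ∧ c = c' ∧ d = d' := by
  have e1 := h.vec_inj ((h1 1 0).symm.trans (h2 1 0))
  have e2 := h.vec_inj ((h1 0 1).symm.trans (h2 0 1))
  simp only [mul_one, mul_zero, add_zero, zero_add] at e1 e2
  exact ⟨e1.1, e2.1, e1.2, e2.2⟩

theorem acts_one_iff (h : IsPlane p W u v) {g : G} :
    Acts u v g (1 : ZMod p) 0 0 1 ↔ g ∈ centralizer (W : Set G) := by
  constructor
  · intro h1
    rw [mem_centralizer_iff]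
    intro w hw
    obtain ⟨x, y, rfl⟩ := h.exists_vec hw
    have := h1 x y
    simp only [one_mul, zero_mul, add_zero, zero_add] at this
    rw [← this, inv_mul_cancel_right, this]
  · intro h1 x y
    simp only [one_mul, zero_mul, add_zero, zero_add]
    rw [← mem_centralizer_iff.1 h1 _ (h.vec_mem x y), mul_inv_cancel_right]

theorem det_eq_one_of_quadratic (h : IsPlane p W u v) {g : G} {a b c d : ZMod p}
    (h1 : Acts u v g a b c d) (hq : ⁅⁅W, zpowers g⁆, zpowers g⁆ = ⊥) : a * d - b * c = 1 := by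
  have key : ∀ x y : ZMod p, ⁅vec u v x y, g⁆ =
      vec u v (x - (a * x + b * y)) (y - (c * x + d * y)) := by
    intro x y
    have : ⁅vec u v x y, g⁆ = vec u v x y * (g * vec u v x y * g⁻¹)⁻¹ := by
      rw [commutatorElement_def]; group
    rw [this, h1, h.vec_inv, h.vec_add, ← sub_eq_add_neg, ← sub_eq_add_neg]
  have key2 : ∀ x y : ZMod p, ⁅⁅vec u v x y, g⁆, g⁆ = vec u v (0 : ZMod p) 0 := by
    intro x y
    rw [vec_zero, ← mem_bot, ← hq]
    exact commutator_mem_commutator (commutator_mem_commutator (h.vec_mem x y) (mem_zpowers g))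
      (mem_zpowers g)
  have e1 := key2 1 0
  have e2 := key2 0 1
  rw [key, key] at e1 e2
  obtain ⟨f1, f2⟩ := h.vec_inj e1
  obtain ⟨f3, f4⟩ := h.vec_inj e2
  have ht : a + d - 2 = 0 := by
    by_contra hne
    have hb : b = 0 := by
      have : b * (a + d - 2) = 0 := by linear_combination f3
      exact (mul_eq_zero.1 this).resolve_right hne
    have ha : a - 1 = 0 := by
      have : (a - 1) ^ 2 = 0 := by rw [hb] at f1; linear_combination f1
      exact pow_eq_zero_iff two_ne_zero |>.1 this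
    have hd : d - 1 = 0 := by
      have : (d - 1) ^ 2 = 0 := by rw [hb] at f4; linear_combination f4
      exact pow_eq_zero_iff two_ne_zero |>.1 this
    exact hne (by linear_combination ha + hd)
  linear_combination a * ht - f1

/-- A group generated by quadratic elements acts on the plane through `SL(2, p)`. -/
theorem exists_hom (h : IsPlane p W u v) {s : Set G} (hs : s ⊆ normalizer (W : Set G))
    (hq : ∀ g ∈ s, ⁅⁅W, zpowers g⁆, zpowers g⁆ = ⊥) {L : Subgroup G} (hL : L ≤ closure s) :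
    ∃ φ : L →* SL(2, ZMod p), ∀ g : L, Acts u v g (φ g 0 0) (φ g 0 1) (φ g 1 0) (φ g 1 1) := by
  let R : G → SL(2, ZMod p) → Prop := fun g M => Acts u v g (M 0 0) (M 0 1) (M 1 0) (M 1 1)
  have huniq : ∀ g M M', R g M → R g M' → M = M' := by
    intro g M M' h1 h2
    obtain ⟨e1, e2, e3, e4⟩ := h.acts_unique h1 h2
    exact SL2.ext4 e1 e2 e3 e4
  have hmul : ∀ g k M N, R g M → R k N → R (g * k) (M * N) := by
    intro g k M N h1 h2 x y
    have : g * k * vec u v x y * (g * k)⁻¹ = g * (k * vec u v x y * k⁻¹) * g⁻¹ := by group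
    rw [this, h2, h1]
    sl2_simp
    congr 1 <;> ring
  have hinv : ∀ g M, R g M → R g⁻¹ M⁻¹ := by
    intro g M h1 x y
    have hd := SL2.det_eq M
    have := h1 (M⁻¹ 0 0 * x + M⁻¹ 0 1 * y) (M⁻¹ 1 0 * x + M⁻¹ 1 1 * y)
    rw [mul_inv_eq_iff_eq_mul, ← eq_inv_mul_iff_mul_eq] at this
    rw [this, inv_inv, ← mul_assoc]
    sl2_simp
    congr 3
    · linear_combination (-x) * hd
    · linear_combination (-y) * hd
  have hex : ∀ g ∈ closure s, ∃ M, R g M := by
    intro g hg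
    induction hg using closure_induction with
    | mem x hx =>
      obtain ⟨a, b, c, d, h1⟩ := h.exists_acts (hs hx)
      exact ⟨SL2.mk a b c d (h.det_eq_one_of_quadratic h1 (hq x hx)), h1⟩
    | one => exact ⟨1, h.acts_one_iff.2 (one_mem _)⟩
    | mul x y _ _ hx hy =>
      obtain ⟨M, hM⟩ := hx
      obtain ⟨N, hN⟩ := hy
      exact ⟨_, hmul _ _ _ _ hM hN⟩
    | inv x _ hx =>
      obtain ⟨M, hM⟩ := hx
      exact ⟨_, hinv _ _ hM⟩
  choose f hf using fun g : L => hex g (hL g.2)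
  exact ⟨MonoidHom.mk' f (fun g k => huniq _ _ _ (hf _) (hmul _ _ _ _ (hf g) (hf k))), hf⟩

/-- The homomorphism to `SL(2, p)`, with two opposite transvections. -/
theorem exists_hom_up_lo (h : IsPlane p W u v) {s : Set G} (hs : s ⊆ normalizer (W : Set G))
    (hq : ∀ g ∈ s, ⁅⁅W, zpowers g⁆, zpowers g⁆ = ⊥) {L : Subgroup G} (hL : L ≤ closure s)
    {a b : G} (ha : a ∈ L) (hb : b ∈ L) (hau : ⁅u, a⁆ = 1) (hav : ⁅v, a⁆ ∈ zpowers u)
    (hbv : ⁅v, b⁆ = 1) (hbu : ⁅u, b⁆ ∈ zpowers v) (ha1 : a ∉ centralizer (W : Set G))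
    (hb1 : b ∉ centralizer (W : Set G)) :
    ∃ φ : L →* SL(2, ZMod p), (∀ g : L, φ g = 1 ↔ (g : G) ∈ centralizer (W : Set G)) ∧
      ∃ x y : ZMod p, x ≠ 0 ∧ y ≠ 0 ∧ φ ⟨a, ha⟩ = SL2.up x ∧ φ ⟨b, hb⟩ = SL2.lo y := by
  obtain ⟨φ, hφ⟩ := h.exists_hom hs hq hL
  have hker : ∀ g : L, φ g = 1 ↔ (g : G) ∈ centralizer (W : Set G) := by
    intro g
    rw [← h.acts_one_iff]
    constructor
    · intro h1
      have := hφ g
      rwa [h1] at this
    · intro h1
      obtain ⟨e1, e2, e3, e4⟩ := h.acts_unique (hφ g) h1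
      exact SL2.ext4 e1 e2 e3 e4
  obtain ⟨x, hx⟩ := exists_zp_of_mem_zpowers h.u_pow (inv_mem hav)
  obtain ⟨y, hy⟩ := exists_zp_of_mem_zpowers h.v_pow (inv_mem hbu)
  have h1 : φ ⟨a, ha⟩ = SL2.up x := by
    obtain ⟨e1, e2, e3, e4⟩ := h.acts_unique (hφ ⟨a, ha⟩) (h.acts_of (a := 1) (b := x) (c := 0)
      (d := 1) (by
        rw [h.vec_one_zero, ← commutatorElement_eq_one_iff_mul_comm.1 hau, mul_inv_cancel_right])
      (by rw [vec, hx, zp_one h.v_pow, commutatorElement_def]; group))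
    exact SL2.ext4 e1 e2 e3 e4
  have h2 : φ ⟨b, hb⟩ = SL2.lo y := by
    obtain ⟨e1, e2, e3, e4⟩ := h.acts_unique (hφ ⟨b, hb⟩) (h.acts_of (a := 1) (b := 0) (c := y)
      (d := 1) (by
        rw [vec, zp_one h.u_pow, EA.comm h.ea h.u_mem (zp_mem h.v_mem y), hy,
          commutatorElement_def]
        group)
      (by rw [h.vec_zero_one, ← commutatorElement_eq_one_iff_mul_comm.1 hbv, mul_inv_cancel_right]))
    exact SL2.ext4 e1 e2 e3 e4
  refine ⟨φ, hker, x, y, ?_, ?_, h1, h2⟩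
  · rintro rfl
    exact ha1 ((hker _).1 (h1.trans SL2.up_zero))
  · rintro rfl
    exact hb1 ((hker _).1 (h2.trans SL2.lo_zero))

end IsPlane

theorem card_SL2_two : Nat.card SL(2, ZMod 2) = 6 := by
  rw [Nat.card_eq_fintype_card]; decide +kernel

theorem card_SL2_three : Nat.card SL(2, ZMod 3) = 24 := by
  rw [Nat.card_eq_fintype_card]; decide +kernel

end Cfsg.Agent.H4
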