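import Cfsg.Agent.H4.BF0
import Cfsg.Agent.H3.Wong2

/-!
# A group of order 64 with a self-centralizing element of order 8 conjugate to its odd powers
-/

set_option autoImplicit false
set_option linter.unusedSectionVars false

namespace Cfsg.Agent.H4.BF

open Subgroup T

/-- multiplication in the modular group of order 16 -/
def mM (m n : ℕ) : ℕ := (m % 8 + (if m / 8 % 2 = 1 then 5 else 1) * (n % 8)) % 8 + 8 * ((m / 8 + n / 8) % 2)
/-- first automorphism -/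
def al (m : ℕ) : ℕ := 7 * (m % 8) % 8 + 8 * (m / 8 % 2)
/-- powers of `f u` -/
def be0 : ℕ → ℕ
  | 0 => 0
  | e + 1 => mM 9 (be0 e)
/-- second automorphism -/
def be (m : ℕ) : ℕ := mM (be0 (m % 8)) (8 * (m / 8 % 2))
/-- the square of `a` -/
def c1 (p : ℕ) : ℕ := 4 * (p % 2)
/-- the square of `b` -/
def c2 (p : ℕ) : ℕ := 4 * (p / 2 % 2)
/-- the commutator of `b` and `a` -/
def c3 (p : ℕ) : ℕ := (8 - 2 * (p / 4) + c1 p + c2 p) % 8 + 8

/-- coordinates -/
def co {p : Fin 8} (x : T p) : ℕ × ℕ × ℕ := (x.v % 16, x.v / 16 % 2, x.v / 32)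

theorem co_f : ∀ (p : Fin 8) (x : T p), co (mk 1 * x) = (mM 1 (co x).1, (co x).2) := by decide +kernel
theorem co_u : ∀ (p : Fin 8) (x : T p), co (mk 8 * x) = (mM 8 (co x).1, (co x).2) := by decide +kernel
theorem co_a : ∀ (p : Fin 8) (x : T p), co (mk 16 * x) =
    if (co x).2.1 = 0 then (al (co x).1, 1, (co x).2.2) else (mM (al (co x).1) (c1 p), 0, (co x).2.2) := by
  decide +kernel
theorem co_b : ∀ (p : Fin 8) (x : T p), co (mk 32 * x) =
    if (co x).2.1 = 0 then (if (co x).2.2 = 0 then (be (co x).1, 0, 1) else (mM (be (co x).1) (c2 p), 0, 0))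
    else (if (co x).2.2 = 0 then (mM (be (co x).1) (c3 p), 1, 1)
      else (mM (mM (be (co x).1) (c3 p)) (al (c2 p)), 1, 0)) := by
  decide +kernel
theorem co_lt : ∀ (p : Fin 8) (x : T p), ((co x).2.1 = 0 ∨ (co x).2.1 = 1) ∧ ((co x).2.2 = 0 ∨ (co x).2.2 = 1) := by
  decide +kernel

theorem co_val : ∀ p : Fin 8, co (1 : T p) = (0, 0, 0) ∧ co (mk 4 : T p) = (4, 0, 0) := by decide +kernel

variable {G : Type*} [Group G]

/-- the relations -/
structure Rel (p : ℕ) (f u a b : G) : Prop where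
  f8 : f ^ 8 = 1
  uu : u * u = 1
  uf : u * f = f ^ 5 * u
  af : a * f = f ^ 7 * a
  au : a * u = u * a
  bf : b * f = f * u * b
  bu : b * u = u * b
  aa : a * a = f ^ c1 p
  bb : b * b = f ^ c2 p
  ba : b * a = f ^ (c3 p % 8) * u * a * b

theorem mul_pow_of {x f g : G} (h : x * f = g * x) (e : ℕ) : x * f ^ e = g ^ e * x :=
  (show SemiconjBy x f g from h).pow_right e

/-- elements of the modular group -/
def mu (f u : G) (m : ℕ) : G := f ^ (m % 8) * u ^ (m / 8 % 2)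

/-- normal forms -/
def ph (f u a b : G) (c : ℕ × ℕ × ℕ) : G := mu f u c.1 * a ^ c.2.1 * b ^ c.2.2

namespace Rel

variable {p : ℕ} {f u a b : G} (h : Rel p f u a b)
include h

theorem pow_mod (e : ℕ) : f ^ (e % 8) = f ^ e := (pow_eq_pow_mod e h.f8).symm

theorem mu_mul (m n : ℕ) : mu f u (mM m n) = mu f u m * mu f u n := by
  have e1 : mM m n % 8 = (m % 8 + (if m / 8 % 2 = 1 then 5 else 1) * (n % 8)) % 8 := by
    unfold mM; omega
  have e2 : mM m n / 8 % 2 = (m / 8 % 2 + n / 8 % 2) % 2 := by unfold mM; omega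
  rw [mu, e1, e2, h.pow_mod, mu, mu]
  have h5 := mul_pow_of h.uf (n % 8)
  rw [← pow_mul] at h5
  rcases Nat.mod_two_eq_zero_or_one (m / 8) with hm | hm <;>
    rcases Nat.mod_two_eq_zero_or_one (n / 8) with hn | hn <;> simp only [hm, hn] <;>
    simp [pow_add, mul_assoc]
  · exact h5.symm
  · rw [← mul_assoc, h5, mul_assoc, h.uu, mul_one]

theorem a_mu (m : ℕ) : a * mu f u m = mu f u (al m) * a := by
  have e1 : al m % 8 = 7 * (m % 8) % 8 := by unfold al; omega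
  have e2 : al m / 8 % 2 = m / 8 % 2 := by
    unfold al
    have := Nat.mod_lt (7 * (m % 8)) (show 0 < 8 by norm_num)
    generalize 7 * (m % 8) % 8 = r at this
    omega
  rw [mu, mu, e1, e2, h.pow_mod (7 * _), ← mul_assoc, mul_pow_of h.af, ← pow_mul, mul_assoc, mul_pow_of h.au,
    mul_assoc]

theorem mu_be0 (e : ℕ) : mu f u (be0 e) = (f * u) ^ e := by
  induction e with
  | zero => simp [be0, mu]
  | succ e ih => rw [be0, h.mu_mul, ih, pow_succ']; simp [mu]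

theorem b_mu (m : ℕ) : b * mu f u m = mu f u (be m) * b := by
  have e1 : 8 * (m / 8 % 2) % 8 = 0 := by omega
  have e2 : 8 * (m / 8 % 2) / 8 % 2 = m / 8 % 2 := by omega
  rw [be, h.mu_mul, h.mu_be0, mu, mu, e1, e2, ← mul_assoc, mul_pow_of h.bf, mul_assoc, mul_pow_of h.bu]
  simp [mul_assoc]

theorem aa' : a * a = mu f u (c1 p) := by
  have e2 : c1 p / 8 % 2 = 0 := by unfold c1; omega
  rw [mu, e2, h.pow_mod, h.aa, pow_zero, mul_one]

theorem bb' : b * b = mu f u (c2 p) := by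
  have e2 : c2 p / 8 % 2 = 0 := by unfold c2; omega
  rw [mu, e2, h.pow_mod, h.bb, pow_zero, mul_one]

theorem ba' : b * a = mu f u (c3 p) * a * b := by
  have e2 : c3 p / 8 % 2 = 1 := by unfold c3; omega
  rw [mu, e2, h.ba, pow_one]

end Rel

theorem Rel.exists_hom {p : Fin 8} {f u a b : G} (h : Rel p f u a b) :
    ∃ φ : T p →* G, ∀ x, φ x = ph f u a b (co x) := by
  have hf : ∀ x : T p, ph f u a b (co (T.mk 1 * x)) = f * ph f u a b (co x) := fun x => by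
    rw [co_f, ph, ph, h.mu_mul]; simp [mu, mul_assoc]
  have hu : ∀ x : T p, ph f u a b (co (T.mk 8 * x)) = u * ph f u a b (co x) := fun x => by
    rw [co_u, ph, ph, h.mu_mul]; simp [mu, mul_assoc]
  have ha : ∀ x : T p, ph f u a b (co (T.mk 16 * x)) = a * ph f u a b (co x) := fun x => by
    rw [co_a, ph, ph, ← mul_assoc, ← mul_assoc, h.a_mu]
    rcases (co_lt p x).1 with e | e <;> simp [e, h.mu_mul, ← h.aa', mul_assoc]
  have hb : ∀ x : T p, ph f u a b (co (T.mk 32 * x)) = b * ph f u a b (co x) := fun x => by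
    rw [co_b, ph, ph, ← mul_assoc, ← mul_assoc, h.b_mu]
    rcases (co_lt p x).1 with e | e <;> rcases (co_lt p x).2 with e' | e' <;>
      simp only [e, e', if_true, if_false, one_ne_zero, h.mu_mul, pow_zero, pow_one, mul_one]
    · rw [mul_assoc, h.bb']
    · rw [mul_assoc _ b a, h.ba']; simp only [mul_assoc]
    · rw [mul_assoc _ b a, h.ba', mul_assoc, ← h.a_mu, ← h.bb']; simp only [mul_assoc]
  have h1 : ph f u a b (co (1 : T p)) = 1 := by
    rw [(co_val p).1]; simp [ph, mu]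
  refine ⟨MonoidHom.mk' (fun x => ph f u a b (co x)) fun y => ?_, fun _ => rfl⟩
  refine T.induct (q := fun y : T p => ∀ x, ph f u a b (co (y * x)) = ph f u a b (co y) * ph f u a b (co x))
    (fun x => by rw [one_mul, h1, one_mul]) ?_ ?_ ?_ ?_ y <;> intro y ih x
  · rw [mul_assoc, hf, hf, ih, mul_assoc]
  · rw [mul_assoc, hu, hu, ih, mul_assoc]
  · rw [mul_assoc, ha, ha, ih, mul_assoc]
  · rw [mul_assoc, hb, hb, ih, mul_assoc]

theorem center_spec : ∀ (p : Fin 8) (x : T p), (mk 1 * x = x * mk 1 ∧ mk 16 * x = x * mk 16) → x = 1 ∨ x = mk 4 := by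
  decide +kernel

theorem pgroup (p : Fin 8) : IsPGroup 2 (T p) := IsPGroup.of_card (n := 6) T.card

theorem injective_of {p : Fin 8} (φ : T p →* G) (h : φ (mk 4) ≠ 1) : Function.Injective φ := by
  have := Fact.mk Nat.prime_two
  rw [← MonoidHom.ker_eq_bot_iff]
  by_contra hne
  obtain ⟨x, hx, h1, h2, -⟩ := H9.exists_ne_one_centralized (P := ⊤) ((pgroup p).to_subgroup _)
    ((pgroup p).to_subgroup _) le_normalizer_of_normal hne
  rcases center_spec p x ⟨h2 _ trivial, h2 _ trivial⟩ with e | e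
  · exact h1 e
  · exact h (e ▸ hx)

theorem exists_pow_of_mem {f x : G} (hf : orderOf f = 8) (hx : x ∈ zpowers f) : ∃ e < 8, x = f ^ e := by
  have hfin : IsOfFinOrder f := orderOf_pos_iff.1 (by omega)
  obtain ⟨k, rfl⟩ := (hfin.mem_powers_iff_mem_zpowers).2 hx
  exact ⟨k % 8, Nat.mod_lt _ (by norm_num), by rw [← hf, pow_mod_orderOf]⟩

theorem pow_inj8 {f : G} (hf : orderOf f = 8) {m n : ℕ} : f ^ m = f ^ n ↔ m % 8 = n % 8 := by
  rw [pow_eq_pow_iff_modEq, hf]; rfl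

theorem conj_pow_eq {x f g : G} (h : x * f * x⁻¹ = g) (e : ℕ) : x * f ^ e * x⁻¹ = g ^ e := by
  rw [← h, conj_pow]

theorem relIndex_norm [Finite G] {P : Subgroup G} (hP : Nat.card P = 64) {f : G} (hfP : f ∈ P) (hf : orderOf f = 8)
    (hself : ∀ x ∈ P, x * f = f * x → x ∈ zpowers f)
    (hodd : ∀ k ∈ ({3, 5, 7} : Set ℕ), ∃ x ∈ P, x * f * x⁻¹ = f ^ k) :
    (P ⊓ normalizer (zpowers f : Set G)).relIndex P = 2 := by
  set N := P ⊓ normalizer (zpowers f : Set G) with hN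
  have h1 := H3.card_eq_orbit_mul N f
  have h2 : N ⊓ centralizer {f} = zpowers f := le_antisymm
    (fun x hx => hself x hx.1.1 (mem_centralizer_singleton_iff.1 hx.2))
    (zpowers_le.2 ⟨⟨hfP, le_normalizer (mem_zpowers f)⟩, mem_centralizer_singleton_iff.2 rfl⟩)
  have hn : ∀ k, ∀ x ∈ P, x * f * x⁻¹ = f ^ k → x ∈ N := fun k x hx h =>
    ⟨hx, H9.mem_normalizer_of_conj_mem fun y hy => by
      obtain ⟨e, -, rfl⟩ := exists_pow_of_mem hf hy
      rw [conj_pow_eq h]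
      exact pow_mem (pow_mem (mem_zpowers f) _) _⟩
  have h3 : {u | ∃ g ∈ N, g * f * g⁻¹ = u} = {f ^ 1, f ^ 3, f ^ 5, f ^ 7} := by
    ext u
    constructor
    · rintro ⟨g, hg, rfl⟩
      obtain ⟨e, he, h⟩ := exists_pow_of_mem hf (H9.conj_mem_of_mem_normalizer hg.2 (mem_zpowers f))
      have ho : (f ^ e) ^ 4 ≠ 1 := fun h' => by
        have := orderOf_dvd_of_pow_eq_one h'
        rw [← h, H9.orderOf_conj, hf] at this
        omega
      rw [h]
      rw [← pow_mul, ← pow_zero f, Ne, pow_inj8 hf] at ho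
      interval_cases e <;> simp at ho ⊢
    · rintro (rfl | rfl | rfl | rfl)
      · exact ⟨1, one_mem _, by simp⟩
      · obtain ⟨x, hx, h⟩ := hodd 3 (by simp); exact ⟨x, hn _ x hx h, h⟩
      · obtain ⟨x, hx, h⟩ := hodd 5 (by simp); exact ⟨x, hn _ x hx h, h⟩
      · obtain ⟨x, hx, h⟩ := hodd 7 (by simp); exact ⟨x, hn _ x hx h, h⟩
  have h4 : ({f ^ 1, f ^ 3, f ^ 5, f ^ 7} : Set G).ncard = 4 := by
    rw [Set.ncard_insert_of_notMem, Set.ncard_insert_of_notMem, Set.ncard_pair] <;>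
      simp only [Set.mem_insert_iff, Set.mem_singleton_iff, Ne, pow_inj8 hf] <;> norm_num
  rw [h2, h3, h4, Nat.card_zpowers, hf] at h1
  exact H9.relIndex_eq_of_card inf_le_left (by rw [hP, h1])

theorem exists_fub [Finite G] {P : Subgroup G} (hP : Nat.card P = 64) {f : G} (hfP : f ∈ P) (hf : orderOf f = 8)
    (hself : ∀ x ∈ P, x * f = f * x → x ∈ zpowers f)
    (hodd : ∀ k ∈ ({3, 5, 7} : Set ℕ), ∃ x ∈ P, x * f * x⁻¹ = f ^ k) :
    ∃ u ∈ P, ∃ b ∈ P, u * u = 1 ∧ u * f = f ^ 5 * u ∧ b * f * b⁻¹ = f * u ∧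
      (∀ x ∈ P, x ∈ normalizer (zpowers f : Set G) → ∃ e < 8, x * (f * u) * x⁻¹ = (f * u) ^ e) ∧
      b * b ∈ normalizer (zpowers f : Set G) := by
  have hi := relIndex_norm hP hfP hf hself hodd
  set N := P ⊓ normalizer (zpowers f : Set G) with hN
  have f8 : f ^ 8 = 1 := by rw [← hf, pow_orderOf_eq_one]
  have hfN : f ∈ N := ⟨hfP, le_normalizer (mem_zpowers f)⟩
  -- any element outside `N`
  have key : ∀ y ∈ P, y ∉ N → ∀ x ∈ N, ∃ e < 8, x * (y * f * y⁻¹) * x⁻¹ = (y * f * y⁻¹) ^ e := fun y hy _ x hx => by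
    have h1 : y⁻¹ * x * y⁻¹⁻¹ ∈ N := (H9.conj_mem_iff_of_relIndex_two hi hx.1 (inv_mem hy)).2 hx
    obtain ⟨e, he, h⟩ := exists_pow_of_mem hf (H9.conj_mem_of_mem_normalizer h1.2 (mem_zpowers f))
    refine ⟨e, he, ?_⟩
    rw [conj_pow, ← h]; group
  obtain ⟨y, hy, hyN⟩ : ∃ y ∈ P, y ∉ N := by
    by_contra hn
    push Not at hn
    rw [relIndex_eq_one.2 hn] at hi
    omega
  obtain ⟨g, hg⟩ : ∃ g, g = y * f * y⁻¹ := ⟨_, rfl⟩
  have hgN : g ∈ N := hg ▸ (H9.conj_mem_iff_of_relIndex_two hi hfP hy).2 hfN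
  have hgo : orderOf g = 8 := by rw [hg, H9.orderOf_conj, hf]
  have hgf : g ∉ zpowers f := fun h => hyN ⟨hy, H9.mem_normalizer_of_conj_mem fun w hw => by
    obtain ⟨e, -, rfl⟩ := exists_pow_of_mem hf hw
    rw [conj_pow_eq hg.symm]; exact pow_mem h _⟩
  obtain ⟨r, hr, h1⟩ := exists_pow_of_mem hf (H9.conj_mem_of_mem_normalizer hgN.2 (mem_zpowers f))
  obtain ⟨s, -, h2⟩ := key y hy hyN f hfN
  rw [← hg] at h2
  have hr5 : r = 5 := by
    have ho : (f ^ r) ^ 4 ≠ 1 := fun h' => by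
      have := orderOf_dvd_of_pow_eq_one h'
      rw [← h1, H9.orderOf_conj, hf] at this
      omega
    have hne : f ^ r ≠ f ^ 1 := fun h => hgf (hself g hgN.1 (by
      rw [h, pow_one] at h1; exact mul_inv_eq_iff_eq_mul.1 h1))
    have h3 : g * (f ^ r * f ^ 7) * g⁻¹ = f ^ r * f ^ 7 := by
      have e1 : f ^ 7 = f⁻¹ := eq_inv_of_mul_eq_one_left (by rw [← pow_succ, f8])
      have e2 : f ^ r * f ^ 7 = g * (g ^ s)⁻¹ := by rw [← h1, ← h2, e1]; group
      rw [e2]; group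
    rw [← pow_add, conj_pow_eq h1, ← pow_mul, pow_inj8 hf] at h3
    rw [← pow_mul, ← pow_zero f, Ne, pow_inj8 hf] at ho
    rw [Ne, pow_inj8 hf] at hne
    interval_cases r <;> simp at ho hne h3 ⊢
  subst hr5
  have h3 : g * f = f ^ 5 * g := mul_inv_eq_iff_eq_mul.1 h1
  obtain ⟨e, he, h4⟩ := exists_pow_of_mem hf (hself (g * g) (mul_mem hgN.1 hgN.1) (by
    rw [mul_assoc, h3, ← mul_assoc, mul_pow_of h3, ← pow_mul, show 5 * 5 = 8 * 3 + 1 from rfl, pow_succ, pow_mul, f8]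
    simp [mul_assoc]))
  have he2 : e = 2 ∨ e = 6 := by
    have g8 : g ^ 8 = 1 := by rw [← hgo, pow_orderOf_eq_one]
    have k1 : (f ^ e) ^ 4 = f ^ 0 := by rw [← h4, ← pow_two, ← pow_mul, g8, pow_zero]
    have k2 : (f ^ e) ^ 2 ≠ f ^ 0 := fun h => by
      rw [← h4, ← pow_two, ← pow_mul, pow_zero] at h
      have := orderOf_dvd_of_pow_eq_one h
      rw [hgo] at this
      omega
    rw [← pow_mul, pow_inj8 hf] at k1
    rw [← pow_mul, Ne, pow_inj8 hf] at k2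
    omega
  -- the involution
  obtain ⟨u, hu, huu, huf, k, hk, hgk⟩ : ∃ u ∈ P, u * u = 1 ∧ u * f = f ^ 5 * u ∧
      ∃ k ∈ ({3, 5, 7} : Set ℕ), g ^ k = f * u := by
    have hj : ∀ j, f ^ j * g * f = f ^ 5 * (f ^ j * g) := fun j => by
      rw [mul_assoc, h3, ← mul_assoc, ← mul_assoc, ← pow_add, ← pow_add, add_comm]
    have hsq : ∀ j, f ^ j * g * (f ^ j * g) = f ^ (j + 5 * j + e) := fun j => by
      rw [mul_assoc, ← mul_assoc g, mul_pow_of h3, mul_assoc, h4, ← pow_mul, ← pow_add, ← pow_add, add_assoc]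
    rcases he2 with rfl | rfl
    · refine ⟨f ^ 1 * g, mul_mem (pow_mem hfP _) hgN.1, by rw [hsq]; exact f8, hj 1, 3, by simp, ?_⟩
      rw [pow_succ, pow_two, h4, ← mul_assoc, ← pow_succ']
    · refine ⟨f ^ 3 * g, mul_mem (pow_mem hfP _) hgN.1, by rw [hsq, show 3 + 5 * 3 + 6 = 8 * 3 from rfl, pow_mul, f8, one_pow],
        hj 3, 5, by simp, ?_⟩
      rw [pow_succ, show 4 = 2 * 2 from rfl, pow_mul, pow_two g, h4, ← mul_assoc, ← pow_succ', ← pow_mul,
        show 6 * 2 = 8 + 4 from rfl, pow_add, f8, one_mul]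
  obtain ⟨x, hx, hxk⟩ := hodd k hk
  have hb : y * x * f * (y * x)⁻¹ = f * u := by
    rw [← hgk, hg, conj_pow, ← hxk]; group
  have hxN : x ∈ N := ⟨hx, H9.mem_normalizer_of_conj_mem fun w hw => by
    obtain ⟨e, -, rfl⟩ := exists_pow_of_mem hf hw
    rw [conj_pow_eq hxk]; exact pow_mem (pow_mem (mem_zpowers f) _) _⟩
  have hbN : y * x ∉ N := fun h => hyN (by simpa using mul_mem h (inv_mem hxN))
  refine ⟨u, hu, y * x, mul_mem hy hx, huu, huf, hb, fun w hw hw' => ?_,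
    (H9.mul_self_mem_of_relIndex_two hi (mul_mem hy hx)).2⟩
  rw [← hb]
  exact key _ (mul_mem hy hx) hbN w ⟨hw, hw'⟩

section

variable {f u : G} (hf : orderOf f = 8) (huu : u * u = 1) (huf : u * f = f ^ 5 * u)
include hf huu huf

theorem sq_fu (e : ℕ) : f ^ e * u * (f ^ e * u) = f ^ (6 * e) := by
  rw [mul_assoc, ← mul_assoc u, mul_pow_of huf, mul_assoc, huu, mul_one, ← pow_mul, ← pow_add]
  congr 1; ring

theorem pow_fu (e : ℕ) : ∃ k, (f * u) ^ e = f ^ k ∨ (f * u) ^ e = f ^ k * u := by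
  induction e with
  | zero => exact ⟨0, Or.inl (by simp)⟩
  | succ e ih =>
    obtain ⟨k, h | h⟩ := ih
    · exact ⟨k + 1, Or.inr (by rw [pow_succ, h, pow_succ, mul_assoc])⟩
    · refine ⟨k + 5, Or.inl ?_⟩
      rw [pow_succ, h, mul_assoc, ← mul_assoc u, huf, mul_assoc, huu, mul_one, pow_add]

theorem u_notMem (k : ℕ) : u ≠ f ^ k := fun h => by
  rw [h, ← pow_succ, ← pow_add, pow_inj8 hf] at huf
  omega

/-- an element inducing `f ↦ g` and mapping `u` to `f^k u` can be adjusted to centralize `u` -/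
theorem adjust {x g : G} {k : ℕ} (hx : x * f * x⁻¹ = g) (hg : g ^ 4 = f ^ 4) (h : x * u * x⁻¹ = f ^ k * u) :
    ∃ e, x * f ^ e * f * (x * f ^ e)⁻¹ = g ∧ x * f ^ e * u = u * (x * f ^ e) := by
  have f8 : f ^ 8 = 1 := by rw [← hf, pow_orderOf_eq_one]
  have h1 : f ^ (6 * k) = f ^ 0 := by rw [← sq_fu hf huu huf, ← h, conj_mul, huu]; simp
  rw [pow_inj8 hf] at h1
  rcases (by omega : k % 8 = 0 ∨ k % 8 = 4) with e | e
  · refine ⟨0, by simpa using hx, ?_⟩
    rw [pow_eq_pow_mod k f8, e, pow_zero, one_mul] at h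
    simpa using mul_inv_eq_iff_eq_mul.1 h
  · refine ⟨1, by rw [← hx]; group, ?_⟩
    rw [pow_eq_pow_mod k f8, e] at h
    have h2 : f * u = f ^ 4 * u * f := by
      rw [mul_assoc, huf, ← mul_assoc, ← pow_add, show 4 + 5 = 8 + 1 from rfl, pow_add, f8, one_mul, pow_one]
    have h3 : x * f ^ 4 = f ^ 4 * x := mul_inv_eq_iff_eq_mul.1 ((conj_pow_eq hx 4).trans hg)
    have h4 : x * u = f ^ 4 * u * x := mul_inv_eq_iff_eq_mul.1 h
    rw [pow_one, mul_assoc, h2, ← mul_assoc, ← mul_assoc, h3, mul_assoc _ x, h4, ← mul_assoc, ← mul_assoc, ← pow_add,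
      f8, one_mul, mul_assoc]

end

theorem exists_rel [Finite G] {P : Subgroup G} (hP : Nat.card P = 64) {f : G} (hfP : f ∈ P) (hf : orderOf f = 8)
    (hself : ∀ x ∈ P, x * f = f * x → x ∈ zpowers f)
    (hodd : ∀ k ∈ ({3, 5, 7} : Set ℕ), ∃ x ∈ P, x * f * x⁻¹ = f ^ k) :
    ∃ u ∈ P, ∃ a ∈ P, ∃ b ∈ P, ∃ p : Fin 8, Rel p f u a b := by
  obtain ⟨u, hu, b0, hb0, huu, huf, hb0f, hN, hbb⟩ := exists_fub hP hfP hf hself hodd
  have f8 : f ^ 8 = 1 := by rw [← hf, pow_orderOf_eq_one]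
  have ui : u⁻¹ = u := inv_eq_of_mul_eq_one_right huu
  have fu2 : (f * u) ^ 2 = f ^ 6 := by simpa [pow_two] using sq_fu hf huu huf 1
  have fu4 : (f * u) ^ 4 = f ^ 4 := by
    rw [show 4 = 2 * 2 from rfl, pow_mul, fu2, ← pow_mul, pow_inj8 hf]
  -- `b`
  obtain ⟨b, hb, hbf, hbu⟩ : ∃ b ∈ P, b * f * b⁻¹ = f * u ∧ b * u = u * b := by
    obtain ⟨r, -, hr⟩ := exists_pow_of_mem hf (H9.conj_mem_of_mem_normalizer hbb (mem_zpowers f))
    have h1 : b0 * u * b0⁻¹ = f ^ (5 * (7 + r)) * u := by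
      have e1 : f ^ 7 = f⁻¹ := eq_inv_of_mul_eq_one_left (by rw [← pow_succ, f8])
      have e2 : b0 * u * b0⁻¹ = (b0 * f * b0⁻¹)⁻¹ * (b0 * (f * u) * b0⁻¹) := by group
      rw [e2, hb0f, ← hb0f, show b0 * (b0 * f * b0⁻¹) * b0⁻¹ = b0 * b0 * f * (b0 * b0)⁻¹ by group, hr, hb0f,
        mul_inv_rev, ui, ← e1, mul_assoc, ← pow_add, mul_pow_of huf, pow_mul]
    obtain ⟨e, h2, h3⟩ := adjust hf huu huf hb0f fu4 h1
    exact ⟨_, mul_mem hb0 (pow_mem hfP e), h2, h3⟩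
  -- `a`
  obtain ⟨a, ha, haf, hau⟩ : ∃ a ∈ P, a * f * a⁻¹ = f ^ 7 ∧ a * u = u * a := by
    obtain ⟨a0, ha0, h0⟩ := hodd 7 (by simp)
    obtain ⟨r, -, hr⟩ := hN a0 ha0 (H9.mem_normalizer_of_conj_mem fun w hw => by
      obtain ⟨e, -, rfl⟩ := exists_pow_of_mem hf hw
      rw [conj_pow_eq h0]; exact pow_mem (pow_mem (mem_zpowers f) _) _)
    have e2 : a0 * u * a0⁻¹ = f * (f * u) ^ r := by
      rw [← hr, ← conj_mul, h0, ← mul_assoc, ← pow_succ', f8, one_mul]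
    obtain ⟨k, hk | hk⟩ := pow_fu hf huu huf r
    · rw [hk, ← pow_succ'] at e2
      have e3 : a0 * (f ^ (7 * (k + 1))) * a0⁻¹ = f ^ (k + 1) := by
        rw [conj_pow_eq h0, ← pow_mul, pow_inj8 hf]; omega
      exact absurd (by simpa using e2.trans e3.symm) (u_notMem hf huu huf _)
    · rw [hk, ← mul_assoc, ← pow_succ'] at e2
      obtain ⟨e, h2, h3⟩ := adjust hf huu huf h0 (by rw [← pow_mul, pow_inj8 hf]) e2
      exact ⟨_, mul_mem ha0 (pow_mem hfP e), h2, h3⟩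
  have haf' : a * f = f ^ 7 * a := mul_inv_eq_iff_eq_mul.1 haf
  have hbf' : b * f = f * u * b := mul_inv_eq_iff_eq_mul.1 hbf
  have even_of : ∀ e, u * f ^ e = f ^ e * u → e % 2 = 0 := fun e h => by
    rw [mul_pow_of huf, mul_left_inj, ← pow_mul, pow_inj8 hf] at h
    omega
  obtain ⟨i, hi, haa⟩ : ∃ i < 2, a * a = f ^ (4 * i) := by
    obtain ⟨e, he, h⟩ := exists_pow_of_mem hf (hself (a * a) (mul_mem ha ha) (by
      rw [mul_assoc, haf', ← mul_assoc, mul_pow_of haf', ← pow_mul, pow_eq_pow_mod _ f8]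
      simp [mul_assoc]))
    have h1 : a * f ^ e = f ^ e * a := by rw [← h, mul_assoc]
    rw [mul_pow_of haf', mul_left_inj, ← pow_mul, pow_inj8 hf] at h1
    exact ⟨e / 4, by omega, by rw [h]; congr 1; omega⟩
  obtain ⟨k, hk, hbb⟩ : ∃ k < 2, b * b = f ^ (4 * k) := by
    obtain ⟨e, he, h⟩ := exists_pow_of_mem hf (hself (b * b) (mul_mem hb hb) (by
      rw [mul_assoc, hbf', ← mul_assoc, ← mul_assoc, hbf', mul_assoc _ b u, hbu]
      simp only [mul_assoc]
      rw [← mul_assoc u u, huu, one_mul]))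
    have h0 := even_of e (by rw [← h, ← mul_assoc, ← hbu, mul_assoc, ← hbu, mul_assoc])
    have h1 : b * f ^ e = f ^ e * b := by rw [← h, mul_assoc]
    obtain ⟨e, rfl⟩ : ∃ d, e = 2 * d := ⟨e / 2, by omega⟩
    rw [mul_pow_of hbf', mul_left_inj, pow_mul, fu2, ← pow_mul, pow_inj8 hf] at h1
    exact ⟨e / 2, by omega, by rw [h]; congr 1; omega⟩
  have hab : a * b * f = f ^ 7 * u * (a * b) := by
    rw [mul_assoc, hbf', ← mul_assoc, ← mul_assoc, haf', mul_assoc _ a u, hau]; simp only [mul_assoc]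
  have habu : a * b * u = u * (a * b) := by rw [mul_assoc, hbu, ← mul_assoc, hau, mul_assoc]
  have f7u2 : (f ^ 7 * u) ^ 2 = f ^ 2 := by rw [pow_two, sq_fu hf huu huf, pow_inj8 hf]
  have hab2 : ∀ d, a * b * f ^ (2 * d) = f ^ (2 * d) * (a * b) := fun d => by
    rw [mul_pow_of hab, pow_mul, f7u2, ← pow_mul]
  obtain ⟨e, he, hc⟩ := exists_pow_of_mem hf (hself (a * b * (a * b) * u) (mul_mem (mul_mem (mul_mem ha hb) (mul_mem ha hb)) hu) (by
    have e1 : a * b * (a * b) * f = f ^ 5 * (a * b * (a * b)) := by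
      rw [mul_assoc (a * b), hab, ← mul_assoc, ← mul_assoc (a * b), mul_pow_of hab, mul_assoc _ (a * b) u, habu,
        show 7 = 2 * 3 + 1 from rfl, pow_succ (_ * u), pow_mul, f7u2, ← pow_mul]
      simp only [mul_assoc]
      rw [← mul_assoc u u, huu, one_mul, ← mul_assoc, ← pow_add, pow_eq_pow_mod _ f8]
    rw [mul_assoc, huf, ← mul_assoc, mul_pow_of e1, ← pow_mul, pow_eq_pow_mod _ f8]
    simp [mul_assoc]))
  have h0 := even_of e (by
    rw [← hc, ← mul_assoc, ← mul_assoc, ← habu, mul_assoc (a * b) u, ← habu]; simp only [mul_assoc])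
  obtain ⟨e, rfl⟩ : ∃ d, e = 2 * d := ⟨e / 2, by omega⟩
  have hc' : a * b * (a * b) = f ^ (2 * e) * u := by rw [← hc, mul_assoc _ u u, huu, mul_one]
  -- replace `a` by `f^(2 * (e / 2)) * a`
  obtain ⟨a', ha'⟩ : ∃ a', a' = f ^ (2 * (e / 2)) * a := ⟨_, rfl⟩
  have k1 : a' * f = f ^ 7 * a' := by rw [ha', mul_assoc, haf', ← mul_assoc, ← mul_assoc, ← pow_add, ← pow_add, add_comm]
  have k2 : a' * u = u * a' := by
    rw [ha', mul_assoc, hau, ← mul_assoc, ← mul_assoc, mul_pow_of huf, ← pow_mul, mul_left_inj, mul_left_inj,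
      pow_inj8 hf]; omega
  have k3 : a' * a' = f ^ (4 * i) := by
    rw [ha', mul_assoc, ← mul_assoc a, mul_pow_of haf', mul_assoc, haa, ← pow_mul, ← pow_add, ← pow_add, pow_inj8 hf]
    omega
  have k4 : a' * b * (a' * b) = f ^ (2 * (e % 2)) * u := by
    rw [ha', mul_assoc _ a b, mul_assoc, ← mul_assoc (a * b), hab2, mul_assoc, hc', ← mul_assoc, ← mul_assoc,
      ← pow_add, ← pow_add, mul_left_inj, pow_inj8 hf]
    omega
  refine ⟨u, hu, a', ha' ▸ mul_mem (pow_mem hfP _) ha, b, hb, ⟨i + 2 * k + 4 * (e % 2), by omega⟩,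
    f8, huu, huf, k1, k2, hbf', hbu, ?_, ?_, ?_⟩
  · rw [k3, c1]; congr 1; simp only; omega
  · rw [hbb, c2]; congr 1; simp only; omega
  · have k5 : b * f ^ (4 * k) = f ^ (4 * k) * b := by rw [← hbb, mul_assoc]
    have k6 : a' * (b * a') * (b * b) = a' * (f ^ (c3 (i + 2 * k + 4 * (e % 2)) % 8) * u * a' * b) * (b * b) := by
      calc _ = a' * b * (a' * b) * b := by group
        _ = f ^ (2 * (e % 2)) * u * b := by rw [k4]
        _ = _ := by
          rw [hbb, mul_assoc _ _ (f ^ (4 * k)), mul_assoc _ b, k5, ← mul_assoc, ← mul_assoc, ← mul_assoc, ← mul_assoc,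
            mul_pow_of k1, mul_assoc _ a' u, k2, mul_assoc _ _ a', mul_assoc u, k3, mul_assoc _ _ (f ^ (4 * k)),
            mul_assoc u, ← pow_add, mul_pow_of huf, ← mul_assoc, ← pow_mul, ← pow_mul, ← pow_add, mul_left_inj,
            mul_left_inj, pow_inj8 hf]
          have := Nat.mod_lt e (show 0 < 2 by norm_num)
          generalize e % 2 = j at this ⊢
          interval_cases i <;> interval_cases k <;> interval_cases j <;> rfl
    exact mul_left_cancel (mul_right_cancel k6)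

/-- A Sylow subgroup as in the Brauer-Fong theorem is one of the eight model groups. -/
theorem exists_model [Finite G] {P : Subgroup G} (hP : Nat.card P = 64) {f : G} (hfP : f ∈ P) (hf : orderOf f = 8)
    (hself : ∀ x ∈ P, x * f = f * x → x ∈ zpowers f)
    (hodd : ∀ k ∈ ({3, 5, 7} : Set ℕ), ∃ x ∈ P, x * f * x⁻¹ = f ^ k) :
    ∃ (p : Fin 8) (φ : T p →* G), Function.Injective φ ∧ φ.range = P := by
  obtain ⟨u, hu, a, ha, b, hb, p, h⟩ := exists_rel hP hfP hf hself hodd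
  obtain ⟨φ, hφ⟩ := h.exists_hom
  have hi : Function.Injective φ := injective_of φ (by
    rw [hφ, (co_val p).2, ph, mu]
    simp only [pow_zero, mul_one, Nat.reduceMod, Nat.reduceDiv]
    rw [← pow_zero f, Ne, pow_inj8 hf]; norm_num)
  refine ⟨p, φ, hi, eq_of_le_of_card_ge ?_ ?_⟩
  · rintro _ ⟨x, rfl⟩
    rw [hφ]
    exact mul_mem (mul_mem (mul_mem (pow_mem hfP _) (pow_mem hu _)) (pow_mem ha _)) (pow_mem hb _)
  · rw [hP, ← Nat.card_congr (MonoidHom.ofInjective hi).toEquiv, T.card]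

end Cfsg.Agent.H4.BF
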