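import Cfsg.Agent.H4.BF1

/-!
# Facts about the model groups
-/

set_option autoImplicit false

namespace Cfsg.Agent.H4.BF

open Subgroup T

namespace T

variable {p : Fin 8}

/-- the central involution -/
def z : T p := mk 4
/-- the involution with centraliser of index two -/
def u : T p := mk 8

theorem z_spec : ∀ p : Fin 8, (z : T p) * z = 1 ∧ (z : T p) ≠ 1 ∧ (u : T p) * u = 1 ∧ (u : T p) ≠ 1 ∧ (u : T p) ≠ z ∧
    mk 1 * (u : T p) * (mk 1)⁻¹ = u * z ∧ mk 1 * ((u : T p) * z) * (mk 1)⁻¹ = u ∧ ∀ x : T p, x * z = z * x := by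
  decide +kernel

theorem inv_cases : ∀ (p : Fin 8) (x : T p), x * x = 1 → x = 1 ∨ x = z ∨ x = u ∨ x = u * z ∨
    (∃ y : T p, y * x = x * y ∧ y * y = z) ∨ (u * x = x * u ∧ ∃ w : T p, w * x * w⁻¹ = u * x) := by decide +kernel

theorem sq_cases : ∀ (p : Fin 8) (y : T p), y * y * (y * y) = 1 →
    y * y = 1 ∨ y * y = z ∨ y * y = u ∨ y * y = u * z := by decide +kernel

theorem conj_z : ∀ (p : Fin 8) (y : T p), y * y = 1 → y = 1 ∨ y = z ∨ ∃ w : T p, w * y * w⁻¹ = y * z := by decide +kernel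

theorem roots_comm : ∀ (p : Fin 8) (w : T p), (w * w = u ∨ w * w = u * z) → p.1 < 4 ∧ ∀ w' : T p, w' * w' = w * w →
    w * w' = w' * w := by decide +kernel

theorem bad : ∀ p : Fin 8, p = 0 ∨ ∃ y : T p, y * u = u * y ∧ y * y = z ∧
    (4 ≤ p.1 ∨ ∃ y' : T p, y' * u = u * y' ∧ y' * y' = z ∧ y * y' ≠ y' * y) := by decide +kernel

/-- Membership in a set given by a mask. -/
def msk (m : ℕ) (x : T 0) : Prop := Nat.testBit m x.v = true

instance (m : ℕ) : DecidablePred (msk m) := fun _ => inferInstanceAs (Decidable (_ = true))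

/-- A subgroup given by a mask. -/
def sub (m : ℕ) (h : msk m 1 ∧ ∀ x, msk m x → msk m x⁻¹ ∧ ∀ y, msk m y → msk m (x * y)) :
    Subgroup (T 0) where
  carrier := {x | msk m x}
  mul_mem' ha hb := (h.2 _ ha).2 _ hb
  one_mem' := h.1
  inv_mem' ha := (h.2 _ ha).1

theorem card_sub (m : ℕ) (h) : Nat.card (sub m h) = (Finset.univ.filter (msk m)).card := by
  rw [← Fintype.card_subtype, ← Nat.card_eq_fintype_card]; rfl

theorem card_cent (y : T 0) : Nat.card (centralizer ({y} : Set (T 0))) =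
    (Finset.univ.filter fun x : T 0 => x * y = y * x).card := by
  rw [← Fintype.card_subtype, ← Nat.card_eq_fintype_card]
  exact Nat.card_congr (Equiv.subtypeEquivRight fun x => mem_centralizer_singleton_iff)

/-- classes of involutions -/
abbrev Cc := msk 1431633920
/-- classes of involutions -/
abbrev Y1 := msk 11141120
/-- classes of involutions -/
abbrev Y2 := msk 9809402938366361600
/-- classes of involutions -/
abbrev X1 := msk 18764712116224
/-- classes of involutions -/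
abbrev X2 := msk 75058848464896
/-- classes of involutions -/
abbrev A := msk 75058848469248
/-- classes of involutions -/
abbrev B := msk 9809421703089618944

/-- representatives -/
def a : T 0 := mk 16
/-- representatives -/
def a' : T 0 := mk 18
/-- representatives -/
def y : T 0 := mk 17
/-- representatives -/
def t : T 0 := mk 32
/-- representatives -/
def x : T 0 := mk 34
/-- representatives -/
def y2 : T 0 := mk 49

/-- the normal four-group -/
def V : Subgroup (T 0) := sub 4369 (by decide +kernel)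
/-- a normal elementary abelian subgroup of order eight -/
def E : Subgroup (T 0) := sub 75058848469265 (by decide +kernel)
/-- the extraspecial subgroup -/
def Q : Subgroup (T 0) := sub 12297735558912431445 (by decide +kernel)
/-- maximal subgroups -/
def Ma : Subgroup (T 0) := sub 6148914691236517205 (by decide +kernel)
/-- maximal subgroups -/
def Mb : Subgroup (T 0) := sub 18446462598732906495 (by decide +kernel)
/-- maximal subgroups -/
def Mc : Subgroup (T 0) := sub 6149008516228732245 (by decide +kernel)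
/-- the centraliser of `t` -/
def Ct : Subgroup (T 0) := sub 2459547111782486289 (by decide +kernel)
/-- a maximal subgroup of `Ct` -/
def M1 : Subgroup (T 0) := sub 18764712120593 (by decide +kernel)
/-- a maximal subgroup of `Ct` -/
def M2 : Subgroup (T 0) := sub 572657937 (by decide +kernel)
/-- the normaliser of the four-group generated by `z` and `a` -/
def Na : Subgroup (T 0) := sub 1431655765 (by decide +kernel)

instance (w : T 0) : Decidable (w ∈ V) := inferInstanceAs (Decidable (msk _ w))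
instance (w : T 0) : Decidable (w ∈ E) := inferInstanceAs (Decidable (msk _ w))
instance (w : T 0) : Decidable (w ∈ Q) := inferInstanceAs (Decidable (msk _ w))
instance (w : T 0) : Decidable (w ∈ Ma) := inferInstanceAs (Decidable (msk _ w))
instance (w : T 0) : Decidable (w ∈ Mb) := inferInstanceAs (Decidable (msk _ w))
instance (w : T 0) : Decidable (w ∈ Mc) := inferInstanceAs (Decidable (msk _ w))
instance (w : T 0) : Decidable (w ∈ Ct) := inferInstanceAs (Decidable (msk _ w))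
instance (w : T 0) : Decidable (w ∈ M1) := inferInstanceAs (Decidable (msk _ w))
instance (w : T 0) : Decidable (w ∈ M2) := inferInstanceAs (Decidable (msk _ w))
instance (w : T 0) : Decidable (w ∈ Na) := inferInstanceAs (Decidable (msk _ w))

theorem idx_Ma : Ma.relIndex ⊤ = 2 := relIndex_eq_two_iff.mpr ⟨mk 1, trivial, by simp only [mem_top, true_imp_iff]; decide +kernel⟩
theorem idx_Mb : Mb.relIndex ⊤ = 2 := relIndex_eq_two_iff.mpr ⟨a, trivial, by simp only [mem_top, true_imp_iff]; decide +kernel⟩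
theorem idx_Mc : Mc.relIndex ⊤ = 2 := relIndex_eq_two_iff.mpr ⟨a, trivial, by simp only [mem_top, true_imp_iff]; decide +kernel⟩
theorem idx_Q : Q.relIndex ⊤ = 2 := relIndex_eq_two_iff.mpr ⟨a, trivial, by simp only [mem_top, true_imp_iff]; decide +kernel⟩
theorem idx_M1 : M1.relIndex Ct = 2 := relIndex_eq_two_iff.mpr ⟨y, by decide +kernel⟩
theorem idx_M2 : M2.relIndex Ct = 2 := relIndex_eq_two_iff.mpr ⟨t, by decide +kernel⟩
theorem card_Q : Nat.card Q = 32 := (card_sub _ _).trans (by decide +kernel)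
theorem card_E : Nat.card E = 8 := (card_sub _ _).trans (by decide +kernel)
theorem card_V : Nat.card V = 4 := (card_sub _ _).trans (by decide +kernel)

theorem mem_V : ∀ w, w ∈ V ↔ w = 1 ∨ w = z ∨ w = u ∨ w = u * z := by decide +kernel
theorem mem_E : ∀ w, w ∈ E ↔ w = 1 ∨ w = z ∨ A w := by decide +kernel
theorem mem_Ct : ∀ w, w ∈ Ct ↔ w * t = t * w := by decide +kernel
theorem mem_Na : ∀ w, w ∈ Na → w * a * w⁻¹ = a ∨ w * a * w⁻¹ = a * z := by decide +kernel
theorem invol : ∀ w : T 0, w * w = 1 → w ∈ V ∨ Cc w ∨ Y1 w ∨ Y2 w ∨ X1 w ∨ X2 w := by decide +kernel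
theorem invol' : ∀ w : T 0, w * w = 1 → w = 1 ∨ w = z ∨ A w ∨ B w ∨ Cc w := by decide +kernel
theorem invol_Q : ∀ w ∈ Q, w * w = 1 → w = 1 ∨ w = z ∨ A w ∨ B w := by decide +kernel
theorem invol_Ma : ∀ w ∈ Ma, w * w = 1 → w ∈ V ∨ Cc w ∨ X1 w ∨ X2 w := by decide +kernel
theorem invol_Mb : ∀ w ∈ Mb, w * w = 1 → w ∈ V ∨ Y2 w := by decide +kernel
theorem invol_Mc : ∀ w ∈ Mc, w * w = 1 → w ∈ V ∨ Y1 w := by decide +kernel
theorem Cc_conj : ∀ w, Cc w → ∃ h : T 0, h * a * h⁻¹ = w := by decide +kernel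
theorem Y1_conj : ∀ w, Y1 w → ∃ h : T 0, h * y * h⁻¹ = w := by decide +kernel
theorem Y2_conj : ∀ w, Y2 w → ∃ h : T 0, h * y2 * h⁻¹ = w := by decide +kernel
theorem X1_conj : ∀ w, X1 w → ∃ h : T 0, h * t * h⁻¹ = w := by decide +kernel
theorem X2_conj : ∀ w, X2 w → ∃ h : T 0, h * x * h⁻¹ = w := by decide +kernel
theorem A_cases : ∀ w, A w ↔ w = u ∨ w = u * z ∨ X2 w := by decide +kernel
theorem B_cases : ∀ w, B w ↔ X1 w ∨ Y1 w ∨ Y2 w := by decide +kernel
theorem reps : a * a = 1 ∧ y * y = 1 ∧ y2 * y2 = 1 ∧ t * t = 1 ∧ x * x = 1 ∧ a' * a' = 1 ∧ a ≠ 1 ∧ y ≠ 1 ∧ y2 ≠ 1 ∧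
    t ≠ 1 ∧ x ≠ 1 ∧ Cc a ∧ Cc a' ∧ B t ∧ B y ∧ B y2 ∧ A x ∧ A u ∧ A (u * z) ∧ a * u = u * a ∧ a' * u = u * a' ∧
    a * a' * (a * a') = z ∧ a ∉ V ∧ a' ∉ V ∧ a * a' ≠ a' * a := by decide +kernel
theorem Cc_sq : ∀ c, Cc c → ∀ c', Cc c' → c * c' * (c * c') = 1 ∨ c * c' * (c * c') = z := by decide +kernel
theorem cent_u : ∀ w : T 0, w * w = 1 → (w * u = u * w ∨ w * (u * z) = u * z * w) → w ∈ V ∨ Cc w ∨ X1 w ∨ X2 w := by
  decide +kernel
theorem card_cent_le : ∀ w : T 0, w * w = 1 → w ∈ V ∨ (Finset.univ.filter fun x : T 0 => x * w = w * x).card ≤ 16 := by decide +kernel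
theorem card_cent_B : ∀ w : T 0, B w ∨ X2 w → (Finset.univ.filter fun x : T 0 => x * w = w * x).card = 16 := by decide +kernel
theorem cent_y : ∀ w ∈ V, w * y = y * w → w = 1 ∨ w = z := by decide +kernel
theorem B_spec : ∀ w, B w → w * w = 1 ∧ w ≠ 1 ∧ w ∈ Q ∧ w ∉ V ∧ (∃ r : T 0, r * w = w * r ∧ r * r = z) ∧
    (∀ r : T 0, r * w = w * r → r * r = 1 ∨ r * r = z) ∧ (w * u = u * w → w * t = t * w ∧ w * (t * z) = t * z * w) := by
  decide +kernel
theorem A_spec : ∀ w, A w → w * w = 1 ∧ w ≠ 1 ∧ w ≠ z ∧ w ∈ Q ∧ w ∈ E ∧ (∃ r : T 0, r * w = w * r ∧ r * r = z) ∧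
    w * u = u * w ∧ ((w * t = t * w ∨ w * (t * z) = t * z * w) → w = u ∨ w = u * z) := by decide +kernel
theorem Cc_spec : ∀ w, Cc w → w * w = 1 ∧ w ≠ 1 ∧ w ≠ z ∧ w ∉ Q ∧ w * u = u * w := by decide +kernel
theorem near_central : ∀ w : T 0, (∀ s : T 0, s * w * s⁻¹ = w ∨ s * w * s⁻¹ = w * z) → w * w = 1 → w ∈ V := by
  decide +kernel
theorem Q_spec : ∀ w ∈ Q, (w * w = 1 ∨ w * w = z) ∧ (w * t * w⁻¹ = t ∨ w * t * w⁻¹ = t * z) ∧
    (∀ s : T 0, s * w * s⁻¹ ∈ Q) ∧ ((∀ q ∈ Q, q * w = w * q) → w = 1 ∨ w = z) ∧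
    ∀ q ∈ Q, w * q * w⁻¹ = q ∨ w * q * w⁻¹ = q * z := by decide +kernel

/-- an automorphism exchanging two classes -/
def sw : T 0 →* T 0 := MonoidHom.mk' (fun w => mk (lk
  (nat_lit 0xffef7cefae78df6d74cf2c70a68beeb6caea8609e69648e26587de75c6da4505d65544d23ce34c2ca2481c61440c2040) w.v))
  (by decide +kernel)

theorem sw_spec : sw z = z ∧ X1 (sw x) ∧ X2 (sw t) ∧ Y1 (sw y) ∧ Y2 (sw y2) ∧ ∀ w : T 0, ∃ w' : T 0, sw w' = w := by decide +kernel

end T

end Cfsg.Agent.H4.BF
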