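import Cfsg.Agent.H4.BF2
import Cfsg.Agent.H8.Dich3

/-!
# Fusion of involutions in a simple group with one of the model groups as a Sylow subgroup
-/

set_option autoImplicit false
set_option linter.unusedSectionVars false

namespace Cfsg.Agent.H4.BF

open Subgroup T Cfsg.Agent.H8

local instance : Fact (Nat.Prime 2) := Nat.fact_prime_two

/-- An identification of a Sylow subgroup with a model group. -/
structure Fm (p : Fin 8) (G : Type*) [Group G] where
  /-- the embedding -/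
  φ : T p →* G
  inj : Function.Injective φ
  syl : IsSylowIn 2 φ.range ⊤

variable {G : Type*} [Group G] {p : Fin 8}

namespace Fm

variable (F : Fm p G)

/-- conjugacy in `G` -/
def R (v w : T p) : Prop := IsConj (F.φ v) (F.φ w)

/-- a conjugation map -/
def Cj (g : G) (N : T p → Prop) (τ : T p → T p) : Prop := ∀ n, N n → g * F.φ n * g⁻¹ = F.φ (τ n)

variable {F}

theorem R.refl (v : T p) : F.R v v := IsConj.refl _
theorem R.symm {v w : T p} (h : F.R v w) : F.R w v := IsConj.symm h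
theorem R.trans {v w s : T p} (h : F.R v w) (h' : F.R w s) : F.R v s := IsConj.trans h h'
theorem R.of {v w : T p} (h : ∃ s, s * v * s⁻¹ = w) : F.R v w := by
  obtain ⟨s, rfl⟩ := h
  exact isConj_iff.mpr ⟨F.φ s, by simp only [map_mul, map_inv]⟩
theorem R.of_eq {v w : T p} {g : G} (h : g * F.φ v * g⁻¹ = F.φ w) : F.R v w := isConj_iff.mpr ⟨g, h⟩
theorem R.sq {v w : T p} (h : F.R v w) (hv : v * v = 1) : w * w = 1 := by
  obtain ⟨g, hg⟩ := isConj_iff.mp h
  exact F.inj (by rw [map_mul, ← hg, conj_mul, ← map_mul, hv]; simp)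
theorem R.ne_one {v w : T p} (h : F.R v w) (hv : v ≠ 1) : w ≠ 1 := by
  rintro rfl
  exact hv (F.inj (by simpa [R] using h))
theorem R.uz : F.R u (u * z) := R.of ⟨_, (z_spec p).2.2.2.2.2.1⟩

theorem comm {v w : T p} (h : v * w = w * v) : F.φ v * F.φ w = F.φ w * F.φ v := by rw [← map_mul, h, map_mul]
theorem comm_z (w : T p) : F.φ w * F.φ z = F.φ z * F.φ w := comm ((z_spec p).2.2.2.2.2.2.2 w)
theorem sq {v : T p} (h : v * v = 1) : F.φ v * F.φ v = 1 := by rw [← map_mul, h, map_one]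
theorem ne_one {v : T p} (h : v ≠ 1) : F.φ v ≠ 1 := fun e => h (F.inj (by rwa [map_one]))
theorem ord {v : T p} (h : v * v = 1) (h1 : v ≠ 1) : orderOf (F.φ v) = 2 := H9.orderOf_two_of (ne_one h1) (sq h)
theorem zz : F.φ z * F.φ z = 1 := sq (z_spec p).1
theorem pg (B : Subgroup (T p)) : IsPGroup 2 (B.map F.φ) := ((pgroup p).to_subgroup B).map _
theorem card_map (B : Subgroup (T p)) : Nat.card (B.map F.φ) = Nat.card B := card_map_of_injective F.inj
theorem mem_map' {B : Subgroup (T p)} {v : T p} : F.φ v ∈ B.map F.φ ↔ v ∈ B := mem_map_iff_mem F.inj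

namespace Cj

variable {g : G} {N : T p → Prop} {τ : T p → T p} (h : F.Cj g N τ) {v w : T p}
include h

theorem r (hv : N v) : F.R v (τ v) := R.of_eq (h v hv)
theorem inj (hv : N v) (hw : N w) (e : τ v = τ w) : v = w :=
  F.inj (by have := (h v hv).trans (e ▸ (h w hw).symm); simpa using this)
theorem mul (hv : N v) (hw : N w) (hvw : N (v * w)) : τ (v * w) = τ v * τ w :=
  F.inj (by rw [map_mul, ← h v hv, ← h w hw, ← h _ hvw, map_mul, conj_mul])
theorem mul' (hv : N v) (hw : N w) : F.R (v * w) (τ v * τ w) :=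
  R.of_eq (g := g) (by rw [map_mul, map_mul, ← h v hv, ← h w hw, conj_mul])
theorem comm_iff (hv : N v) (hw : N w) : τ v * τ w = τ w * τ v ↔ v * w = w * v := by
  rw [← F.inj.eq_iff, map_mul, map_mul, ← h v hv, ← h w hw, conj_mul, conj_mul, ← map_mul, ← map_mul,
    mul_left_inj, mul_right_inj, F.inj.eq_iff]
theorem sq_eq {s : T p} (hv : N v) (hs : N s) (e : v * v = s) : τ v * τ v = τ s := by
  subst e; exact (h.mul hv hv hs).symm

end Cj

variable [Finite G]

theorem syl_of {H : Subgroup G} (h : F.φ.range ≤ H) : IsSylowIn 2 ((⊤ : Subgroup (T p)).map F.φ) H := by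
  rw [← MonoidHom.range_eq_map]; exact F.syl.of_le h le_top

theorem ext {H : Subgroup G} {B N : Subgroup (T p)} (hB : IsSylowIn 2 (B.map F.φ) H) {g : G}
    (hN : ∀ n ∈ N, g * F.φ n * g⁻¹ ∈ H) :
    ∃ h ∈ H, ∃ τ, F.Cj (h * g) (· ∈ N) τ ∧ ∀ n ∈ N, τ n ∈ B := by
  obtain ⟨P, hP, hle⟩ := exists_isSylowIn_ge (pgroup_cj (pg (F := F) N) g) (K := H) (by
    rw [cj_le_iff]
    rintro _ ⟨n, hn, rfl⟩
    exact mem_cj.2 (by simpa using hN n hn))
  obtain ⟨h, hh, e⟩ := hP.exists_cj_eq hB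
  have key : ∀ n, ∃ m, n ∈ N → (h * g * F.φ n * (h * g)⁻¹ = F.φ m ∧ m ∈ B) := fun n => by
    by_cases hn : n ∈ N
    · obtain ⟨m, hm, e'⟩ : h * (g * F.φ n * g⁻¹) * h⁻¹ ∈ B.map F.φ :=
        e ▸ conj_mem_cj h (hle (conj_mem_cj g (mem_map_of_mem _ hn)))
      exact ⟨m, fun _ => ⟨by rw [e']; group, hm⟩⟩
    · exact ⟨1, fun h => absurd h hn⟩
  choose τ hτ using key
  exact ⟨h, hh, τ, fun n hn => (hτ n hn).1, fun n hn => (hτ n hn).2⟩

theorem ext_cent {v w : T p} (hw : IsSylowIn 2 ((centralizer {w}).map F.φ) (centralizer {F.φ w})) (h : F.R v w) :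
    ∃ g τ, F.Cj g (fun n => n * v = v * n) τ ∧ τ v = w := by
  obtain ⟨g, hg⟩ := isConj_iff.mp h
  obtain ⟨h, hh, τ, h1, -⟩ := ext hw (N := centralizer {v}) (g := g) fun n hn => by
    rw [mem_centralizer_singleton_iff, ← hg]
    exact H3.conj_comm g (comm (mem_centralizer_singleton_iff.1 hn))
  refine ⟨h * g, τ, fun n hn => h1 n (mem_centralizer_singleton_iff.2 hn), F.inj ?_⟩
  rw [← h1 v (mem_centralizer_singleton_iff.2 rfl),
    show h * g * F.φ v * (h * g)⁻¹ = h * (g * F.φ v * g⁻¹) * h⁻¹ by group, hg, mem_centralizer_singleton_iff.1 hh,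
    mul_inv_cancel_right]

theorem range_le : F.φ.range ≤ centralizer {F.φ z} := by
  rintro _ ⟨w, rfl⟩; exact mem_centralizer_singleton_iff.2 (comm_z w)

theorem syl_z : IsSylowIn 2 ((centralizer {z}).map F.φ) (centralizer {F.φ z}) := by
  have : centralizer ({z} : Set (T p)) = ⊤ :=
    eq_top_iff.2 fun w _ => mem_centralizer_singleton_iff.2 ((z_spec p).2.2.2.2.2.2.2 w)
  rw [this]; exact syl_of range_le

theorem syl_cent {w : T p} (h : ∀ w', F.R w w' →
    Nat.card (centralizer ({w'} : Set (T p))) ≤ Nat.card (centralizer ({w} : Set (T p)))) :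
    IsSylowIn 2 ((centralizer {w}).map F.φ) (centralizer {F.φ w}) := by
  have hle : (centralizer {w}).map F.φ ≤ centralizer {F.φ w} := by
    rintro _ ⟨n, hn, rfl⟩
    exact mem_centralizer_singleton_iff.2 (comm (mem_centralizer_singleton_iff.1 hn))
  obtain ⟨P, hP, hle'⟩ := exists_isSylowIn_ge (pg (F := F) _) hle
  obtain ⟨P', hP', h1⟩ := exists_isSylowIn_ge hP.pgroup (le_top (a := P))
  obtain ⟨k, -, e⟩ := hP'.exists_cj_eq F.syl
  obtain ⟨w', hw'⟩ : k * F.φ w * k⁻¹ ∈ F.φ.range :=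
    e ▸ conj_mem_cj k (h1 (hle' (mem_map_of_mem _ (mem_centralizer_singleton_iff.2 rfl))))
  refine hP.of_card_ge (pg _) hle ?_
  rw [← card_cj k, card_map]
  refine le_trans (card_le_of_le fun g hg => ?_) ((card_map (F := F) _).le.trans (h w' (R.of_eq hw'.symm)))
  obtain ⟨s, rfl⟩ : g ∈ F.φ.range := e ▸ cj_mono k h1 hg
  refine mem_map_of_mem _ (mem_centralizer_singleton_iff.2 (F.inj ?_))
  have h2 := cj_mono k hP.le hg
  rw [cj_centralizer_singleton, ← hw', mem_centralizer_singleton_iff] at h2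
  rwa [map_mul, map_mul]

theorem exists_R {g : G} (hg : g * g = 1) : ∃ w, IsConj (F.φ w) g := by
  obtain ⟨P, hP, h1⟩ := exists_isSylowIn_ge (SF.pgroup_zpowers_of_pow (p := 2) (by rw [pow_two, hg])) (le_top (a := zpowers g))
  obtain ⟨k, -, e⟩ := hP.exists_cj_eq F.syl
  obtain ⟨w, hw⟩ : k * g * k⁻¹ ∈ F.φ.range := e ▸ conj_mem_cj k (h1 (mem_zpowers g))
  exact ⟨w, (isConj_iff.2 ⟨k, hw.symm⟩).symm⟩

variable [IsSimpleGroup G] (hG : ¬ IsMulCommutative G)
include hG

theorem transfer {M : Subgroup (T p)} (hM : M.relIndex ⊤ = 2) {v : T p} (hv : v * v = 1) : ∃ w ∈ M, F.R v w := by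
  obtain ⟨g, w, hw, e⟩ := H6.thompson_transfer (Dich.index_ne_two_simple hG) (H := F.φ.range) (M := M.map F.φ)
    (by simpa [Dich.odd_iff] using F.syl.not_dvd_relIndex)
    (by rw [MonoidHom.range_eq_map, relIndex_map_map_of_injective _ _ F.inj, hM]) (t := F.φ v) (by rw [pow_two, sq hv])
  exact ⟨w, hw, R.of_eq (g := g⁻¹) (by rw [e, inv_inv])⟩

theorem R_zu : F.R z u := by
  by_contra hu
  obtain ⟨h1, h2, h3, h4, h5, h6, h7, h8⟩ := z_spec p
  obtain ⟨g, ⟨v, hv⟩, hne⟩ : ∃ g : G, g * F.φ z * g⁻¹ ∈ F.φ.range ∧ g * F.φ z * g⁻¹ ≠ F.φ z := by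
    by_contra hn
    push Not at hn
    exact (H7.Isolated.of_sylow F.syl.toSylowTop zz hn).eq_one_or_comm.elim (ne_one h2) hG
  have hzv : F.R z v := R.of_eq hv.symm
  have hvz : v ≠ z := fun e => hne (by rw [← hv, e])
  obtain ⟨k, τ, hk, hτ⟩ := ext_cent syl_z hzv.symm
  have hz : z * v = v * z := (h8 v).symm
  rcases inv_cases p v (hzv.sq h1) with e | e | e | e | ⟨w, e1, e2⟩ | ⟨e1, e2⟩
  · exact hzv.ne_one h2 e
  · exact hvz e
  · exact hu (e ▸ hzv)
  · exact hu ((e ▸ hzv).trans R.uz.symm)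
  · have e3 := hk.sq_eq e1 hz e2
    have e4 := hk.r hz
    rcases sq_cases p (τ w) (by rw [e3]; exact e4.sq h1) with e | e | e | e <;> rw [e3] at e
    · exact e4.ne_one h2 e
    · exact hvz (hk.inj rfl hz (hτ.trans e.symm))
    · exact hu (e ▸ e4)
    · exact hu ((e ▸ e4).trans R.uz.symm)
  · have e3 := hk.r e1
    rcases conj_z p (τ u) (e3.sq h3) with e | e | e
    · exact e3.ne_one h4 e
    · exact hu (e ▸ e3).symm
    · have e4 := hk.mul' e1 rfl
      rw [hτ] at e4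
      exact hu (((hzv.trans (R.of e2)).trans e4).trans ((e3.trans (R.of e)).symm))

theorem exists_g : ∃ g τ, F.Cj g (fun n => n * u = u * n) τ ∧ τ u = z ∧ (τ z = u ∨ τ z = u * z) := by
  obtain ⟨h1, h2, h3, h4, h5, h6, h7, h8⟩ := z_spec p
  obtain ⟨g, τ, hg, hτ⟩ := ext_cent syl_z (R_zu (F := F) hG).symm
  have hz : (z : T p) * u = u * z := (h8 u).symm
  refine ⟨g, τ, hg, hτ, ?_⟩
  have e1 : ∀ p : Fin 8, (T.mk 2 : T p) * u = u * T.mk 2 ∧ (T.mk 2 : T p) * T.mk 2 = z := by decide +kernel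
  have e3 := hg.sq_eq (e1 p).1 hz (e1 p).2
  have e4 := hg.r hz
  rcases sq_cases p (τ _) (by rw [e3]; exact e4.sq h1) with e | e | e | e <;> rw [e3] at e
  · exact absurd e (e4.ne_one h2)
  · exact absurd (hg.inj rfl hz (hτ.trans e.symm)) h5
  · exact Or.inl e
  · exact Or.inr e

include F in
theorem eq_zero : p = 0 := by
  obtain ⟨g, τ, hg, -, hτ⟩ := exists_g (F := F) hG
  have hz : (z : T p) * u = u * z := ((z_spec p).2.2.2.2.2.2.2 u).symm
  obtain h | ⟨w, e1, e2, h⟩ := bad p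
  · exact h
  have e3 := hg.sq_eq e1 hz e2
  obtain ⟨h1, h2⟩ := roots_comm p (τ w) (by rwa [e3])
  obtain h | ⟨w', e4, e5, e6⟩ := h
  · omega
  · exact absurd ((hg.comm_iff e1 e4).1 (h2 _ (by rw [e3, hg.sq_eq e4 hz e5]))) e6

end Fm

/-- the fusion pattern -/
structure Pat (F : Fm 0 G) : Prop where
  zA : ∀ w, A w → F.R z w
  nB : ∀ w, B w → ¬ F.R z w
  BB : ∀ w, B w → F.R t w

namespace Fm

variable {F : Fm 0 G}

theorem pat_of (h1 : F.R z u) (h2 : F.R z x) (h3 : ¬ F.R z t) (h4 : F.R t y) (h5 : F.R t y2) : Pat F := by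
  have hB : ∀ w, B w → F.R t w := fun w hw => by
    rcases (B_cases w).1 hw with h | h | h
    exacts [R.of (X1_conj w h), h4.trans (R.of (Y1_conj w h)), h5.trans (R.of (Y2_conj w h))]
  refine ⟨fun w hw => ?_, fun w hw h => h3 (h.trans (hB w hw).symm), hB⟩
  rcases (A_cases w).1 hw with rfl | rfl | h
  exacts [h1, h1.trans R.uz, h2.trans (R.of (X2_conj w h))]

theorem mem_V_of {g : G} {τ : T 0 → T 0} (hg : F.Cj g (fun n => n * u = u * n) τ) (h1 : τ u = z)
    (h2 : τ z = u ∨ τ z = u * z) {c : T 0} (hc : c * u = u * c) (h : τ c ∈ V) : c ∈ V := by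
  have e : (z : T 0) * u = u * z ∧ (u : T 0) * z * u = u * (u * z) ∧ (z : T 0) * u = u * z ∧
    (z : T 0) * (u * z) = u ∧ (1 : T 0) * u = u * 1 := by decide +kernel
  have e1 := hg.mul rfl e.1 e.2.1
  rw [h1] at e1
  have e0 : τ 1 = 1 := F.inj (by rw [← hg 1 e.2.2.2.2]; simp)
  rw [mem_V] at h ⊢
  rcases h with h | h | h | h
  · exact Or.inl (hg.inj hc e.2.2.2.2 (h.trans e0.symm))
  · exact Or.inr (Or.inr (Or.inl (hg.inj hc rfl (h.trans h1.symm))))
  · rcases h2 with h2 | h2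
    · exact Or.inr (Or.inl (hg.inj hc e.1 (h.trans h2.symm)))
    · exact Or.inr (Or.inr (Or.inr (hg.inj hc e.2.1 (by rw [h, e1, h2, e.2.2.2.1]))))
  · rcases h2 with h2 | h2
    · exact Or.inr (Or.inr (Or.inr (hg.inj hc e.2.1 (by rw [h, e1, h2, e.1]))))
    · exact Or.inr (Or.inl (hg.inj hc e.1 (h.trans h2.symm)))

theorem exists_c {g : G} {τ : T 0 → T 0} (hg : F.Cj g (fun n => n * u = u * n) τ) (h1 : τ u = z)
    (h2 : τ z = u ∨ τ z = u * z) : ∃ c, Cc c ∧ (X1 (τ c) ∨ X2 (τ c)) := by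
  by_contra hn
  push Not at hn
  have hz : (z : T 0) * u = u * z := by decide +kernel
  have key : ∀ c, Cc c → Cc (τ c) := fun c hc => by
    obtain ⟨e1, -, -, e4, e5⟩ := Cc_spec c hc
    have e6 := (hg.comm_iff e5 hz).2 ((z_spec 0).2.2.2.2.2.2.2 c)
    rcases cent_u (τ c) ((hg.r e5).sq e1) (h2.imp (fun h => by rwa [h] at e6) fun h => by rwa [h] at e6) with h | h | h | h
    · exact absurd ((by decide +kernel : ∀ w ∈ V, w ∈ Q) c (mem_V_of hg h1 h2 e5 h)) e4
    · exact h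
    · exact absurd h (hn c hc).1
    · exact absurd h (hn c hc).2
  have e : Cc a ∧ Cc a' ∧ a * u = u * a ∧ a' * u = u * a' ∧ a * a' * u = u * (a * a') ∧ a * a' * (a * a') = z ∧
    (u : T 0) ≠ 1 ∧ (u : T 0) ≠ z ∧ (u : T 0) * z ≠ 1 ∧ (u : T 0) * z ≠ z := by decide +kernel
  obtain ⟨e1, e2, e3, e4, e5, e6, e7, e8, e9, e10⟩ := e
  have e11 := hg.sq_eq e5 hz e6
  rw [hg.mul e3 e4 e5] at e11
  have := Cc_sq _ (key a e1) _ (key a' e2)
  rw [e11] at this
  rcases h2 with h | h <;> rw [h] at this <;> tauto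

/-- twisting a frame -/
def twist (F : Fm 0 G) : Fm 0 G where
  φ := F.φ.comp sw
  inj := F.inj.comp (Finite.injective_iff_surjective.2 sw_spec.2.2.2.2.2)
  syl := by
    rw [MonoidHom.range_comp, MonoidHom.range_eq_top.2 sw_spec.2.2.2.2.2, ← MonoidHom.range_eq_map]; exact F.syl

variable [Finite G] [IsSimpleGroup G] (hG : ¬ IsMulCommutative G)
include hG

theorem R_V {w : T 0} (hw : w ∈ V) (h1 : w ≠ 1) : F.R z w := by
  rcases (mem_V w).1 hw with rfl | rfl | rfl | rfl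
  exacts [absurd rfl h1, R.refl _, R_zu hG, (R_zu hG).trans R.uz]

theorem exists_pat (F : Fm 0 G) (h2 : ∃ s t : G, orderOf s = 2 ∧ orderOf t = 2 ∧ ¬ IsConj s t) :
    ∃ F' : Fm 0 G, Pat F' := by
  obtain ⟨r1, r2, r3, r4, r5, -, r6, r7, r8, r9, r10, -⟩ := reps
  have hV : ∀ {v w}, F.R v w → v ≠ 1 → w ∈ V → F.R z v := fun h h1 hw => (R_V hG hw (h.ne_one h1)).trans h.symm
  have ha : F.R z y ∨ F.R y a ∨ F.R y t ∨ F.R y x := by
    obtain ⟨w, hw, h⟩ := transfer (F := F) hG idx_Ma r2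
    rcases invol_Ma w hw (h.sq r2) with e | e | e | e
    exacts [Or.inl (hV h r7 e), Or.inr (Or.inl (h.trans (R.of (Cc_conj w e)).symm)),
      Or.inr (Or.inr (Or.inl (h.trans (R.of (X1_conj w e)).symm))),
      Or.inr (Or.inr (Or.inr (h.trans (R.of (X2_conj w e)).symm)))]
  have hb : ∀ v, v * v = 1 → v ≠ 1 → F.R z v ∨ F.R v y2 := fun v hv h1 => by
    obtain ⟨w, hw, h⟩ := transfer (F := F) hG idx_Mb hv
    exact (invol_Mb w hw (h.sq hv)).imp (hV h h1) fun e => h.trans (R.of (Y2_conj w e)).symm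
  have hc : ∀ v, v * v = 1 → v ≠ 1 → F.R z v ∨ F.R v y := fun v hv h1 => by
    obtain ⟨w, hw, h⟩ := transfer (F := F) hG idx_Mc hv
    exact (invol_Mc w hw (h.sq hv)).imp (hV h h1) fun e => h.trans (R.of (Y1_conj w e)).symm
  have hd : F.R a t ∨ F.R a x := by
    obtain ⟨g, τ, hg, h1, h2⟩ := exists_g (F := F) hG
    obtain ⟨c, hc, h⟩ := exists_c hg h1 h2
    have := (R.of (Cc_conj c hc)).trans (hg.r (Cc_spec c hc).2.2.2.2)
    exact h.imp (fun e => this.trans (R.of (X1_conj _ e)).symm) fun e => this.trans (R.of (X2_conj _ e)).symm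
  have hall : ¬ ∀ v, v * v = 1 → v ≠ 1 → F.R z v := fun h => by
    obtain ⟨s, s', hs, hs', hne⟩ := h2
    have key : ∀ s : G, orderOf s = 2 → IsConj (F.φ z) s := fun s hs => by
      obtain ⟨w, hw⟩ := exists_R (F := F) (H9.mul_self_of_orderOf_two hs)
      have ho : orderOf (F.φ w) = 2 := (H6.orderOf_eq_of_isConj hw).trans hs
      exact IsConj.trans (h w (F.inj (by rw [map_mul, map_one]; exact H9.mul_self_of_orderOf_two ho))
        (by rintro rfl; simp at ho)) hw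
    exact hne ((key s hs).symm.trans (key s' hs'))
  have hy : ¬ F.R z y := fun h => hall fun v hv h1 => (hc v hv h1).elim id fun e => h.trans e.symm
  have hy2 : ¬ F.R z y2 := fun h => hall fun v hv h1 => (hb v hv h1).elim id fun e => h.trans e.symm
  have hyy : F.R y y2 := (hb y r2 r7).resolve_left hy
  by_cases ht : F.R z t <;> by_cases hx : F.R z x
  · have : F.R z a := hd.elim (fun e => ht.trans e.symm) fun e => hx.trans e.symm
    rcases ha with e | e | e | e
    exacts [absurd e hy, absurd (this.trans e.symm) hy, absurd (ht.trans e.symm) hy, absurd (hx.trans e.symm) hy]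
  · obtain ⟨s1, s2, s3, s4, s5, -⟩ := sw_spec
    have hxy : F.R x y := (hc x r5 r10).resolve_left hx
    have e : ∀ v w, F.twist.R v w ↔ F.R (sw v) (sw w) := fun _ _ => Iff.rfl
    refine ⟨F.twist, pat_of (R_zu hG) ?_ ?_ ?_ ?_⟩ <;> rw [e]
    · rw [s1]; exact ht.trans (R.of (X1_conj _ s2))
    · rw [s1]; exact fun h => hx (h.trans (R.of (X2_conj _ s3)).symm)
    · exact ((R.of (X2_conj _ s3)).symm.trans hxy).trans (R.of (Y1_conj _ s4))
    · exact ((R.of (X2_conj _ s3)).symm.trans (hxy.trans hyy)).trans (R.of (Y2_conj _ s5))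
  · have hty : F.R t y := (hc t r4 r9).resolve_left ht
    exact ⟨F, pat_of (R_zu hG) hx ht hty (hty.trans hyy)⟩
  · exfalso
    have hty : F.R t y := (hc t r4 r9).resolve_left ht
    have hza : ¬ F.R z a := fun h => hd.elim (fun e => ht (h.trans e)) fun e => hx (h.trans e)
    obtain ⟨g, τ, hg, hτ⟩ := ext_cent (syl_cent fun w hw => by
      rw [card_cent, card_cent, card_cent_B y (Or.inl (by decide +kernel))]
      exact (card_cent_le w (hw.sq r2)).resolve_left fun e => hy (hV hw r7 e)) hty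
    have key : ∀ v, v * v = 1 → v ≠ 1 → v * t = t * v → F.R z v → τ v = z := fun v h1 h2 h3 h4 => by
      have h5 := hg.r h3
      have h6 := h4.trans h5
      rcases invol _ (h5.sq h1) with e | e | e | e | e | e
      · exact (cent_y _ e (hτ ▸ (hg.comm_iff h3 rfl).2 h3)).resolve_left (h5.ne_one h2)
      · exact absurd (h6.trans (R.of (Cc_conj _ e)).symm) hza
      · exact absurd (h6.trans (R.of (Y1_conj _ e)).symm) hy
      · exact absurd (h6.trans (R.of (Y2_conj _ e)).symm) hy2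
      · exact absurd (h6.trans (R.of (X1_conj _ e)).symm) ht
      · exact absurd (h6.trans (R.of (X2_conj _ e)).symm) hx
    have e : (u : T 0) * t = t * u ∧ (z : T 0) * t = t * z := by decide +kernel
    obtain ⟨z1, z2, z3, z4, z5, -⟩ := z_spec 0
    exact z5 (hg.inj e.1 e.2 ((key u z3 z4 e.1 (R_zu hG)).trans (key z z1 z2 e.2 (R.refl _)).symm))

end Fm

end Cfsg.Agent.H4.BF
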