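import Cfsg.Agent.H4.BF3

/-!
# Fusion in the centraliser of the central involution
-/

set_option autoImplicit false
set_option linter.unusedSectionVars false

namespace Cfsg.Agent.H4.BF

open Subgroup T Cfsg.Agent.H8

local instance : Fact (Nat.Prime 2) := Nat.fact_prime_two

variable {G : Type*} [Group G]

/-- the elements fixing `z` and the pair `w`, `w z` -/
def Npair (z w : G) (hz : z * z = 1) : Subgroup G where
  carrier := {g | g * z = z * g ∧ (g * w * g⁻¹ = w ∨ g * w * g⁻¹ = w * z)}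
  one_mem' := ⟨by simp, Or.inl (by simp)⟩
  mul_mem' := by
    rintro g k ⟨h1, h2⟩ ⟨h3, h4⟩
    refine ⟨(Commute.mul_left h1 h3).eq, ?_⟩
    have e : g * k * w * (g * k)⁻¹ = g * (k * w * k⁻¹) * g⁻¹ := by group
    have e' : g * (w * z) * g⁻¹ = g * w * g⁻¹ * z := by
      rw [mul_assoc _ g⁻¹, (Commute.inv_left h1).eq]; group
    rw [e]
    rcases h4 with h4 | h4 <;> rw [h4]
    · exact h2
    · rw [e']
      rcases h2 with h2 | h2 <;> rw [h2]
      · exact Or.inr rfl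
      · exact Or.inl (by rw [mul_assoc, hz, mul_one])
  inv_mem' := by
    rintro g ⟨h1, h2⟩
    refine ⟨(Commute.inv_left h1).eq, h2.imp (fun h => by nth_rewrite 1 [← h]; group) fun h => ?_⟩
    calc g⁻¹ * w * g⁻¹⁻¹ = g⁻¹ * (w * z) * (z * g) := by rw [mul_assoc, mul_assoc, mul_assoc, ← mul_assoc z, hz]; group
      _ = g⁻¹ * (g * w * g⁻¹) * (g * z) := by rw [h, h1]
      _ = _ := by group

namespace Fm

variable (F : Fm 0 G)

/-- conjugacy in the centraliser of `z` -/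
def RH (v w : T 0) : Prop := ∃ g : G, g * F.φ z = F.φ z * g ∧ g * F.φ v * g⁻¹ = F.φ w

variable {F}

theorem RH.refl (v : T 0) : F.RH v v := ⟨1, by simp, by simp⟩
theorem RH.symm {v w : T 0} : F.RH v w → F.RH w v := by
  rintro ⟨g, h1, h2⟩
  exact ⟨g⁻¹, (Commute.inv_left h1).eq, by rw [← h2]; group⟩
theorem RH.trans {v w s : T 0} : F.RH v w → F.RH w s → F.RH v s := by
  rintro ⟨g, h1, h2⟩ ⟨k, h3, h4⟩
  exact ⟨k * g, (Commute.mul_left h3 h1).eq, by rw [← h4, ← h2]; group⟩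
theorem RH.of {v w : T 0} (h : ∃ s, s * v * s⁻¹ = w) : F.RH v w := by
  obtain ⟨s, rfl⟩ := h
  exact ⟨F.φ s, comm_z s, by simp only [map_mul, map_inv]⟩
theorem RH.r {v w : T 0} : F.RH v w → F.R v w := fun ⟨_, _, h⟩ => R.of_eq h

variable [Finite G]

theorem syl_t (h : Pat F) [IsSimpleGroup G] (hG : ¬ IsMulCommutative G) :
    IsSylowIn 2 ((centralizer {t}).map F.φ) (centralizer {F.φ t}) := by
  obtain ⟨-, -, -, r4, -, -, -, -, -, r9, -, -, -, r, -⟩ := reps
  exact syl_cent fun w hw => by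
    rw [card_cent, card_cent, card_cent_B t (Or.inl r)]
    exact (card_cent_le w (hw.sq r4)).resolve_left fun e => h.nB t r ((R_V hG e (hw.ne_one r9)).trans hw.symm)

variable [IsSimpleGroup G] (hG : ¬ IsMulCommutative G) (h : Pat F)
include hG h

theorem RH_A {w : T 0} (hw : A w) : F.RH w u := by
  obtain ⟨z1, z2, z3, z4, z5, z6, z7, z8⟩ := z_spec 0
  have key : ∀ w, A w → ∃ g : G, g * F.φ w * g⁻¹ = F.φ z ∧ g * F.φ z * g⁻¹ = F.φ u := fun w hw => by
    obtain ⟨g, τ, hg, hτ⟩ := ext_cent syl_z (h.zA w hw).symm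
    obtain ⟨a1, a2, a3, -, -, ⟨r, r1, r2⟩, -⟩ := A_spec w hw
    have hz := (z8 w).symm
    have e3 := hg.sq_eq r1 hz r2
    have e4 := hg.r hz
    have e5 := hg w rfl
    have e6 := hg z hz
    rw [hτ] at e5
    rcases sq_cases 0 (τ _) (by rw [e3]; exact e4.sq z1) with e | e | e | e <;> rw [e3] at e
    · exact absurd e (e4.ne_one z2)
    · exact absurd (hg.inj rfl hz (hτ.trans e.symm)) a3
    · exact ⟨g, e5, e ▸ e6⟩
    · refine ⟨F.φ (T.mk 1) * g, ?_, ?_⟩
      · rw [show ∀ s k v : G, s * k * v * (s * k)⁻¹ = s * (k * v * k⁻¹) * s⁻¹ from fun _ _ _ => by group, e5, comm_z,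
          mul_inv_cancel_right]
      · rw [show ∀ s k v : G, s * k * v * (s * k)⁻¹ = s * (k * v * k⁻¹) * s⁻¹ from fun _ _ _ => by group, e6, e,
          ← map_inv, ← map_mul, ← map_mul, z7]
  obtain ⟨g, h1, h2⟩ := key w hw
  obtain ⟨k, h3, h4⟩ := key u (by decide +kernel)
  refine ⟨k⁻¹ * g, ?_, ?_⟩
  · calc k⁻¹ * g * F.φ z = k⁻¹ * (g * F.φ z * g⁻¹) * g := by group
      _ = _ := by rw [h2, ← h4]; group
  · calc _ = k⁻¹ * (g * F.φ w * g⁻¹) * k := by group
      _ = _ := by rw [h1, ← h3]; group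

theorem RH_B {w : T 0} (hw : B w) : F.RH w t := by
  obtain ⟨z1, z2, z3, z4, z5, z6, z7, z8⟩ := z_spec 0
  obtain ⟨g, τ, hg, hτ⟩ := ext_cent (syl_t h hG) (h.BB w hw).symm
  obtain ⟨-, -, -, -, ⟨r, r1, r2⟩, -⟩ := B_spec w hw
  have hz := (z8 w).symm
  have e3 := hg.sq_eq r1 hz r2
  have e4 := (B_spec t (by decide +kernel)).2.2.2.2.2.1 (τ r) (hτ ▸ (hg.comm_iff r1 rfl).2 r1)
  rw [e3] at e4
  have e5 := hg z hz
  rw [e4.resolve_left ((hg.r hz).ne_one z2)] at e5
  exact ⟨g, mul_inv_eq_iff_eq_mul.1 e5, hτ ▸ hg w rfl⟩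

theorem not_RH_a {w : T 0} (hw : w ∈ Q) : ¬ F.RH a w := by
  intro ha
  obtain ⟨z1, z2, z3, z4, z5, z6, z7, z8⟩ := z_spec 0
  obtain ⟨r1, -, -, r4, -, r6, r7, -, -, r9, -, r12, r13, r14, -, -, -, r18, r19, r20, r21, -, -, -, r25⟩ := reps
  have haa : F.R a a' := R.of (Cc_conj a' r13)
  have key : ∀ (w : T 0) (S : Subgroup (T 0)), IsSylowIn 2 (S.map F.φ) (Npair (F.φ z) (F.φ w) zz) → F.RH a w →
      ∃ g τ, F.Cj g (· ∈ Na) τ ∧ (∀ n ∈ Na, τ n ∈ S) ∧ g * F.φ z = F.φ z * g ∧ (τ a = w ∨ τ a = w * z) := by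
    rintro w S hS ⟨g, h1, h2⟩
    obtain ⟨k, hk, τ, h3, h4⟩ := ext hS (N := Na) (g := g) fun n hn => by
      refine ⟨?_, ?_⟩
      · exact (Commute.mul_left (Commute.mul_left h1 (comm_z n)) (Commute.inv_left h1)).eq
      · have e : ∀ v, g * F.φ n * g⁻¹ * (g * F.φ v * g⁻¹) * (g * F.φ n * g⁻¹)⁻¹ = g * F.φ (n * v * n⁻¹) * g⁻¹ :=
          fun v => by simp only [map_mul, map_inv]; group
        rw [← h2, e]
        refine (mem_Na n hn).imp (fun e => by rw [e]) fun e => ?_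
        rw [e, map_mul, mul_assoc _ g⁻¹, (Commute.inv_left h1).eq]; group
    refine ⟨_, τ, h3, h4, (Commute.mul_left hk.1 h1).eq, ?_⟩
    have e := h3 a (by decide +kernel)
    rw [show k * g * F.φ a * (k * g)⁻¹ = k * (g * F.φ a * g⁻¹) * k⁻¹ by group, h2] at e
    exact hk.2.imp (fun e' => F.inj (e.symm.trans e')) fun e' => F.inj (by rw [map_mul]; exact e.symm.trans e')
  have mNa : a ∈ Na ∧ a' ∈ Na ∧ u ∈ Na := by decide +kernel
  rcases invol_Q w hw (ha.r.sq r1) with e | e | e | e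
  · exact ha.r.ne_one r7 e
  · obtain ⟨g, h1, h2⟩ := ha.symm
    rw [e, h1, mul_inv_cancel_right] at h2
    exact (Cc_spec a r12).2.2.1 (F.inj h2).symm
  · obtain ⟨g, τ, h1, -, -, h3⟩ := key u ⊤ (syl_of (by
      rintro _ ⟨s, rfl⟩
      refine ⟨comm_z s, ?_⟩
      rw [← map_inv, ← map_mul, ← map_mul, ← map_mul, F.inj.eq_iff, F.inj.eq_iff]
      revert s; decide +kernel)) (ha.trans (RH_A hG h e))
    have e1 := h1.r mNa.2.1
    have e2 : F.R z (τ a') := (((h.zA w e).trans ha.r.symm).trans haa).trans e1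
    refine r25 ((h1.comm_iff mNa.1 mNa.2.1).1 ?_)
    have e3 : τ a' * u = u * τ a' := by
      rcases invol' _ (e1.sq r6) with e | e | e | e | e
      exacts [by rw [e]; simp, by rw [e, z8], (A_spec _ e).2.2.2.2.2.2.1, absurd e2 (h.nB _ e), (Cc_spec _ e).2.2.2.2]
    rcases h3 with e | e <;> rw [e]
    · exact e3.symm
    · rw [← mul_assoc, e3, mul_assoc, ← z8, mul_assoc]
  · have hle : Q.map F.φ ≤ Npair (F.φ z) (F.φ t) zz := by
      rintro _ ⟨s, hs, rfl⟩
      refine ⟨comm_z s, ?_⟩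
      rw [← map_inv, ← map_mul, ← map_mul, ← map_mul, F.inj.eq_iff, F.inj.eq_iff]
      exact (Q_spec s hs).2.1
    have hS : IsSylowIn 2 (Q.map F.φ) (Npair (F.φ z) (F.φ t) zz) := by
      obtain ⟨P, hP, h1⟩ := exists_isSylowIn_ge (pg (F := F) Q) hle
      obtain ⟨P', hP', h2⟩ := exists_isSylowIn_ge hP.pgroup (K := centralizer {F.φ z})
        fun g hg => mem_centralizer_singleton_iff.2 (hP.le hg).1
      obtain ⟨k, hk, e1⟩ := hP'.exists_cj_eq (syl_of range_le)
      rw [mem_centralizer_singleton_iff] at hk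
      by_cases e2 : P = P'
      · exfalso
        subst e2
        obtain ⟨w', -, hw'⟩ : k * F.φ t * k⁻¹ ∈ (⊤ : Subgroup (T 0)).map F.φ :=
          e1 ▸ conj_mem_cj k (h1 (mem_map_of_mem _ (B_spec t r14).2.2.1))
        have e3 : F.R t w' := R.of_eq hw'.symm
        refine h.nB t r14 ((R_V hG (near_central w' (fun s => ?_) (e3.sq r4)) (e3.ne_one r9)).trans e3.symm)
        have e4 := (hP.le (mem_cj.1 (e1 ▸ mem_map_of_mem F.φ (mem_top s) : F.φ s ∈ cj k P))).2
        have e5 : F.φ (s * w' * s⁻¹) = k * (k⁻¹ * F.φ s * k * F.φ t * (k⁻¹ * F.φ s * k)⁻¹) * k⁻¹ := by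
          rw [map_mul, map_mul, map_inv, hw']; group
        rw [← F.inj.eq_iff, ← F.inj.eq_iff (a := s * w' * s⁻¹), e5, map_mul, hw']
        refine e4.imp (fun e => by rw [e]) fun e => ?_
        rw [e, mul_assoc _ k⁻¹, (Commute.inv_left hk).eq]; group
      · refine hP.of_card_ge (pg _) hle ?_
        have e3 := card_lt_of_lt (lt_of_le_of_ne h2 e2)
        rw [← card_cj k P', e1, card_map, card_top, T.card] at e3
        obtain ⟨n, hn⟩ := IsPGroup.iff_card.1 hP.pgroup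
        rw [card_map, card_Q, hn]
        rw [hn] at e3
        have : n < 6 := (Nat.pow_lt_pow_iff_right (a := 2) (by norm_num)).1 e3
        exact Nat.pow_le_pow_right (n := 2) (i := n) (j := 5) (by norm_num) (by omega)
    have hat := ha.trans (RH_B hG h e)
    obtain ⟨g, τ, h1, h2, hgz, h3⟩ := key t Q hS hat
    have e1 := h1.r mNa.2.1
    have e2 := h1.r mNa.2.2
    have e3 : τ u * τ a = τ a * τ u := (h1.comm_iff mNa.2.2 mNa.1).2 r20.symm
    have e4 : τ u = u ∨ τ u = u * z := by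
      rcases invol_Q _ (h2 u mNa.2.2) (e2.sq z3) with e | e | e | e
      · exact absurd e (e2.ne_one z4)
      · have e' := h1 u mNa.2.2
        rw [e, mul_inv_eq_iff_eq_mul, ← hgz, mul_right_inj] at e'
        exact absurd (F.inj e') z5
      · exact (A_spec _ e).2.2.2.2.2.2.2 (h3.imp (fun e => by rwa [e] at e3) fun e => by rwa [e] at e3)
      · exact absurd ((h.zA u r18).trans e2) (h.nB _ e)
    have e5 : ¬ F.R z (τ a') := fun e => h.nB t r14 (((e.trans e1.symm).trans haa.symm).trans hat.r)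
    have e6 : B (τ a') := by
      rcases invol_Q _ (h2 a' mNa.2.1) (e1.sq r6) with e | e | e | e
      · exact absurd e ((haa.trans e1).ne_one r7)
      · exact absurd (by rw [e]; exact R.refl z) e5
      · exact absurd (h.zA _ e) e5
      · exact e
    have e7 : τ a' * τ u = τ u * τ a' := (h1.comm_iff mNa.2.1 mNa.2.2).2 r21
    have e8 := (B_spec _ e6).2.2.2.2.2.2 (by
      rcases e4 with e | e <;> rw [e] at e7
      · exact e7
      · rw [← mul_assoc, mul_assoc u, ← z8, ← mul_assoc] at e7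
        exact mul_right_cancel e7)
    refine r25 ((h1.comm_iff mNa.1 mNa.2.1).1 ?_)
    rcases h3 with e | e <;> rw [e]
    exacts [e8.1.symm, e8.2.symm]

end Fm

end Cfsg.Agent.H4.BF
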