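import Cfsg.Agent.H4.BF2

/-!
# The model group inside the holomorph
-/

set_option autoImplicit false

namespace Cfsg.Agent.H4.BF

open Subgroup T Cfsg.Agent.H3

/-- a word in five elements -/
def wd {Γ : Type*} [Group Γ] (z a b c d : Γ) (n : ℕ) : Γ :=
  (bif n.testBit 0 then z else 1) * (bif n.testBit 1 then a else 1) * (bif n.testBit 2 then b else 1) *
    (bif n.testBit 3 then c else 1) * (bif n.testBit 4 then d else 1)

theorem map_wd {Γ Γ' : Type*} [Group Γ] [Group Γ'] (f : Γ →* Γ') (z a b c d : Γ) (n : ℕ) :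
    f (wd z a b c d n) = wd (f z) (f a) (f b) (f c) (f d) n := by
  have e : ∀ (s : Bool) (g : Γ), f (bif s then g else 1) = bif s then f g else 1 := fun s g => by
    cases s <;> simp
  simp only [wd, map_mul, e]

theorem wd_mem {Γ : Type*} [Group Γ] {K : Subgroup Γ} {z a b c d : Γ} (hz : z ∈ K) (ha : a ∈ K) (hb : b ∈ K) (hc : c ∈ K)
    (hd : d ∈ K) (n : ℕ) : wd z a b c d n ∈ K := by
  have e : ∀ (s : Bool) (g : Γ), g ∈ K → (bif s then g else 1) ∈ K := fun s g hg => by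
    cases s
    exacts [one_mem _, hg]
  exact mul_mem (mul_mem (mul_mem (mul_mem (e _ _ hz) (e _ _ ha)) (e _ _ hb)) (e _ _ hc)) (e _ _ hd)

namespace T

/-- coordinates in `Q` -/
def co (q : T 0) : ℕ :=
  lk (nat_lit 0x5806805c06c054064050060000700b00600a0050090040087804807c04c074044070040000f00300e00200d00100c000) q.v

theorem wd_co : ∀ q ∈ Q, wd z u x t y (co q) = q := by decide +kernel

/-- the embedding in the holomorph -/
def ι : T 0 →* Hol := MonoidHom.mk' (fun w => Hol.mk (Nat.mod (Nat.shiftRight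
  (nat_lit 0x153f1339143e12381d371b311c361a303218351f3319341e3a103d173b113c1602200527032104260a280d2f0b290c2e2d0f2b092c0e2a082507230124062200)
  (Nat.mul (nat_lit 8) w.v)) (nat_lit 256))) (by decide +kernel)

/-- the subgroup of index two of the holomorph -/
abbrev D := Hol.msk 1461501637330902918124456670202018682066683559935

theorem ι_inj : Function.Injective ι := (injective_iff_map_eq_one ι).2 (by decide +kernel)
theorem ι_z : ι z = Hol.z := by decide +kernel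
theorem ι_surj : ∀ k : Hol, k.v < 64 → ∃ s, ι s = k := by decide +kernel
theorem ι_norm : ∀ h : Hol, ∀ q ∈ Q, ∃ q' ∈ Q, h * ι q * h⁻¹ = ι q' := by
  have h1 : ∀ h : Hol, ∀ k : Hol, k.v < 32 → (h * k * h⁻¹).v < 32 := by decide +kernel
  have h2 : ∀ q ∈ Q, (ι q).v < 32 := by decide +kernel
  have h3 : ∀ k : Hol, k.v < 32 → ∃ q, q ∈ Q ∧ k = ι q := by decide +kernel
  exact fun h q hq => h3 _ (h1 h _ (h2 q hq))
theorem ι_cent : ∀ h : Hol, h * ι u * h⁻¹ = ι u → h * ι x * h⁻¹ = ι x → h * ι t * h⁻¹ = ι t → h * ι y * h⁻¹ = ι y →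
    h = 1 ∨ h = Hol.z := by decide +kernel
theorem ι_max : ∀ h : Hol, h * ι u * h⁻¹ = ι x → ∀ k : Hol, k.v < 64 ∨ (h⁻¹ * k).v < 64 ∨ ((ι a * h)⁻¹ * k).v < 64 := by
  decide +kernel
theorem D_spec : ∀ r : Hol, D r → (∀ q ∈ Q, r * ι q * r⁻¹ = ι q ∨ r * ι q * r⁻¹ = ι (q * z)) ∨
    ∀ q ∈ Q, r * ι q * r⁻¹ = ι q → q = 1 ∨ q = z := by decide +kernel

theorem exists_D : ∀ a, A a → ∀ b, A b → ∀ c, B c → a * c = c * a → b * c ≠ c * b → ∀ d, B d → a * d ≠ d * a →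
    b * d ≠ d * b → c * d = d * c → ∃ r : Hol, D r ∧ r * ι u * r⁻¹ = ι (wd z a b c d (co a)) ∧
      r * ι x * r⁻¹ = ι (wd z a b c d (co b)) ∧ r * ι t * r⁻¹ = ι (wd z a b c d (co c)) ∧
      r * ι y * r⁻¹ = ι (wd z a b c d (co d)) := by decide +kernel

theorem gens : u ∈ Q ∧ x ∈ Q ∧ t ∈ Q ∧ y ∈ Q ∧ z ∈ Q ∧ u * t = t * u ∧ x * t ≠ t * x ∧ u * y ≠ y * u ∧ x * y ≠ y * x ∧
    t * y = y * t ∧ a ∉ Q ∧ (mk 1 * mk 1 * (mk 1 * mk 1) : T 0) = z ∧ (∃ s : T 0, s * s = u) ∧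
    ∀ w ∉ Q, w * a ∈ Q := by decide +kernel

end T

end Cfsg.Agent.H4.BF
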