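import Cfsg.Agent.H4.BF4
import Cfsg.Agent.H4.BF5
import Cfsg.Agent.WA.LyR2
import Cfsg.Agent.H7.GlaubAut
import Cfsg.Agent.H3.Wong2

/-!
# A group with central involution, trivial core and the given fusion is the holomorph
-/

set_option autoImplicit false
set_option linter.unusedSectionVars false

namespace Cfsg.Agent.H4.BF

open Subgroup T Cfsg.Agent.H8 Cfsg.Agent.L0 Cfsg.Agent.H3

local instance : Fact (Nat.Prime 2) := Nat.fact_prime_two

theorem odd_pow_mem {Γ : Type*} [Group Γ] [Finite Γ] {V N : Subgroup Γ} (hV : IsSylowIn 2 V N) {n : Γ} (hn : n ∈ N)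
    (hn' : n ∈ normalizer (V : Set Γ)) : ∃ m, Odd m ∧ n ^ m ∈ V := by
  have := normal_subgroupOf_of_le_normalizer (inf_le_right : N ⊓ normalizer (V : Set Γ) ≤ _)
  exact ⟨_, Dich.odd_iff.2 (hV.of_le (le_inf hV.le le_normalizer) inf_le_left).not_dvd_relIndex,
    pow_index_mem (V.subgroupOf (N ⊓ normalizer (V : Set Γ))) ⟨n, hn, hn'⟩⟩

theorem mem_of_sq_of_odd {Γ : Type*} [Group Γ] {L : Subgroup Γ} {g : Γ} {m : ℕ} (hm : Odd m) (h1 : g * g ∈ L)
    (h2 : g ^ m ∈ L) : g ∈ L := by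
  obtain ⟨k, rfl⟩ := hm
  rw [pow_succ, pow_mul, pow_two] at h2
  exact (L.mul_mem_cancel_left (pow_mem h1 k)).1 h2

theorem norm_of_semi {Γ : Type*} [Group Γ] [Finite Γ] {V N : Subgroup Γ} (hV : IsSylowIn 2 V N)
    (el : ∀ v ∈ V, v * v = 1) (c8 : 4 < Nat.card V) (hO : pPrimeCore 2 N = ⊥)
    (sr : ∀ n ∈ N, n ∈ normalizer (V : Set Γ) → ∀ v ∈ V, v ≠ 1 → n * v = v * n → n * n ∈ centralizer (V : Set Γ))
    {a b c k : Γ} (ha : a ∈ V) (hb : b ∈ V) (hc : c ∈ V) (ha1 : a ≠ 1) (hb1 : b ≠ 1) (hk : k ∈ N)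
    (hac : k * a * k⁻¹ = c) (hne : c ≠ a) (hab : ¬ IsConj a b) : N ≤ normalizer (V : Set Γ) := by
  have ab : ∀ v ∈ V, ∀ w ∈ V, v * w = w * v := fun v hv w hw =>
    H9.comm_of_sq_eq_one (fun a ha => by rw [pow_two, el a ha]) hv hw
  obtain ⟨m, hm, e⟩ := H6.burnside_fusion hV.toSylow (x := ⟨a, hV.le ha⟩) (g := ⟨k, hk⟩)
    (fun s hs => Subtype.ext (ab s hs a ha)) fun s hs => Subtype.ext (by simpa [hac] using ab s hs c hc)
  rw [← normal_subgroupOf_iff_le_normalizer hV.le]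
  refine WA.LyR.normal_of_semiregular (isSylowIn_top hV.toSylow) (fun v hv => Subtype.ext (el v hv))
    (by rwa [Nat.card_congr (subgroupOfEquivOfLe hV.le).toEquiv]) hO (fun n hn v hv h1 e w hw => ?_) hm
    (fun h => hne ?_) (a := ⟨a, hV.le ha⟩) (b := ⟨b, hV.le hb⟩) ha hb (fun e => ha1 (congrArg Subtype.val e))
    (fun e => hb1 (congrArg Subtype.val e)) fun n _ e => hab (isConj_iff.2 ⟨n, congrArg Subtype.val e⟩)
  · rw [← subgroupOf_normalizer_eq hV.le] at hn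
    obtain ⟨m, h2, h3⟩ := odd_pow_mem hV n.2 hn
    exact Subtype.ext (mem_of_sq_of_odd h2 (sr n n.2 hn v hv (fun e => h1 (Subtype.ext e)) (congrArg Subtype.val e))
      (fun w hw => ab w hw _ h3) w hw)
  · rw [← h _ ha, mul_inv_cancel_right] at e
    exact hac ▸ (congrArg Subtype.val e).symm

theorem bij_of_half {Δ Γ : Type*} [Group Δ] [Group Γ] {C K : Subgroup Δ} (h1 : K.relIndex C = 2) (f : Δ →* Γ) {c : Δ}
    (hc : c ∈ C) (hcK : c ∉ K) (e1 : f c = 1) (e2 : ∀ p ∈ C, f p = 1 → p = 1 ∨ p = c) (e3 : ∀ g, ∃ p ∈ C, f p = g) :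
    Function.Bijective (f.comp (C ⊓ K).subtype) := by
  refine ⟨(injective_iff_map_eq_one _).2 fun p hp => Subtype.ext ((e2 p p.2.1 hp).resolve_right fun e => hcK (e ▸ p.2.2)),
    fun g => ?_⟩
  obtain ⟨p, hp, rfl⟩ := e3 g
  by_cases hK : p ∈ K
  · exact ⟨⟨p, hp, hK⟩, rfl⟩
  · exact ⟨⟨p * c, mul_mem hp hc, (mul_mem_iff_rel h1 hp hc).2 (iff_of_false hK hcK)⟩, by simp [e1]⟩

variable {Y : Type*} [Group Y]

/-- the local situation -/
structure Lc (F : Fm 0 Y) : Prop where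
  cen : ∀ g, g * F.φ z = F.φ z * g
  AA : ∀ w, A w → F.R w u
  BB : ∀ w, B w → F.R w t
  nAB : ¬ F.R u t
  na : ∀ w ∈ Q, ¬ F.R a w
  O : pPrimeCore 2 Y = ⊥

/-- acting in the same way on `Q` -/
def Act (F : Fm 0 Y) : Subgroup (Hol × Y) where
  carrier := {p | ∀ q ∈ Q, ∀ q' ∈ Q, p.1 * ι q * p.1⁻¹ = ι q' ↔ p.2 * F.φ q * p.2⁻¹ = F.φ q'}
  one_mem' q _ q' _ := by simp [ι_inj.eq_iff, F.inj.eq_iff]
  mul_mem' := fun {p p'} h h' q hq q' hq' => by
    obtain ⟨s, hs, e⟩ := ι_norm p'.1 q hq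
    have e' := (h' q hq s hs).1 e
    rw [Prod.fst_mul, Prod.snd_mul, show ∀ g k v : Hol, g * k * v * (g * k)⁻¹ = g * (k * v * k⁻¹) * g⁻¹ from fun _ _ _ => by group,
      show ∀ g k v : Y, g * k * v * (g * k)⁻¹ = g * (k * v * k⁻¹) * g⁻¹ from fun _ _ _ => by group, e, e']
    exact h s hs q' hq'
  inv_mem' := fun {p} h q hq q' hq' => by
    have := h q' hq' q hq
    simp only [Prod.fst_inv, Prod.snd_inv, inv_inv]
    rw [mul_inv_eq_iff_eq_mul, mul_inv_eq_iff_eq_mul] at this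
    rw [mul_assoc, mul_assoc, inv_mul_eq_iff_eq_mul, inv_mul_eq_iff_eq_mul, eq_comm, this, eq_comm]

theorem mem_Act {F : Fm 0 Y} {r : Hol} {g : Y}
    (h : ∀ q ∈ Q, ∃ s, r * ι q * r⁻¹ = ι s ∧ g * F.φ q * g⁻¹ = F.φ s) : (r, g) ∈ Act F := fun q hq q' _ => by
  obtain ⟨s, h1, h2⟩ := h q hq
  rw [h1, h2, ι_inj.eq_iff, F.inj.eq_iff]

namespace Lc

variable [Finite Y] {F : Fm 0 Y} (h : Lc F)
include h

theorem nz {w : T 0} (hw : F.R w z) : w = z := by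
  obtain ⟨g, e⟩ := isConj_iff.1 hw.symm
  rw [h.cen, mul_inv_cancel_right] at e
  exact (F.inj e).symm

theorem A_of {v w : T 0} (hv : A v) (hw : w ∈ Q) (e : F.R v w) : A w := by
  obtain ⟨a1, a2, a3, -⟩ := A_spec v hv
  rcases invol_Q w hw (e.sq a1) with e' | e' | e' | e'
  exacts [absurd e' (e.ne_one a2), absurd (h.nz (e' ▸ e)) a3, e',
    absurd (((h.AA v hv).symm.trans e).trans (h.BB w e')) h.nAB]

theorem B_of {v w : T 0} (hv : B v) (hw : w ∈ Q) (e : F.R v w) : B w := by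
  obtain ⟨a1, a2, -, a3, -⟩ := B_spec v hv
  rcases invol_Q w hw (e.sq a1) with e' | e' | e' | e'
  exacts [absurd e' (e.ne_one a2), absurd ((mem_V v).2 (Or.inr (Or.inl (h.nz (e' ▸ e))))) a3,
    absurd (((h.AA w e').symm.trans e.symm).trans (h.BB v hv)) h.nAB, e']

theorem exists_K : ∃ K : Subgroup Y, K.index = 2 ∧ ∀ s, F.φ s ∈ K ↔ s ∈ Q := by
  obtain ⟨K, h1, h2⟩ := transfer_rel (C := ⊤) (S := F.φ.range) (M := Q.map F.φ) le_top F.syl.not_dvd_relIndex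
    (by rw [MonoidHom.range_eq_map, relIndex_map_map_of_injective _ _ F.inj, idx_Q]) (x := F.φ a) trivial
    (Fm.sq reps.1) (by
      rintro g - ⟨w, hw, e⟩
      exact h.na w hw (Fm.R.of_eq (g := g⁻¹) (by rw [e, inv_inv])))
  rw [relIndex_top_right] at h1
  have := normal_of_index_eq_two h1
  have hR : ∀ {v w}, F.R v w → F.φ v ∈ K → F.φ w ∈ K := fun e hv => by
    obtain ⟨g, e⟩ := isConj_iff.1 e
    exact e ▸ this.conj_mem _ hv g
  obtain ⟨-, -, -, -, -, -, -, -, -, -, -, g1, ⟨s, g2⟩, g3⟩ := gens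
  have sq : ∀ s, F.φ (s * s) ∈ K := fun s => by rw [map_mul]; exact mul_self_mem_of_index_two h1 _
  have hu : F.φ u ∈ K := g2 ▸ sq s
  have hx : F.φ x ∈ K := hR (h.AA x (by decide +kernel)).symm hu
  have ht : F.φ t ∈ K := by
    rw [show t = (T.mk 1 * T.mk 1)⁻¹ * x by decide +kernel, map_mul, map_inv]
    exact mul_mem (inv_mem (sq _)) hx
  have hQ : ∀ s ∈ Q, F.φ s ∈ K := fun s hs => by
    rw [← wd_co s hs, map_wd]
    exact wd_mem (g1 ▸ sq _) hu hx ht (hR (h.BB y (by decide +kernel)).symm ht) _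
  refine ⟨K, h1, fun s => ⟨fun hs => by_contra fun hn => h2 ?_, hQ s⟩⟩
  have := hQ _ (g3 s hn)
  rwa [map_mul, K.mul_mem_cancel_left hs] at this

theorem exists_act {g : Y} (hg : g ∈ normalizer ((Q.map F.φ : Subgroup Y) : Set Y)) : ∃ r, D r ∧ (r, g * g) ∈ Act F := by
  have key : ∀ q, ∃ s, q ∈ Q → s ∈ Q ∧ g * F.φ q * g⁻¹ = F.φ s := fun q => by
    by_cases hq : q ∈ Q
    · obtain ⟨s, hs, e⟩ := H9.conj_mem_of_mem_normalizer hg (mem_map_of_mem F.φ hq)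
      exact ⟨s, fun _ => ⟨hs, e.symm⟩⟩
    · exact ⟨1, fun h => absurd h hq⟩
  choose τ hτ using key
  have hc : F.Cj g (· ∈ Q) τ := fun q hq => (hτ q hq).2
  obtain ⟨g1, g2, g3, g4, -, g6, g7, g8, g9, g10, -⟩ := gens
  obtain ⟨r, h0, h1, h2, h3, h4⟩ := exists_D (τ u) (h.A_of (by decide +kernel) (hτ u g1).1 (hc.r g1))
    (τ x) (h.A_of (by decide +kernel) (hτ x g2).1 (hc.r g2)) (τ t) (h.B_of (by decide +kernel) (hτ t g3).1 (hc.r g3))
    ((hc.comm_iff g1 g3).2 g6) (mt (hc.comm_iff g2 g3).1 g7) (τ y) (h.B_of (by decide +kernel) (hτ y g4).1 (hc.r g4))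
    (mt (hc.comm_iff g1 g4).1 g8) (mt (hc.comm_iff g2 g4).1 g9) ((hc.comm_iff g3 g4).2 g10)
  have k1 : ∀ (g : Y) (a b c d : T 0), g * F.φ u * g⁻¹ = F.φ a → g * F.φ x * g⁻¹ = F.φ b → g * F.φ t * g⁻¹ = F.φ c →
      g * F.φ y * g⁻¹ = F.φ d → ∀ q ∈ Q, g * F.φ q * g⁻¹ = F.φ (wd z a b c d (T.co q)) := fun g a b c d e1 e2 e3 e4 q hq => by
    have := map_wd ((MulAut.conj g).toMonoidHom.comp F.φ) z u x t y (T.co q)
    simp only [MonoidHom.comp_apply, MulEquiv.coe_toMonoidHom, MulAut.conj_apply, wd_co q hq] at this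
    rw [this, e1, e2, e3, e4, h.cen, mul_inv_cancel_right, map_wd]
  have k2 : ∀ q ∈ Q, g * g * F.φ q * (g * g)⁻¹ = F.φ (wd z (τ u) (τ x) (τ t) (τ y) (T.co (τ q))) := fun q hq => by
    rw [← k1 g _ _ _ _ (hc u g1) (hc x g2) (hc t g3) (hc y g4) _ (hτ q hq).1, ← hc q hq]; group
  refine ⟨r, h0, mem_Act fun q hq => ⟨_, ?_, k1 _ _ _ _ _ (k2 u g1) (k2 x g2) (k2 t g3) (k2 y g4) q hq⟩⟩
  have := map_wd ((MulAut.conj r).toMonoidHom.comp ι) z u x t y (T.co q)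
  simp only [MonoidHom.comp_apply, MulEquiv.coe_toMonoidHom, MulAut.conj_apply, wd_co q hq] at this
  rw [this, h1, h2, h3, h4, ι_z, Hol.z_comm, mul_inv_cancel_right, eq_comm, map_wd ι, ι_z]

theorem normal_Q : (Q.map F.φ).Normal := by
  obtain ⟨K, hK, hKQ⟩ := h.exists_K
  have hKn := normal_of_index_eq_two hK
  have hZ : zpowers (F.φ z) ≤ center Y := zpowers_le.2 (mem_center_iff.2 h.cen)
  have : (zpowers (F.φ z)).Normal := ⟨fun a ha g => by rwa [mem_center_iff.1 (hZ ha) g, mul_inv_cancel_right]⟩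
  let f := QuotientGroup.mk' (zpowers (F.φ z))
  have hf : Function.Surjective f := QuotientGroup.mk'_surjective _
  obtain ⟨g1, g2, g3, g4, g5, -⟩ := gens
  have f1 : ∀ g k, f g = f k ↔ g = k ∨ g = k * F.φ z := fun g k => by
    rw [eq_comm, QuotientGroup.mk'_apply, QuotientGroup.mk'_apply, QuotientGroup.eq, H9.mem_zpowers_of_mul_self Fm.zz,
      inv_mul_eq_iff_eq_mul, inv_mul_eq_iff_eq_mul, mul_one]
  have f2 : ∀ v w, f (F.φ v) = f (F.φ w) ↔ v = w ∨ v = w * z := fun v w => by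
    rw [f1, ← map_mul, F.inj.eq_iff, F.inj.eq_iff]
  have f0 : ∀ v, f (F.φ v) = 1 ↔ v = 1 ∨ v = z := fun v => by
    simpa using f2 v 1
  have f3 : ∀ g, f g ∈ normalizer (((Q.map F.φ).map f : Subgroup _) : Set (Y ⧸ zpowers (F.φ z))) →
      g ∈ normalizer ((Q.map F.φ : Subgroup Y) : Set Y) := fun g hg => H9.mem_normalizer_of_conj_mem (by
    rintro _ ⟨q, hq, rfl⟩
    obtain ⟨_, ⟨s, hs, rfl⟩, e⟩ := H9.conj_mem_of_mem_normalizer hg (mem_map_of_mem f (mem_map_of_mem F.φ hq))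
    rw [← map_inv, ← map_mul, ← map_mul, eq_comm, f1] at e
    rcases e with e | e <;> rw [e]
    exacts [mem_map_of_mem _ hs, mul_mem (mem_map_of_mem _ hs) (mem_map_of_mem _ g5)])
  have hS : IsSylowIn 2 (Q.map F.φ) K := by
    have := F.syl.inf_of_le_normalizer (N := K) (by rw [normalizer_eq_top])
    rw [top_inf_eq] at this
    convert this
    ext g
    exact ⟨fun ⟨s, hs, e⟩ => ⟨⟨s, e⟩, e ▸ (hKQ s).2 hs⟩, fun ⟨⟨s, e⟩, hs⟩ => ⟨s, (hKQ s).1 (e ▸ hs), e⟩⟩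
  have hn := hKn.map f hf
  obtain ⟨k, s, hk, e1, e2⟩ : ∃ k s, k ∈ K ∧ k * F.φ u * k⁻¹ = F.φ s ∧ X2 s := by
    obtain ⟨g, e⟩ := isConj_iff.1 (h.AA x (by decide +kernel)).symm
    by_cases hg : g ∈ K
    · exact ⟨g, x, hg, e, by decide +kernel⟩
    · refine ⟨F.φ a * g, a * x * a⁻¹, (mul_mem_iff_of_index_two hK).2 (by simp [hg, hKQ, gens.2.2.2.2.2.2.2.2.2.2.1]), ?_,
        by decide +kernel⟩
      rw [map_mul, map_mul, map_inv, ← e]; group
  have hle : K.map f ≤ normalizer (((Q.map F.φ).map f : Subgroup _) : Set (Y ⧸ zpowers (F.φ z))) := by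
    refine norm_of_semi (hS.map f) ?_ ?_ ?_ ?_ (a := f (F.φ u)) (b := f (F.φ t)) (c := f (F.φ s)) (k := f k)
      (mem_map_of_mem _ (mem_map_of_mem _ g1)) (mem_map_of_mem _ (mem_map_of_mem _ g3))
      (mem_map_of_mem _ (mem_map_of_mem _ (A_spec s ((A_cases s).2 (Or.inr (Or.inr e2)))).2.2.2.1))
      (by rw [Ne, f0]; decide +kernel) (by rw [Ne, f0]; decide +kernel) (mem_map_of_mem _ hk)
      (by rw [← e1, map_mul, map_mul, map_inv]) (by rw [Ne, f2]; clear e1; revert s; decide +kernel) fun e => ?_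
    · rintro _ ⟨_, ⟨q, hq, rfl⟩, rfl⟩
      rw [← map_mul, ← map_mul, f0]; exact (Q_spec q hq).1
    · have hm : ∀ i : Fin 5, ![1, u, x, t, y] i ∈ Q := by decide +kernel
      have := Nat.card_le_card_of_injective (fun i : Fin 5 => (⟨_, mem_map_of_mem f (mem_map_of_mem F.φ (hm i))⟩ :
        (Q.map F.φ).map f)) fun i j e => by
          have := (f2 _ _).1 (congrArg Subtype.val e)
          clear e; revert i j; decide +kernel
      rwa [Nat.card_fin] at this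
    · exact map_pPrimeCore_eq_bot_iff.1 (eq_bot_iff.2 ((map_pPrimeCore_le_of_normal _).trans
        (H7.pPrimeCore_quotient_central (SF.pgroup_zpowers_of_pow (by rw [pow_two, Fm.zz])) hZ h.O).le))
    · rintro _ ⟨g, -, rfl⟩ hg _ ⟨_, ⟨v, hv, rfl⟩, rfl⟩ h1 e _ ⟨_, ⟨w, hw, rfl⟩, rfl⟩
      obtain ⟨r, h2, h3⟩ := h.exists_act (f3 g hg)
      have e3 : g * g * F.φ v * (g * g)⁻¹ = F.φ v := by
        rw [← mul_inv_eq_iff_eq_mul, ← map_inv, ← map_mul, ← map_mul, f1] at e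
        rw [show g * g * F.φ v * (g * g)⁻¹ = g * (g * F.φ v * g⁻¹) * g⁻¹ by group]
        rcases e with e | e
        · rw [e, e]
        · rw [e, show g * (F.φ v * F.φ z) * g⁻¹ = g * F.φ v * (F.φ z * g⁻¹) by group, ← h.cen, ← mul_assoc, e, mul_assoc,
            Fm.zz, mul_one]
      rcases D_spec r h2 with e4 | e4
      · rw [eq_comm, ← mul_inv_eq_iff_eq_mul, ← map_mul, ← map_inv, ← map_mul, ← map_mul, f1, ← map_mul]
        exact (e4 w hw).imp (h3 w hw w hw).1 (h3 w hw _ (mul_mem hw g5)).1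
      · exact absurd ((f0 v).2 (e4 v hv ((h3 v hv v hv).2 e3))) h1
    · obtain ⟨g, e⟩ := isConj_iff.1 e
      obtain ⟨g, rfl⟩ := hf g
      rw [← map_inv, ← map_mul, ← map_mul, f1, ← map_mul] at e
      exact h.nAB (e.elim Fm.R.of_eq fun e => (Fm.R.of_eq e).trans (h.BB _ (by decide +kernel)))
  have hS' : ∀ s, F.φ s ∈ normalizer ((Q.map F.φ : Subgroup Y) : Set Y) := fun s => H9.mem_normalizer_of_conj_mem (by
    rintro _ ⟨q, hq, rfl⟩
    exact ⟨_, (Q_spec q hq).2.2.1 s, by simp⟩)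
  refine normalizer_eq_top_iff.1 (eq_top_iff.2 fun g _ => ?_)
  by_cases hg : g ∈ K
  · exact f3 g (hle (mem_map_of_mem _ hg))
  · exact (mul_mem_cancel_left (hS' a)).1 (f3 _ (hle (mem_map_of_mem _
      ((mul_mem_iff_of_index_two hK).2 (by simp [hg, hKQ, gens.2.2.2.2.2.2.2.2.2.2.1])))))

theorem cent_Q {g : Y} (hg : ∀ q ∈ Q, g * F.φ q * g⁻¹ = F.φ q) : g = 1 ∨ g = F.φ z := by
  have := h.normal_Q
  set C := centralizer ((Q.map F.φ : Subgroup Y) : Set Y) with hC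
  have key : ∀ g ∈ F.φ.range ⊓ C, g = 1 ∨ g = F.φ z := by
    rintro _ ⟨⟨s, rfl⟩, hs⟩
    have e : ∀ q ∈ Q, q * s = s * q := fun q hq => F.inj (by rw [map_mul, map_mul]; exact hs _ (mem_map_of_mem _ hq))
    have : ∀ s : T 0, (∀ q ∈ Q, q * s = s * q) → s = 1 ∨ s = z := by decide +kernel
    exact (this s e).imp (fun e => by rw [e, map_one]) fun e => by rw [e]
  have hS := F.syl.inf_of_le_normalizer (N := C) (by rw [normalizer_eq_top])
  rw [top_inf_eq] at hS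
  obtain ⟨N, hN, h4, k, h5⟩ := H6.hasNormalPComplement_iff_exists.1 (WA.LyR.nilp_of_burnside hS fun n _ _ a ha => by
    rcases key a ha with e | e <;> rw [e]
    exacts [by simp, (h.cen n).symm])
  have h6 : N = ⊥ := eq_bot_iff.2 ((le_pPrimeCore' hN h4).trans
    (map_pPrimeCore_eq_bot_iff.1 (eq_bot_iff.2 ((map_pPrimeCore_le_of_normal _).trans h.O.le))).le)
  rw [h6, index_bot] at h5
  refine key g ((hS.max _ le_rfl (IsPGroup.of_card h5) inf_le_right).le ?_)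
  rintro _ ⟨q, hq, rfl⟩
  exact (mul_inv_eq_iff_eq_mul.1 (hg q hq)).symm

theorem normal_E : (E.map F.φ).Normal := ⟨by
  rintro _ ⟨w, hw, rfl⟩ g
  rcases (mem_E w).1 hw with e | e | e
  · rw [e]; simp
  · rw [e, h.cen, mul_inv_cancel_right]; exact mem_map_of_mem _ (by decide +kernel)
  · obtain ⟨s, hs, e'⟩ := h.normal_Q.conj_mem _ (mem_map_of_mem F.φ (A_spec w e).2.2.2.1) g
    exact ⟨s, (A_spec s (h.A_of e hs (Fm.R.of_eq e'.symm))).2.2.2.2.1, e'⟩⟩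

theorem constrained : IsPConstrained 2 Y := by
  have h1 := le_pCore h.normal_Q (Fm.pg (F := F) Q)
  refine (isPConstrained_iff_of_pPrimeCore_eq_bot h.O).2 fun g hg => ?_
  rcases h.cent_Q (g := g) fun q hq => mul_inv_eq_iff_eq_mul.2 (hg _ (h1 (mem_map_of_mem _ hq))).symm with e | e <;> rw [e]
  exacts [one_mem _, h1 (mem_map_of_mem _ gens.2.2.2.2.1)]

omit h in
theorem gr_mem (s : T 0) : (ι s, F.φ s) ∈ Act F := mem_Act fun q _ => ⟨s * q * s⁻¹, by simp, by simp⟩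

theorem snd_surj (g : Y) : ∃ r, (r, g) ∈ Act F := by
  have hL : ∀ g, g ∈ (Act F).map (MonoidHom.snd _ _) ↔ ∃ r, (r, g) ∈ Act F := fun g =>
    ⟨fun ⟨p, hp, e⟩ => ⟨p.1, e ▸ hp⟩, fun ⟨r, hr⟩ => ⟨_, hr, rfl⟩⟩
  rw [← hL]
  generalize (Act F).map (MonoidHom.snd _ _) = L at hL
  have sq : ∀ g, g * g ∈ L := fun g => by
    have := h.normal_Q
    obtain ⟨r, -, e⟩ := h.exists_act (g := g) (by rw [normalizer_eq_top]; trivial)
    exact (hL _).2 ⟨r, e⟩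
  have : L.Normal := ⟨fun l hl g => by
    rw [show g * l * g⁻¹ = g * l * (g * l) * l⁻¹ * (g⁻¹ * g⁻¹) by group]
    exact mul_mem (mul_mem (sq _) (inv_mem hl)) (sq _)⟩
  refine mem_of_sq_of_odd (Dich.odd_iff.2 fun e => ?_) (sq g) (pow_index_mem L g)
  have h1 := F.syl.not_dvd_relIndex
  rw [relIndex_top_right] at h1
  exact h1 (e.trans (index_dvd_of_le (by rintro _ ⟨s, rfl⟩; exact (hL _).2 ⟨_, gr_mem s⟩)))

theorem fst_surj (k : Hol) : ∃ g, (k, g) ∈ Act F := by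
  obtain ⟨g, e⟩ := isConj_iff.1 (h.AA x (by decide +kernel)).symm
  obtain ⟨r, hr⟩ := h.snd_surj g
  have key : ∀ (r : Hol) (g : Y), (r, g) ∈ Act F → (r⁻¹ * k).v < 64 → ∃ g, (k, g) ∈ Act F := fun r g hp e => by
    obtain ⟨s, hs⟩ := ι_surj _ e
    have := mul_mem hp (gr_mem (F := F) s)
    rw [Prod.mk_mul_mk, hs, mul_inv_cancel_left] at this
    exact ⟨_, this⟩
  rcases ι_max r ((hr u gens.1 x gens.2.1).2 e) k with e | e | e
  · exact key 1 1 (one_mem _) (by rwa [inv_one, one_mul])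
  · exact key _ _ hr e
  · have := mul_mem (gr_mem (F := F) a) hr
    rw [Prod.mk_mul_mk] at this
    exact key _ _ this e

theorem frame : ∃ ψ : Hol →* Y, Function.Bijective ψ ∧ ψ Hol.z = F.φ z := by
  obtain ⟨g1, g2, g3, g4, g5, -, -, -, -, -, -, g6, -⟩ := gens
  have k1 : ∀ r, (r, 1) ∈ Act F → r = 1 ∨ r = Hol.z := fun r hr =>
    ι_cent r ((hr u g1 u g1).2 (by simp)) ((hr x g2 x g2).2 (by simp)) ((hr t g3 t g3).2 (by simp))
      ((hr y g4 y g4).2 (by simp))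
  have k2 : ∀ g, (1, g) ∈ Act F → g = 1 ∨ g = F.φ z := fun g hg => h.cent_Q fun q hq => (hg q hq q hq).1 (by simp)
  have c1 : ((1 : Hol), F.φ z) ∈ Act F := mem_Act fun q _ => ⟨q, by simp, by rw [← h.cen, mul_inv_cancel_right]⟩
  have c2 : ∀ p : Hol × Y, p * (1, F.φ z) = (1, F.φ z) * p := fun p => Prod.ext (by simp) (h.cen _)
  have c3 : ((1 : Hol), F.φ z) * (1, F.φ z) = 1 := Prod.ext (by simp) Fm.zz
  have c4 : ((1 : Hol), F.φ z) ∉ (ι.prod F.φ).range := by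
    rintro ⟨s, e⟩
    have e1 : s = 1 := ι_inj (by simpa using congrArg Prod.fst e)
    exact Fm.ne_one (z_spec 0).2.1 (by simpa [e1] using (congrArg Prod.snd e).symm)
  obtain ⟨K, h1, h2⟩ := transfer_rel (C := Act F) (S := Act F ⊓ F.φ.range.comap (MonoidHom.snd _ _))
    (M := (ι.prod F.φ).range) inf_le_left (by
      rw [inf_relIndex_left, relIndex_comap]
      exact (F.syl.of_le (by rintro _ ⟨s, rfl⟩; exact ⟨_, gr_mem s, rfl⟩) le_top).not_dvd_relIndex)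
    (relIndex_eq_two_iff.2 ⟨_, ⟨c1, z, rfl⟩, by
      rintro ⟨r, _⟩ ⟨hr, s, rfl⟩
      have e1 : ∀ p, p * (1, F.φ z) ∈ (ι.prod F.φ).range → p ∉ (ι.prod F.φ).range := fun p e e' =>
        c4 ((mul_mem_cancel_left e').1 e)
      rcases k1 ((ι s)⁻¹ * r) (by simpa using mul_mem (inv_mem (gr_mem (F := F) s)) hr) with e | e
      · have e2 : (r, F.φ s) ∈ (ι.prod F.φ).range := ⟨s, Prod.ext (inv_mul_eq_one.1 e) rfl⟩
        exact Or.inr ⟨e2, fun e => e1 _ e e2⟩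
      · have e2 : (r, F.φ s) * (1, F.φ z) ∈ (ι.prod F.φ).range :=
          ⟨s * z, Prod.ext (by simp [ι_z, ← e]) (by simp)⟩
        exact Or.inl ⟨e2, e1 _ e2⟩⟩) c1 c3 fun g _ => by rwa [c2, inv_mul_cancel_right]
  have c5 : (Hol.z, F.φ z) ∈ K := by
    rw [← ι_z, ← g6]
    simp only [map_mul]
    have := gr_mem (F := F) (T.mk 1 * T.mk 1)
    simp only [map_mul] at this
    exact (mul_mem_iff_rel h1 this this).2 Iff.rfl
  have c6 : (Hol.z, F.φ z) ∈ Act F := ι_z ▸ gr_mem z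
  have c7 : (Hol.z, (1 : Y)) ∈ Act F := by simpa [Fm.zz] using mul_mem c6 c1
  have c8 : (Hol.z, (1 : Y)) ∉ K := fun e => h2 (by simpa using mul_mem (inv_mem e) c5)
  have b1 := bij_of_half h1 (MonoidHom.fst _ _) c1 h2 rfl (by
    rintro ⟨_, g⟩ hp rfl
    exact (k2 g hp).imp (fun e => by rw [e]; rfl) fun e => by rw [e]) fun k => let ⟨g, e⟩ := h.fst_surj k; ⟨_, e, rfl⟩
  have b2 := bij_of_half h1 (MonoidHom.snd _ _) c7 c8 rfl (by
    rintro ⟨r, _⟩ hp rfl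
    exact (k1 r hp).imp (fun e => by rw [e]; rfl) fun e => by rw [e]) fun g => let ⟨r, e⟩ := h.snd_surj g; ⟨_, e, rfl⟩
  let e := MulEquiv.ofBijective _ b1
  refine ⟨((MonoidHom.snd _ _).comp (Act F ⊓ K).subtype).comp e.symm.toMonoidHom, b2.comp e.symm.bijective, ?_⟩
  have : e.symm Hol.z = ⟨_, c6, c5⟩ := e.symm_apply_eq.2 rfl
  exact congrArg (fun p : ↥(Act F ⊓ K) => p.1.2) this

end Lc

end Cfsg.Agent.H4.BF
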