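import Cfsg.Agent.H4.BF6
import Cfsg.Agent.H5.Constrained

/-!
# The centraliser of the central involution modulo its core
-/

set_option autoImplicit false
set_option linter.unusedSectionVars false

namespace Cfsg.Agent.H4.BF

open Subgroup T Cfsg.Agent.H8 Cfsg.Agent.L0 Cfsg.Agent.H3 Cfsg.Agent.H8.SF

local instance : Fact (Nat.Prime 2) := Nat.fact_prime_two

universe u

theorem le_Opp_of_se {G : Type u} [Group G] [Finite G] {L M X : Subgroup G} (hO : Opp 2 L ≤ M) (hne : ¬ L ≤ M) {a b : G}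
    (haL : a ∈ L) (hbL : b ∈ L) (haM : a ∈ M) (ha : BS.Invo a) (hb : BS.Invo b) (hab : a ≠ b) (hc : a * b = b * a)
    (hu : ∀ s ∈ L, s ∈ M → BS.Invo s → ∀ g ∈ L, g⁻¹ * s * g ∈ M → g ∈ M) (hX : X ≤ L ⊓ M)
    (hn : L ⊓ M ≤ normalizer (X : Set G)) (ho : ¬ 2 ∣ Nat.card X) : X ≤ Opp 2 L := by
  let f := QuotientGroup.mk' (pPrimeCore 2 L)
  have hf : Function.Surjective f := QuotientGroup.mk'_surjective _
  have hN : Odd (Nat.card (pPrimeCore 2 L)) := Dich.odd_iff.2 not_dvd_card_pPrimeCore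
  have hm : ∀ g : L, f g ∈ (M.subgroupOf L).map f ↔ (g : G) ∈ M := fun g => by
    rw [← mem_comap, comap_map_eq, QuotientGroup.ker_mk', sup_eq_left.2 fun g hg => hO (mem_map_of_mem _ hg)]
    rfl
  have ia : BS.Invo (⟨a, haL⟩ : L) := ⟨Subtype.ext ha.1, fun e => ha.2 (congrArg Subtype.val e)⟩
  have h4 : BS.Four (⊤ : Subgroup L) := ⟨⟨a, haL⟩, trivial, ⟨b, hbL⟩, trivial, ia,
    ⟨Subtype.ext hb.1, fun e => hb.2 (congrArg Subtype.val e)⟩, fun e => hab (congrArg Subtype.val e), Subtype.ext hc⟩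
  have h1 := BS.bs0 _ ((M.subgroupOf L).map f) ((X.subgroupOf L).map f) ⟨fun e => hne fun g hg =>
      (hm ⟨g, hg⟩).1 (by rw [e]; trivial), Nat.not_odd_iff_even.1 fun e => BS.not_invo_of_odd e ((hm _).2 haM) (ia.mk hN),
      fun g hg => ?_⟩ (h4.quotient hN).not_pRankLE pPrimeCore_quotient_pPrimeCore
    (map_mono fun g hg => (hX hg).2) ((map_mono fun g hg => subgroupOf_le_normalizer hn L
      (show (g : G) ∈ L ⊓ M from ⟨g.2, hg⟩)).trans (le_normalizer_map f))
    (Dich.odd_iff.2 fun e => ho (e.trans ((card_map_dvd _ _).trans (card_subgroupOf_of_le (hX.trans inf_le_left)).dvd)))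
  · rw [Subgroup.map_eq_bot_iff, QuotientGroup.ker_mk'] at h1
    exact fun x hx => ⟨⟨x, (hX hx).1⟩, h1 hx, rfl⟩
  · by_contra e
    obtain ⟨s, hs, hi⟩ := BS.exists_invo_of_even (Nat.not_odd_iff_even.1 e)
    obtain ⟨s, hi', rfl⟩ := BS.exists_invo_lift hN hi
    obtain ⟨g, rfl⟩ := hf g
    exact hg ((hm g).2 (hu s s.2 ((hm s).1 hs.1) ⟨congrArg Subtype.val hi'.1, fun e => hi'.2 (Subtype.ext e)⟩ g g.2
      ((hm (g⁻¹ * s * g)).1 (mem_cj.1 hs.2))))

variable {G : Type u} [Group G] [Finite G]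

namespace Fm

variable (F : Fm 0 G)

/-- the embedding in the centraliser of `z` -/
def φH : T 0 →* centralizer ({F.φ z} : Set G) := F.φ.codRestrict _ fun w => range_le ⟨w, rfl⟩

variable {Y : Type*} [Group Y] (π : centralizer ({F.φ z} : Set G) →* Y) (hπ : Function.Surjective π)
  (hk : ¬ 2 ∣ Nat.card π.ker)

/-- the embedding in a quotient of the centraliser of `z` -/
def loc : Fm 0 Y where
  φ := π.comp F.φH
  inj := (injective_iff_map_eq_one _).2 fun w hw => F.inj (by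
    have : F.φH w ∈ F.φH.range ⊓ π.ker := ⟨⟨w, rfl⟩, hw⟩
    rw [inf_eq_bot_of ((pgroup 0).of_surjective _ F.φH.rangeRestrict_surjective) hk] at this
    rw [map_one]; exact congrArg Subtype.val this)
  syl := by
    have := (isSylowIn_top (syl_of (F := F) range_le).toSylow).map π
    rw [map_top_of_surjective π hπ] at this
    convert this
    rw [MonoidHom.range_comp]
    congr 1
    ext g
    exact ⟨by rintro ⟨w, rfl⟩; exact ⟨w, trivial, rfl⟩, fun ⟨w, _, e⟩ => ⟨w, Subtype.ext e⟩⟩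

variable {F}

theorem loc_R {v w : T 0} : F.RH v w → (F.loc π hπ hk).R v w := by
  rintro ⟨g, h1, h2⟩
  refine R.of_eq (g := π ⟨g, mem_centralizer_singleton_iff.2 h1⟩) ?_
  change _ * π _ * _ = π _
  rw [← map_inv, ← map_mul, ← map_mul]
  exact congrArg π (Subtype.ext h2)

theorem RH_of_loc {v w : T 0} (hv : v * v = 1) (e : (F.loc π hπ hk).R v w) : F.RH v w := by
  have hw := e.sq hv
  obtain ⟨g, e⟩ := isConj_iff.1 e
  obtain ⟨g, rfl⟩ := hπ g
  change _ * π _ * _ = π _ at e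
  rw [← map_inv, ← map_mul, ← map_mul] at e
  have h1 : g * F.φH v * g⁻¹ * (g * F.φH v * g⁻¹) = 1 := by rw [conj_mul, ← map_mul, hv]; simp
  have h2 : F.φH w * F.φH w = 1 := by rw [← map_mul, hw, map_one]
  obtain ⟨n, hn⟩ := H9.exists_conj_of_odd h1 h2 (Dich.odd_iff.2 fun e' => hk (e'.trans (orderOf_dvd_natCard _
    (by rw [MonoidHom.mem_ker, map_mul, e, ← map_mul, h2, map_one]))))
  generalize (g * F.φH v * g⁻¹ * F.φH w) ^ n = k at hn
  refine ⟨(k⁻¹ * g : centralizer _), mem_centralizer_singleton_iff.1 (k⁻¹ * g).2, ?_⟩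
  have : k⁻¹ * g * F.φH v * (k⁻¹ * g)⁻¹ = F.φH w := by rw [← hn]; group
  exact congrArg Subtype.val this

variable [IsSimpleGroup G] (hG : ¬ IsMulCommutative G) (h : Pat F)
include hG h

theorem lc (hO : pPrimeCore 2 Y = ⊥) : Lc (F.loc π hπ hk) where
  cen g := by
    obtain ⟨g, rfl⟩ := hπ g
    change _ * π _ = π _ * _
    rw [← map_mul, ← map_mul]
    exact congrArg π (Subtype.ext (mem_centralizer_singleton_iff.1 g.2))
  AA _ hw := loc_R π hπ hk (RH_A hG h hw)
  BB _ hw := loc_R π hπ hk (RH_B hG h hw)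
  nAB e := h.nB t (by decide +kernel) ((R_zu hG).trans (RH_of_loc π hπ hk (z_spec 0).2.2.1 e).r)
  na _ hw e := not_RH_a hG h hw (RH_of_loc π hπ hk reps.1 e)
  O := hO

theorem lc0 : Lc (F.loc (QuotientGroup.mk' (pPrimeCore 2 _)) (QuotientGroup.mk'_surjective _)
    H5.not_dvd_card_ker_mk_pPrimeCore) := lc _ _ _ hG h pPrimeCore_quotient_pPrimeCore

theorem con {s : G} (hs : IsConj (F.φ z) s) : IsPConstrained 2 (centralizer ({s} : Set G)) := by
  obtain ⟨g, rfl⟩ := isConj_iff.1 hs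
  rw [← cj_centralizer_singleton, ← H5.isPConstrained_map_iff _ (by
    rw [(MonoidHom.ker_eq_bot_iff _).2 (MulAut.conj g).injective, card_bot]; norm_num)]
  exact H5.isPConstrained_iff_quotient_pPrimeCore.2 (lc0 hG h).constrained

theorem H_le : centralizer {F.φ z} ≤ Dich.core (F.φ z) ⊔ normalizer ((E.map F.φ : Subgroup G) : Set G) := fun g hg => by
  have h1 := (lc0 hG h).normal_E
  have h2 := CopAct.normalizer_map (A := E.map F.φH) (QuotientGroup.mk' (pPrimeCore 2 _)) (QuotientGroup.mk'_surjective _)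
    (CopAct.of_pgroup (((pgroup 0).to_subgroup E).map _) H5.not_dvd_card_ker_mk_pPrimeCore (by rw [normalizer_eq_top]; exact le_top))
  rw [map_map] at h2
  obtain ⟨n, hn, e⟩ := ((normalizer_eq_top_iff.2 h1).symm.trans h2).le (mem_top (QuotientGroup.mk' _ ⟨g, hg⟩))
  have h3 := le_normalizer_map (centralizer ({F.φ z} : Set G)).subtype (mem_map_of_mem _ hn)
  rw [map_map] at h3
  rw [show g = n * (n⁻¹ * ⟨g, hg⟩ : centralizer ({F.φ z} : Set G)) by simp]
  exact mul_mem (mem_sup_right h3) (mem_sup_left (mem_map_of_mem _ (QuotientGroup.eq.1 e)))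

theorem exists_fr (hO : Dich.core (F.φ z) = ⊥) : Nonempty (Fr G) := by
  obtain ⟨ψ, h1, h2⟩ := (lc (MonoidHom.id _) Function.surjective_id (by rw [MonoidHom.ker_id, card_bot]; norm_num) hG h
    (map_pPrimeCore_eq_bot_iff.1 hO)).frame
  refine ⟨⟨(Subgroup.subtype _).comp ψ, (subtype_injective _).comp h1.1, fun g hg => ?_⟩⟩
  rw [MonoidHom.comp_apply, h2] at hg
  obtain ⟨y, e⟩ := h1.2 ⟨g, mem_centralizer_singleton_iff.2 hg⟩
  exact ⟨y, congrArg Subtype.val e⟩

end Fm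

end Cfsg.Agent.H4.BF
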