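import Cfsg.Agent.H4.BF7

/-!
# The core of the centraliser of the central involution is trivial
-/

set_option autoImplicit false
set_option linter.unusedSectionVars false

namespace Cfsg.Agent.H4.BF

open Subgroup T Cfsg.Agent.H8 Cfsg.Agent.L0 Cfsg.Agent.H3 Cfsg.Agent.H8.SF Cfsg.Agent.H8.Dich

local instance : Fact (Nat.Prime 2) := Nat.fact_prime_two

universe u

namespace T

theorem Ct_eq : centralizer {t} = Ct := ext fun w => mem_centralizer_singleton_iff.trans (mem_Ct w).symm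
theorem E_spec : ∀ w ∈ E, w ^ 2 = 1 ∧ ∀ w' ∈ E, w * w' = w' * w := by decide +kernel
theorem V_spec : ∀ w ∈ V, w ∈ E ∧ w ∈ Ct := by decide +kernel
theorem Ct_cases : ∀ w ∈ Ct, (w ∈ V ∨ w * t ∈ V ∨ w * y ∈ V ∨ w * (y * t) ∈ V) ∧
    (w * w = 1 → w ∈ V ∨ w * t ∈ V ∨ B w ∧ B (w * t)) ∧ (A w → w = u ∨ w = u * z) ∧ ¬ Cc w := by decide +kernel
theorem M1_cases : ∀ w ∈ M1, w ∈ V ∨ w * t ∈ V := by decide +kernel
theorem y_spec : B y ∧ B (y * t) ∧ B (y * t * t) ∧ y ∈ Ct ∧ y * t ∈ Ct ∧ t ∈ Ct ∧ t ∉ M2 ∧ y * (u * z) * y⁻¹ = u ∧ B t ∧ z ∈ V ∧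
    u ∈ V ∧ u * z ∈ V := by decide +kernel

end T

variable {G : Type u} [Group G] [Finite G]

theorem core_cj (g a : G) : core (g * a * g⁻¹) = cj g (core a) := by rw [cj_Opp', cj_centralizer_singleton]

theorem norm_of_four {U W : Subgroup G} (hU : IsElementaryAbelian 2 U) (h4 : 2 ^ 2 ≤ Nat.card U) (hW : ¬ 2 ∣ Nat.card W)
    (hn : U ≤ normalizer (W : Set G)) (h : ∀ v ∈ U, v ≠ 1 → W ⊓ centralizer {v} ≤ core v ∧ core v ≤ W) :
    normalizer (U : Set G) ≤ normalizer (W : Set G) := fun g hg => by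
  have e : W = signalizerClosure U core :=
    le_antisymm (le_closure_of_bal hU h4 hW hn fun v hv h1 => (h v hv h1).1) (SF.closure_le fun v hv h1 => (h v hv h1).2)
  refine mem_normalizer_of_cj_le ?_
  rw [e]
  exact (cj_closure_le fun a _ _ => core_cj g a).trans (by rw [cj_eq_self hg])

theorem cent_cj_le {M : Subgroup G} {m s : G} (hm : m ∈ M) (h : centralizer {s} ≤ M) : centralizer {m * s * m⁻¹} ≤ M := by
  rw [← cj_centralizer_singleton]; exact cj_le_of_mem hm h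

theorem cent_le_of_cj {M : Subgroup G} {m s : G} (hm : m ∈ M) (h : centralizer {m * s * m⁻¹} ≤ M) : centralizer {s} ≤ M := by
  simpa [mul_assoc] using cent_cj_le (inv_mem hm) h

/-- the completion of the signalizer functor -/
structure Sg (F : Fm 0 G) (W : Subgroup G) : Prop where
  odd : ¬ 2 ∣ Nat.card W
  nE : normalizer ((E.map F.φ : Subgroup G) : Set G) ≤ normalizer (W : Set G)
  cut : ∀ e ∈ E, e ≠ 1 → W ⊓ centralizer {F.φ e} ≤ core (F.φ e) ∧ core (F.φ e) ≤ W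

namespace Fm

variable {F : Fm 0 G}

theorem elE : IsElementaryAbelian 2 (E.map F.φ) :=
  elemAb_map (elemAb_of (fun a ha => (E_spec a ha).2) fun a ha => (E_spec a ha).1) _

theorem elV : IsElementaryAbelian 2 (V.map F.φ) := elemAb_mono elE (map_mono fun w hw => (V_spec w hw).1)

theorem cj_syl {H : Subgroup G} {B : Subgroup (T 0)} (hB : IsSylowIn 2 (B.map F.φ) H) {s : G} (hs : s ∈ H) (h2 : s * s = 1) :
    ∃ k ∈ H, ∃ w ∈ B, k * s * k⁻¹ = F.φ w ∧ w * w = 1 := by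
  obtain ⟨P, hP, h1⟩ := exists_isSylowIn_ge (pgroup_zpowers_of_pow (p := 2) (by rw [pow_two, h2])) (zpowers_le.2 hs)
  obtain ⟨k, hk, e⟩ := hP.exists_cj_eq hB
  obtain ⟨w, hw, e'⟩ : k * s * k⁻¹ ∈ B.map F.φ := e ▸ conj_mem_cj k (h1 (mem_zpowers s))
  exact ⟨k, hk, w, hw, e'.symm, F.inj (by rw [map_mul, e', conj_mul, h2]; simp)⟩

variable [IsSimpleGroup G] (hG : ¬ IsMulCommutative G) (h : Pat F)
include hG h

theorem R_E {w : T 0} (hw : w ∈ E) (h1 : w ≠ 1) : F.R z w := by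
  rcases (mem_E w).1 hw with e | e | e
  exacts [absurd e h1, e ▸ R.refl _, h.zA w e]

theorem exists_sg : ∃ W, Sg F W := by
  have hs : SSF 2 (E.map F.φ) core := ⟨fun e _ _ => Opp_le _, fun e _ _ => Opp_not_dvd _,
    fun e he _ => (le_centralizer_of_comm (elemAb_comm elE) (Set.singleton_subset_iff.mpr he)).trans (self_norm_Opp _),
    fun e he h1 f hf h2 => Opp_centralizer_balance (pgroup_zpowers_of_pow (elemAb_pow elE he)) (elemAb_mul_comm elE he hf) (by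
      obtain ⟨w, hw, rfl⟩ := hf
      exact con hG h (R_E hG h hw fun e => h2 (by rw [e, map_one]))),
    fun e _ _ => FT.odd_solvable (odd_iff.mpr (Opp_not_dvd _))⟩
  obtain ⟨X, hX, hle⟩ := sComplete_two hs elE (by rw [card_map, card_E]; norm_num)
  have := fun e (he : e ∈ E.map F.φ) h1 => And.intro (hX.le e he h1) (hle e he h1)
  exact ⟨X, hX.not_dvd, norm_of_four elE (by rw [card_map, card_E]; norm_num) hX.not_dvd hX.norm this,
    fun e he h1 => this _ (mem_map_of_mem _ he) (ne_one h1)⟩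

variable {W : Subgroup G} (hW : Sg F W)
include hW

theorem HM : centralizer {F.φ z} ≤ normalizer (W : Set G) :=
  (H_le hG h).trans (sup_le ((hW.cut z (by decide +kernel) (z_spec 0).2.1).2.trans le_normalizer) hW.nE)

theorem SM (w : T 0) : F.φ w ∈ normalizer (W : Set G) := HM hG h hW (range_le ⟨w, rfl⟩)

theorem exists_gM : ∃ g ∈ normalizer (W : Set G), ∃ τ, F.Cj g (fun n => n * u = u * n) τ ∧ τ u = z ∧ (τ z = u ∨ τ z = u * z) := by
  obtain ⟨g, τ, h1, h2, h3⟩ := exists_g (F := F) hG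
  refine ⟨g, norm_of_four (elV (F := F)) (by rw [card_map, card_V]; norm_num) hW.odd (by rintro _ ⟨w, -, rfl⟩; exact SM hG h hW w) (by
    rintro _ ⟨w, hw, rfl⟩ h1
    exact hW.cut w (V_spec w hw).1 fun e => h1 (by rw [e, map_one])) (H9.mem_normalizer_of_conj_mem ?_), τ, h1, h2, h3⟩
  have e1 : g * F.φ u * g⁻¹ ∈ V.map F.φ := by rw [h1 u rfl, h2]; exact mem_map_of_mem _ (by decide +kernel)
  have e2 : g * F.φ z * g⁻¹ ∈ V.map F.φ := by
    rw [h1 z (by decide +kernel)]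
    rcases h3 with e | e <;> rw [e] <;> exact mem_map_of_mem _ (by decide +kernel)
  rintro _ ⟨w, hw, rfl⟩
  rcases (mem_V w).1 hw with e | e | e | e <;> rw [e]
  exacts [by simp, e2, e1, by rw [map_mul, ← conj_mul]; exact mul_mem e1 e2]

theorem cjM_A {w : T 0} (hw : A w) : ∃ m ∈ normalizer (W : Set G), m * F.φ w * m⁻¹ = F.φ z := by
  obtain ⟨k, h1, h2⟩ := RH_A hG h hw
  obtain ⟨g, hg, τ, h3, h4, -⟩ := exists_gM hG h hW
  exact ⟨g * k, mul_mem hg (HM hG h hW (mem_centralizer_singleton_iff.2 h1)), by rw [← h4, ← h3 u rfl, ← h2]; group⟩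

theorem cjM_B {w : T 0} (hw : B w) : ∃ m ∈ normalizer (W : Set G), m * F.φ w * m⁻¹ = F.φ t := by
  obtain ⟨k, h1, h2⟩ := RH_B hG h hw
  exact ⟨k, HM hG h hW (mem_centralizer_singleton_iff.2 h1), h2⟩

theorem cjM {s : G} (hs : s ∈ normalizer (W : Set G)) (h2 : s * s = 1) (h1 : s ≠ 1) :
    ∃ m ∈ normalizer (W : Set G), m * s * m⁻¹ = F.φ z ∨ m * s * m⁻¹ = F.φ t := by
  obtain ⟨k, hk, w, -, e, hw⟩ := cj_syl (syl_of (F := F) (range_le.trans (HM hG h hW))) hs h2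
  have key : ∀ {k w}, k ∈ normalizer (W : Set G) → k * s * k⁻¹ = F.φ w → A w ∨ B w →
      ∃ m ∈ normalizer (W : Set G), m * s * m⁻¹ = F.φ z ∨ m * s * m⁻¹ = F.φ t := fun {k w} hk e hw => by
    rcases hw with hw | hw
    · obtain ⟨m, hm, e'⟩ := cjM_A hG h hW hw
      exact ⟨m * k, mul_mem hm hk, Or.inl (by rw [← e', ← e]; group)⟩
    · obtain ⟨m, hm, e'⟩ := cjM_B hG h hW hw
      exact ⟨m * k, mul_mem hm hk, Or.inr (by rw [← e', ← e]; group)⟩
  rcases invol' w hw with e' | e' | e' | e' | e'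
  · rw [e', map_one] at e; exact absurd (by simpa using e) h1
  · exact ⟨k, hk, Or.inl (e' ▸ e)⟩
  · exact key hk e (Or.inl e')
  · exact key hk e (Or.inr e')
  · obtain ⟨g, hg, τ, h3, h4, h5⟩ := exists_gM hG h hW
    obtain ⟨c, hc, h6⟩ := exists_c h3 h4 h5
    obtain ⟨s1, rfl⟩ := Cc_conj _ e'
    obtain ⟨s2, rfl⟩ := Cc_conj _ hc
    refine key (mul_mem (mul_mem hg (SM hG h hW (s2 * s1⁻¹))) hk) (w := τ (s2 * a * s2⁻¹)) ?_
      (h6.symm.imp (fun e => (A_cases _).2 (Or.inr (Or.inr e))) fun e => (B_cases _).2 (Or.inl e))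
    rw [← h3 _ (Cc_spec _ hc).2.2.2.2, show ∀ g r : G, g * r * k * s * (g * r * k)⁻¹ = g * (r * (k * s * k⁻¹) * r⁻¹) * g⁻¹ from
      fun _ _ => by group, e]
    simp only [map_mul, map_inv]; group

theorem cjM_Z {s : G} (hs : s ∈ normalizer (W : Set G)) (hz : IsConj (F.φ z) s) :
    ∃ m ∈ normalizer (W : Set G), m * s * m⁻¹ = F.φ z := by
  obtain ⟨g, rfl⟩ := isConj_iff.1 hz
  obtain ⟨m, hm, e⟩ := cjM hG h hW hs (by rw [conj_mul, zz]; simp) (by simpa using ne_one (z_spec 0).2.1)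
  exact ⟨m, hm, e.resolve_right fun e => h.nB t y_spec.2.2.2.2.2.2.2.2.1 (hz.trans (isConj_iff.2 ⟨m, e⟩))⟩

theorem cent_Z {s : G} (hs : s ∈ normalizer (W : Set G)) (hz : IsConj (F.φ z) s) : centralizer {s} ≤ normalizer (W : Set G) := by
  obtain ⟨m, hm, e⟩ := cjM_Z hG h hW hs hz
  exact cent_le_of_cj hm (e ▸ HM hG h hW)

theorem uniq {s g : G} (hs : s ∈ normalizer (W : Set G)) (hz : IsConj (F.φ z) s) (hg : g * s * g⁻¹ ∈ normalizer (W : Set G)) :
    g ∈ normalizer (W : Set G) := by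
  obtain ⟨m, hm, e⟩ := cjM_Z hG h hW hs hz
  obtain ⟨m', hm', e'⟩ := cjM_Z hG h hW hg (hz.trans (isConj_iff.2 ⟨g, rfl⟩))
  have : m⁻¹ * m' * g ∈ normalizer (W : Set G) := cent_Z hG h hW hs hz (mem_centralizer_singleton_iff.2 (by
    rw [← mul_inv_eq_iff_eq_mul, show m⁻¹ * m' * g * s * (m⁻¹ * m' * g)⁻¹ = m⁻¹ * (m' * (g * s * g⁻¹) * m'⁻¹) * m by group, e', ← e]
    group))
  exact (mul_mem_cancel_left (mul_mem (inv_mem hm) hm')).1 this

theorem OK_le : core (F.φ t) ≤ W := by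
  have hV : V.map F.φ ≤ centralizer {F.φ t} := by
    rintro _ ⟨w, hw, rfl⟩; exact mem_centralizer_singleton_iff.2 (comm ((mem_Ct w).1 (V_spec w hw).2))
  refine (le_closure_of_bal (θ := core) elV (by rw [card_map, card_V]; norm_num) (Opp_not_dvd _) (hV.trans (self_norm_Opp _)) ?_).trans
    (SF.closure_le ?_) <;> rintro _ ⟨w, hw, rfl⟩ h1
  · exact Opp_centralizer_balance (pgroup_zpowers_of_pow (by rw [pow_two, sq reps.2.2.2.1]))
      (mem_centralizer_singleton_iff.1 (hV (mem_map_of_mem _ hw))).symm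
      (con hG h (R_E hG h (V_spec w hw).1 fun e => h1 (by rw [e, map_one])))
  · exact (hW.cut w (V_spec w hw).1 fun e => h1 (by rw [e, map_one])).2

omit hW in
theorem syl_Ct : IsSylowIn 2 (Ct.map F.φ) (centralizer {F.φ t}) := Ct_eq ▸ syl_t h hG

omit hW hG h in
theorem mem_K {w : T 0} (hw : w ∈ Ct) : F.φ w ∈ centralizer {F.φ t} := mem_centralizer_singleton_iff.2 (comm ((mem_Ct w).1 hw))

omit hW in
theorem exists_K0 {k : G} (hk : k ∈ centralizer {F.φ t}) (e : k * F.φ z * k⁻¹ = F.φ u) :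
    ∃ K : Subgroup G, K ≤ centralizer {F.φ t} ∧ (∀ g ∈ centralizer {F.φ t}, g * g ∈ K) ∧
      (∀ g ∈ centralizer {F.φ t}, ∀ x ∈ K, g * x * g⁻¹ ∈ K) ∧ ∀ w ∈ Ct, F.φ w ∈ K ↔ w ∈ V := by
  obtain ⟨y1, y2, y3, y4, y5, y6, y7, y8, y9, y10, y11, y12⟩ := y_spec
  have hS := syl_Ct hG h
  have tr : ∀ {M : Subgroup (T 0)} {w : T 0}, M.relIndex Ct = 2 → w ∈ Ct → w * w = 1 →
      (∀ g ∈ centralizer {F.φ t}, ∀ w' ∈ M, g * F.φ w * g⁻¹ ≠ F.φ w') →
      ∃ K : Subgroup G, K.relIndex (centralizer {F.φ t}) = 2 ∧ F.φ w ∉ K ∧ ∀ v ∈ V, F.φ v ∈ K := fun {M w} hM hw h2 hn => by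
    obtain ⟨K, h3, h4⟩ := transfer_rel (M := M.map F.φ) hS.le hS.not_dvd_relIndex (by rw [relIndex_map_map_of_injective _ _ F.inj, hM])
      (mem_K hw) (sq h2) fun g hg ⟨w', hw', e⟩ => hn _ (inv_mem hg) w' hw' (by rw [e, inv_inv])
    obtain ⟨r, r1, r2⟩ := (B_spec t y9).2.2.2.2.1
    have hz : F.φ z ∈ K := by
      have := mem_K (F := F) ((mem_Ct r).2 r1)
      rw [← r2, map_mul]; exact (mul_mem_iff_rel h3 this this).2 Iff.rfl
    have hu : F.φ u ∈ K := e ▸ (conj_mem_iff_rel h3 hk (mem_K (V_spec z y10).2)).2 hz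
    refine ⟨K, h3, h4, fun v hv => ?_⟩
    rcases (mem_V v).1 hv with e | e | e | e <;> rw [e]
    exacts [by simp, hz, hu, by rw [map_mul]; exact mul_mem hu hz]
  have tr' : ∀ w ∈ Ct, B w → B (w * t) → ∀ g ∈ centralizer {F.φ t}, ∀ w' ∈ M1, g * F.φ w * g⁻¹ ≠ F.φ w' :=
    fun w _ h1 h2 g hg w' hw' e => by
      have k1 : ∀ {v v'}, B v → F.R v v' → v' ∉ V := fun hv e hv' =>
        h.nB _ hv ((R_V hG hv' (e.ne_one (B_spec _ hv).2.1)).trans e.symm)
      refine (M1_cases w' hw').elim (k1 h1 (R.of_eq e)) (k1 h2 (R.of_eq (g := g) ?_))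
      rw [map_mul, map_mul, ← conj_mul, e, mem_centralizer_singleton_iff.1 hg, mul_inv_cancel_right]
  obtain ⟨K2, a1, a2, a3⟩ := tr idx_M2 y6 (B_spec t y9).1 fun g hg w' hw' e => by
    rw [mem_centralizer_singleton_iff.1 hg, mul_inv_cancel_right] at e
    exact y7 (F.inj e ▸ hw')
  obtain ⟨K3, b1, b2, b3⟩ := tr idx_M1 y4 (B_spec y y1).1 (tr' y y4 y1 y2)
  obtain ⟨K4, c1, c2, c3⟩ := tr idx_M1 y5 (B_spec _ y2).1 (tr' _ y5 y2 y3)
  refine ⟨centralizer {F.φ t} ⊓ (K2 ⊓ (K3 ⊓ K4)), inf_le_left, fun g hg => ⟨mul_mem hg hg, (mul_mem_iff_rel a1 hg hg).2 Iff.rfl,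
    (mul_mem_iff_rel b1 hg hg).2 Iff.rfl, (mul_mem_iff_rel c1 hg hg).2 Iff.rfl⟩,
    fun g hg x hx => ⟨mul_mem (mul_mem hg hx.1) (Subgroup.inv_mem _ hg), (conj_mem_iff_rel a1 hg hx.1).2 hx.2.1,
      (conj_mem_iff_rel b1 hg hx.1).2 hx.2.2.1, (conj_mem_iff_rel c1 hg hx.1).2 hx.2.2.2⟩,
    fun w hw => ⟨fun hx => ?_, fun hv => ⟨mem_K hw, a3 w hv, b3 w hv, c3 w hv⟩⟩⟩
  have k2 : ∀ {K : Subgroup G} {v}, F.φ w ∈ K → F.φ (w * v) ∈ K → F.φ v ∈ K := fun h1 h2 => by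
    rwa [map_mul, mul_mem_cancel_left h1] at h2
  rcases (Ct_cases w hw).1 with e | e | e | e
  exacts [e, absurd (k2 hx.2.1 (a3 _ e)) a2, absurd (k2 hx.2.2.1 (b3 _ e)) b2, absurd (k2 hx.2.2.2 (c3 _ e)) c2]

theorem KM : centralizer {F.φ t} ≤ normalizer (W : Set G) := by
  obtain ⟨y1, y2, y3, y4, y5, y6, y7, y8, y9, y10, y11, y12⟩ := y_spec
  have hS := syl_Ct hG h
  have hzK := mem_K (F := F) (V_spec z y10).2
  have hO := (OK_le hG h hW).trans le_normalizer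
  have hz := SM hG h hW z
  by_cases hi : ∀ g ∈ centralizer {F.φ t}, g * F.φ z * g⁻¹ ∈ Ct.map F.φ → g * F.φ z * g⁻¹ = F.φ z
  · intro g hg
    have := hO (H7.zstar_sylow_in hS zz hzK hi hg)
    rw [commutatorElement_def, mul_assoc, mul_assoc, mul_mem_cancel_left hz, ← mul_assoc] at this
    exact uniq hG h hW hz (IsConj.refl _) (by simpa [mul_assoc] using inv_mem this)
  push Not at hi
  obtain ⟨k, hk, e⟩ : ∃ k ∈ centralizer {F.φ t}, k * F.φ z * k⁻¹ = F.φ u := by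
    obtain ⟨k, hk, ⟨w, hw, e⟩, hne⟩ := hi
    have e1 : F.R z w := R.of_eq e.symm
    rcases invol' w (e1.sq (z_spec 0).1) with e' | e' | e' | e' | e'
    · exact absurd e' (e1.ne_one (z_spec 0).2.1)
    · exact absurd (e' ▸ e).symm hne
    · rcases (Ct_cases w hw).2.2.1 e' with e' | e'
      · exact ⟨k, hk, e' ▸ e.symm⟩
      · exact ⟨F.φ y * k, mul_mem (mem_K y4) hk, by rw [← y8, map_mul, map_mul, map_inv, ← e', e]; group⟩
    · exact absurd e1 (h.nB _ e')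
    · exact absurd e' (Ct_cases w hw).2.2.2
  obtain ⟨K, k1, k2, k3, k4⟩ := exists_K0 hG h hk e
  have hzK0 := (k4 z (V_spec z y10).2).2 y10
  by_cases hK : K ≤ normalizer (W : Set G)
  · exact fun g hg => uniq hG h hW hz (IsConj.refl _) (hK (k3 g hg _ hzK0))
  have kn : centralizer {F.φ t} ≤ normalizer (K : Set G) := fun g hg => H9.mem_normalizer_of_conj_mem (k3 g hg)
  have hO' : Opp 2 K ≤ core (F.φ t) := le_Opp ((Opp_le K).trans k1) (norm_Opp kn) (Opp_not_dvd K)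
  have h1 : K ⊓ W ≤ Opp 2 K := le_Opp_of_se (hO'.trans hO) hK hzK0 ((k4 u (V_spec u y11).2).2 y11) hz
    ⟨zz, ne_one (z_spec 0).2.1⟩ ⟨sq (z_spec 0).2.2.1, ne_one (z_spec 0).2.2.2.1⟩
    (fun e => (z_spec 0).2.2.2.2.1 (F.inj e).symm) (comm_z u).symm (fun s hs hs' hi g _ hg => by
      obtain ⟨m, hm, w, hw, e, -⟩ := cj_syl hS (k1 hs) hi.1
      have e1 := R_V (F := F) hG ((k4 w hw).1 (e ▸ k3 m hm s hs)) (by rintro rfl; exact hi.2 (by simpa using e))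
      exact inv_mem_iff.1 (uniq hG h hW hs' (IsConj.trans e1 (isConj_iff.2 ⟨m, e⟩).symm) (by rwa [inv_inv])))
    (inf_le_inf_left _ le_normalizer) (le_normalizer_inf (inf_le_left.trans le_normalizer) inf_le_right)
    (H8.not_dvd_card_of_le inf_le_right hW.odd)
  have h2 : W ⊓ centralizer {F.φ t} ≤ core (F.φ t) := fun g hg => hO' (h1 ⟨by
    refine mem_of_sq_of_odd (odd_iff.2 hW.odd) (k2 g hg.2) ?_
    rw [show g ^ Nat.card W = 1 from congrArg Subtype.val (pow_card_eq_one' (x := (⟨g, hg.1⟩ : W)))]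
    exact one_mem _, hg.1⟩)
  have h3 : ∀ w, B w → W ⊓ centralizer {F.φ w} ≤ core (F.φ w) ∧ core (F.φ w) ≤ W := fun w hw => by
    obtain ⟨m, hm, e⟩ := cjM_B hG h hW hw
    rw [← cj_le_cj_iff (g := m), ← cj_le_cj_iff (g := m) (K := W), cj_inf, cj_eq_self hm, ← core_cj, cj_centralizer_singleton, e]
    exact ⟨h2, OK_le hG h hW⟩
  have h4 : ∀ w ∈ Ct, B w → B (w * t) → centralizer {F.φ t} ⊓ centralizer {F.φ w} ≤ normalizer (W : Set G) := fun w hw b1 b2 => by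
    obtain ⟨t1, t2, -⟩ := B_spec t y9
    obtain ⟨w1, w2, -⟩ := B_spec w b1
    have hc := comm (F := F) ((mem_Ct w).1 hw)
    obtain ⟨e1, e2⟩ := four_pair (ord t1 t2) (ord w1 w2) hc.symm fun e => (B_spec _ b2).2.1 (by rw [← F.inj e, t1])
    refine le_trans ?_ (norm_of_four e1 e2 hW.odd (sup_le (zpowers_le.2 (SM hG h hW w)) (zpowers_le.2 (SM hG h hW t)))
      fun v hv h1 => ?_)
    · refine le_trans (fun g hg => ?_) (centralizer_le_normalizer _)
      refine le_centralizer_iff.1 (sup_le (zpowers_le.2 ?_) (zpowers_le.2 ?_)) (mem_zpowers g) <;> rintro _ ⟨n, rfl⟩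
      exacts [(Commute.zpow_left (mem_centralizer_singleton_iff.1 hg.2) n).eq,
        (Commute.zpow_left (mem_centralizer_singleton_iff.1 hg.1) n).eq]
    · obtain ⟨p, hp, q, hq, rfl⟩ := H7.mem_sup_of_normalizes
        (Or.inl (zpowers_le.2 (cent_norm_zp _ (mem_centralizer_singleton_iff.2 hc)))) hv
      rcases (H9.mem_zpowers_of_mul_self (sq w1)).1 hp with rfl | rfl <;>
        rcases (H9.mem_zpowers_of_mul_self (sq t1)).1 hq with rfl | rfl
      exacts [absurd (mul_one 1) h1, by rw [one_mul]; exact h3 t y9, by rw [mul_one]; exact h3 w b1,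
        by rw [← map_mul]; exact h3 _ b2]
  intro g hg
  refine uniq hG h hW hz (IsConj.refl _) ?_
  have v1 : g * F.φ z * g⁻¹ ∈ K := k3 g hg _ hzK0
  have v2 : IsConj (F.φ z) (g * F.φ z * g⁻¹) := isConj_iff.2 ⟨g, rfl⟩
  have v3 : g * F.φ z * g⁻¹ * (g * F.φ z * g⁻¹) = 1 := by rw [conj_mul, zz]; simp
  generalize g * F.φ z * g⁻¹ = v at v1 v2 v3
  obtain ⟨n, w1, w2, w3⟩ := H9.exists_central_involution_of_not_isConj (sq (B_spec y y1).1) v3
    fun e => h.nB y y1 (v2.trans e.symm)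
  have hyv := mul_mem (mem_K (F := F) y4) (k1 v1)
  have w4 : (F.φ y * v) ^ n ≠ F.φ t := fun e => by
    rcases Nat.even_or_odd' n with ⟨j, rfl | rfl⟩
    · rw [two_mul, pow_add] at e
      exact (B_spec t y9).2.2.2.1 ((k4 t y6).1 (e ▸ k2 _ (pow_mem hyv j)))
    · rw [pow_succ', two_mul, pow_add, mul_assoc, ← eq_inv_mul_iff_mul_eq, inv_eq_of_mul_eq_one_right (sq (B_spec y y1).1),
        ← map_mul] at e
      exact (B_spec _ y2).2.2.2.1 ((k4 _ y5).1 (e ▸ mul_mem v1 (k2 _ (pow_mem hyv j))))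
  have w5 := pow_mem hyv n
  generalize (F.φ y * v) ^ n = w at w1 w2 w3 w4 w5
  have w6 := h4 y y4 y1 y2 ⟨w5, mem_centralizer_singleton_iff.2 w2⟩
  obtain ⟨m, hm, w', hw', e, w7⟩ := cj_syl (hS.of_le (H := centralizer {F.φ t} ⊓ normalizer (W : Set G))
    (le_inf hS.le (by rintro _ ⟨s, -, rfl⟩; exact SM hG h hW s)) inf_le_left) ⟨w5, w6⟩ (H9.mul_self_of_orderOf_two w1)
  have e1 : m * v * m⁻¹ ∈ centralizer {F.φ w'} := mem_centralizer_singleton_iff.2 (e ▸ conj_comm m w3.symm)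
  have e2 : m * v * m⁻¹ ∈ centralizer {F.φ t} := mul_mem (mul_mem hm.1 (k1 v1)) (inv_mem hm.1)
  rw [← Subgroup.mul_mem_cancel_left _ hm.2, ← Subgroup.mul_mem_cancel_right _ (Subgroup.inv_mem _ hm.2)]
  rcases (Ct_cases w' hw').2.1 w7 with e' | e' | e'
  · exact cent_Z hG h hW (SM hG h hW w') (R_V hG e' (by rintro rfl; exact H9.ne_one_of_orderOf_two w1 (by simpa using e))) e1
  · refine cent_Z hG h hW (SM hG h hW (w' * t)) (R_V hG e' fun e' => w4 ?_) (mem_centralizer_singleton_iff.2 (by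
      rw [map_mul]; exact Commute.mul_right (mem_centralizer_singleton_iff.1 e1) (mem_centralizer_singleton_iff.1 e2)))
    rw [eq_inv_of_mul_eq_one_left e', inv_eq_of_mul_eq_one_right (B_spec t y9).1, mul_inv_eq_iff_eq_mul,
      ← mem_centralizer_singleton_iff.1 hm.1] at e
    exact mul_left_cancel e
  · exact h4 w' hw' e'.1 e'.2 ⟨e2, e1⟩

omit hW in
theorem core_z : core (F.φ z) = ⊥ := by
  obtain ⟨W, hW⟩ := exists_sg hG h
  have hM : normalizer (W : Set G) = ⊤ := eq_top_iff.2 fun g _ => by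
    refine uniq hG h hW (SM hG h hW z) (IsConj.refl _) ?_
    obtain ⟨n, w1, w2, w3⟩ := H9.exists_central_involution_of_not_isConj (sq reps.2.2.2.1) (y := g * F.φ z * g⁻¹)
      (by rw [conj_mul, zz]; simp) fun e => h.nB t y_spec.2.2.2.2.2.2.2.2.1 ((isConj_iff.2 ⟨g, rfl⟩).trans e.symm)
    obtain ⟨m, hm, e⟩ := cjM hG h hW (KM hG h hW (mem_centralizer_singleton_iff.2 w2)) (H9.mul_self_of_orderOf_two w1)
      (H9.ne_one_of_orderOf_two w1)
    refine cent_le_of_cj hm ?_ (mem_centralizer_singleton_iff.2 w3.symm)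
    rcases e with e | e <;> rw [e]
    exacts [HM hG h hW, KM hG h hW]
  refine eq_bot_iff.2 ((hW.cut z (by decide +kernel) (z_spec 0).2.1).2.trans ?_)
  exact BS.pPrimeCore_eq_bot_of_simple (s := F.φ z) ⟨zz, ne_one (z_spec 0).2.1⟩ ▸
    le_pPrimeCore' (normalizer_eq_top_iff.1 hM) hW.odd

end Fm

theorem card_eq_of_model [IsSimpleGroup G] (hG : ¬ IsMulCommutative G) {p : Fin 8} (F : Fm p G)
    (h2 : ∃ s t : G, orderOf s = 2 ∧ orderOf t = 2 ∧ ¬ IsConj s t) : Nat.card G = 95040 := by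
  obtain rfl := Fm.eq_zero (F := F) hG
  obtain ⟨F', h⟩ := Fm.exists_pat hG F h2
  obtain ⟨R⟩ := Fm.exists_fr hG h (Fm.core_z hG h)
  exact R.card_eq hG

end Cfsg.Agent.H4.BF
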