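import Cfsg.Agent.H4.Quadratic
import Cfsg.Agent.H7.Subnormal

/-!
# Wielandt's join theorem, and pairs of subnormal subgroups acting on an abelian group
-/

set_option autoImplicit false

namespace Cfsg.Agent.H4

open Subgroup H7
open scoped commutatorElement

variable {G : Type*} [Group G] {p : ℕ}

theorem le_normalizer_sup_commutator (K M : Subgroup G) :
    M ≤ normalizer ((K ⊔ ⁅K, M⁆ : Subgroup G) : Set G) := by
  rw [le_normalizer_iff_commutator_le_left]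
  exact commutator_sup_left_le (le_sup_left.trans le_normalizer) (le_sup_right.trans le_normalizer)
    le_sup_right ((commutator_le_of_le_normalizer (normalizer_commutator_ge_right K M)).trans
      le_sup_right)

theorem SN_cj {A L : Subgroup G} (h : SN A L) {g : G} (hg : g ∈ normalizer (L : Set G)) :
    SN (H8.cj g A) L := by
  have := h.map (MulAut.conj g).toMonoidHom
  rwa [show L.map (MulAut.conj g).toMonoidHom = L from H8.cj_eq_self hg] at this

variable [Finite G]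

private theorem sn_sup_aux {K B : Subgroup G} (hBK : B ≤ normalizer (K : Set G)) (n : ℕ) :
    ∀ M : Subgroup G, Nat.card M = n → SN K M → B ≤ normalizer (M : Set G) → SN B (M ⊔ B) →
      SN (K ⊔ B) (M ⊔ B) := by
  induction n using Nat.strong_induction_on with
  | _ n ih =>
    intro M hn hK hBM hB
    by_cases hKM : K = M
    · rw [hKM]; exact SN.refl _
    obtain ⟨N, hKN, hNM, hMN⟩ := hK.exists_normal hKM
    have hle : K ⊔ ⁅K, M⁆ ≤ N :=
      sup_le hKN ((commutator_mono hKN le_rfl).trans (commutator_le_of_le_normalizer hMN))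
    have hlt : K ⊔ ⁅K, M⁆ < M := lt_of_le_of_lt hle hNM
    have hB' : B ≤ normalizer ((K ⊔ ⁅K, M⁆ : Subgroup G) : Set G) :=
      H8.le_normalizer_sup hBK (H8.le_normalizer_commutator hBK hBM)
    have h1 := ih _ (hn ▸ H8.card_lt_of_lt hlt) _ rfl (hK.mono le_sup_left hlt.le) hB'
      (hB.mono le_sup_right (sup_le_sup_right hlt.le _))
    refine h1.trans ?_
    rw [sup_comm]
    exact hB.sup_normal (hlt.le.trans le_sup_left) (sup_le (le_normalizer_sup_commutator K M) hB')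

private theorem sn_sup_aux2 (n : ℕ) : ∀ L : Subgroup G, Nat.card L = n → ∀ A B : Subgroup G,
    SN A L → SN B L → SN (A ⊔ B) L := by
  induction n using Nat.strong_induction_on with
  | _ n ih =>
    intro L hn A B hA hB
    by_cases hAL : A = L
    · rw [hAL, sup_eq_left.2 hB.le]; exact SN.refl _
    obtain ⟨N, hAN, hNL, hLN⟩ := hA.exists_normal hAL
    let S : Set (Subgroup G) := {X | SN X N ∧ X ≤ A ⊔ B}
    have hS : sSup S ∈ S := L0.sSup_mem_of_sup_closed ⟨SN.bot N, bot_le⟩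
      (fun X hX Y hY => ⟨ih _ (hn ▸ H8.card_lt_of_lt hNL) N rfl X Y hX.1 hY.1, sup_le hX.2 hY.2⟩)
    have hAS : A ≤ sSup S := le_sSup (s := S) ⟨hA.mono hAN hNL.le, le_sup_left⟩
    have hBS : B ≤ normalizer ((sSup S : Subgroup G) : Set G) := by
      intro b hb
      apply H8.mem_normalizer_of_cj_le
      exact le_sSup (s := S) ⟨SN_cj hS.1 (hLN (hB.le hb)),
        H8.cj_le_of_mem (mem_sup_right hb) hS.2⟩
    have hSL : SN (sSup S) L := hS.1.trans (SN.of_normalizer hNL.le hLN)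
    have h1 := sn_sup_aux hBS _ L rfl hSL (hB.le.trans le_normalizer)
      (by rw [sup_eq_left.2 hB.le]; exact hB)
    rw [sup_eq_left.2 hB.le] at h1
    have : sSup S ⊔ B = A ⊔ B :=
      le_antisymm (sup_le hS.2 le_sup_right) (sup_le_sup_right hAS _)
    rwa [this] at h1

/-- **Wielandt's join theorem** (relative form). -/
theorem SN_sup {A B L : Subgroup G} (hA : SN A L) (hB : SN B L) : SN (A ⊔ B) L :=
  sn_sup_aux2 _ L rfl A B hA hB

/-- **Wielandt's join theorem**: the join of two subnormal subgroups of a finite group is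
subnormal. -/
theorem isSubnormal_sup {A B : Subgroup G} (hA : A.IsSubnormal) (hB : B.IsSubnormal) :
    (A ⊔ B).IsSubnormal :=
  SN.top_iff.1 (SN_sup (SN.top_iff.2 hA) (SN.top_iff.2 hB))

theorem SN_sSup {S : Set (Subgroup G)} {L : Subgroup G} (h : ∀ A ∈ S, SN A L) : SN (sSup S) L := by
  have h1 := L0.sSup_mem_of_sup_closed (S := {X | SN X L ∧ X ≤ sSup S}) ⟨SN.bot L, bot_le⟩
    (fun X hX Y hY => ⟨SN_sup hX.1 hY.1, sup_le hX.2 hY.2⟩)
  have h2 : sSup {X | SN X L ∧ X ≤ sSup S} = sSup S :=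
    le_antisymm h1.2 (sSup_le_sSup fun A hA => ⟨h A hA, le_sSup hA⟩)
  exact h2 ▸ h1.1

theorem isSubnormal_sSup {S : Set (Subgroup G)} (h : ∀ A ∈ S, A.IsSubnormal) :
    (sSup S).IsSubnormal :=
  SN.top_iff.1 (SN_sSup fun A hA => SN.top_iff.2 (h A hA))

theorem SN_commutator {A B L : Subgroup G} (hA : SN A L) (hB : SN B L) : SN ⁅A, B⁆ L :=
  (SN.of_normalizer (commutator_le_sup A B)
    (sup_le (normalizer_commutator_ge_left A B) (normalizer_commutator_ge_right A B))).trans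
    (SN_sup hA hB)

omit [Finite G] in
theorem SN_le_map_pCore {A L : Subgroup G} (hA : SN A L) (h : IsPGroup p A) :
    A ≤ (pCore p L).map L.subtype := by
  have := L0.le_pCore_of_isSubnormal ((isSubnormal_subgroupOf_iff hA.le).2 hA)
    (H8.pgroup_subgroupOf h L)
  intro a ha
  exact ⟨⟨a, hA.le ha⟩, this ha, rfl⟩

omit [Finite G] in
theorem normalizer_le_normalizer_commStab (A R : Subgroup G) :
    normalizer (A : Set G) ⊓ normalizer (R : Set G) ≤ normalizer (commStab A R : Set G) := by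
  rw [le_normalizer_iff]
  rintro g ⟨hgA, hgR⟩ x ⟨hx1, hx2⟩
  refine ⟨mul_mem (mul_mem hgR hx1) (inv_mem hgR), fun a ha => ?_⟩
  have h1 := (mem_normalizer_iff.1 hgR _).1 (hx2 _ ((mem_normalizer_iff''.1 hgA _).1 ha))
  rw [conjugate_commutatorElement] at h1
  convert h1 using 2
  group

omit [Finite G] in
/-- If `[V, E₁, E₂] = 1` then `[E₁, E₂]` acts quadratically on `V`. -/
theorem quadratic_commutator_of_successive {V E₁ E₂ : Subgroup G}
    (h₁ : E₁ ≤ normalizer (V : Set G)) (h₂ : E₂ ≤ normalizer (V : Set G))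
    (hc : ⁅⁅V, E₁⁆, E₂⁆ = ⊥) : ⁅⁅V, ⁅E₁, E₂⁆⁆, ⁅E₁, E₂⁆⁆ = ⊥ := by
  have h1 : ⁅V, E₁⁆ ≤ V ⊓ centralizer (E₂ : Set G) :=
    le_inf (commutator_le_of_le_normalizer h₁) (commutator_eq_bot_iff_le_centralizer.1 hc)
  set C := V ⊓ centralizer (E₂ : Set G)
  have hE₁C : E₁ ≤ normalizer (C : Set G) := le_normalizer_of_commutator_le inf_le_left h1
  have hE₂C : E₂ ≤ centralizer (C : Set G) := le_centralizer_iff.1 inf_le_right
  have h2 : ⁅E₁, E₂⁆ ≤ centralizer (C : Set G) := by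
    refine (commutator_mono le_rfl hE₂C).trans ?_
    exact le_normalizer_iff_commutator_le_right.1 (H8.le_normalizer_centralizer hE₁C)
  have h3 : ⁅E₁, E₂⁆ ≤ commStab V C := by
    have h4 : E₁ ≤ commStab V C := le_commStab_iff.2 ⟨hE₁C, by rwa [commutator_comm]⟩
    refine (commutator_mono h4 le_rfl).trans (commutator_le_of_le_normalizer ?_)
    exact (le_inf h₂ (hE₂C.trans (centralizer_le_normalizer _))).trans
      (normalizer_le_normalizer_commStab V C)
  have h5 : ⁅V, ⁅E₁, E₂⁆⁆ ≤ C := by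
    rw [commutator_comm]; exact (le_commStab_iff.1 h3).2
  rw [commutator_eq_bot_iff_le_centralizer']
  exact h2.trans (centralizer_anti h5)

/-- `E` acts faithfully and irreducibly on `[V, E]`, and has order greater than two. -/
structure IrrOn (V E : Subgroup G) : Prop where
  irr : ∀ U : Subgroup G, U ≤ ⁅V, E⁆ → E ≤ normalizer (U : Set G) → U = ⊥ ∨ U = ⁅V, E⁆
  two_lt : 2 < Nat.card E
  faithful : E ⊓ centralizer ((⁅V, E⁆ : Subgroup G) : Set G) = ⊥

omit [Finite G] in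
theorem cj_commutator_of_mem_normalizer {V E : Subgroup G} {g : G}
    (hg : g ∈ normalizer (V : Set G)) : H8.cj g ⁅V, E⁆ = ⁅V, H8.cj g E⁆ := by
  rw [H8.cj_commutator, H8.cj_eq_self hg]

omit [Finite G] in
theorem IrrOn.cj {V E : Subgroup G} (h : IrrOn V E) {g : G} (hg : g ∈ normalizer (V : Set G)) :
    IrrOn V (H8.cj g E) := by
  refine ⟨fun U hU hn => ?_, by rw [H8.card_cj]; exact h.two_lt, ?_⟩
  · rw [← cj_commutator_of_mem_normalizer hg] at hU ⊢
    have h1 : H8.cj g⁻¹ U ≤ ⁅V, E⁆ := by rw [H8.cj_le_iff, inv_inv]; exact hU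
    have h2 : E ≤ normalizer ((H8.cj g⁻¹ U : Subgroup G) : Set G) := by
      rw [← H8.cj_normalizer, ← H8.cj_le_iff]; exact hn
    rcases h.irr _ h1 h2 with h3 | h3
    · exact Or.inl (H8.cj_eq_bot_iff.1 h3)
    · exact Or.inr (by rw [← h3, H8.cj_cj_inv])
  · rw [← cj_commutator_of_mem_normalizer hg, ← H8.cj_centralizer, ← H8.cj_inf, h.faithful,
      H8.cj_bot]

omit [Finite G] in
theorem IrrOn.not_le_centralizer {V E : Subgroup G} (h : IrrOn V E) :
    ¬ E ≤ centralizer ((⁅V, E⁆ : Subgroup G) : Set G) := by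
  intro hle
  have h1 := h.faithful
  rw [inf_eq_left.2 hle] at h1
  have h2 := h.two_lt
  rw [h1, card_bot] at h2
  omega

omit [Finite G] in
private theorem sn_pair_step {V H E₁ E₂ : Subgroup G} (hV : IsMulCommutative V)
    (hHV : H ≤ normalizer (V : Set G)) (hE₁ : E₁ ≤ H) (hE₂ : E₂ ≤ H) (h₁ : IrrOn V E₁)
    (h12 : ¬ ⁅V, E₁⁆ ≤ ⁅V, E₂⁆)
    (B₁ : ∀ x ∈ H, x ∉ normalizer ((⁅V, E₁⁆ : Subgroup G) : Set G) →
      ⁅H8.cj x ⁅V, E₁⁆, E₁⁆ = ⊥ ∧ ⁅V, E₁⁆ ⊓ H8.cj x ⁅V, E₁⁆ = ⊥)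
    (B₂ : ∀ x ∈ H, x ∉ normalizer ((⁅V, E₂⁆ : Subgroup G) : Set G) →
      ⁅H8.cj x ⁅V, E₂⁆, E₂⁆ = ⊥) :
    E₂ ≤ normalizer ((⁅V, E₁⁆ : Subgroup G) : Set G) := by
  intro x hx
  by_contra hxn
  obtain ⟨hx1, hx2⟩ := B₁ x (hE₂ hx) hxn
  rw [commutator_eq_bot_iff_le_centralizer] at hx1
  have hV₁ : ⁅V, E₁⁆ ≤ V := commutator_le_of_le_normalizer (hE₁.trans hHV)
  have hn₁ : E₁ ≤ normalizer ((⁅V, E₁⁆ : Subgroup G) : Set G) := normalizer_commutator_ge_right _ _
  have hnc := h₁.not_le_centralizer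
  have hirr := h₁.irr
  have hfaith := h₁.faithful
  have hcomm2 : ∀ v ∈ ⁅V, E₁⁆, v * (x * v⁻¹ * x⁻¹) ∈ ⁅V, E₂⁆ := fun v hv => by
    have := commutator_mem_commutator (hV₁ hv) hx
    rwa [commutatorElement_def, mul_assoc, mul_assoc, ← mul_assoc x] at this
  have hV₂ : ⁅V, E₂⁆ ≤ V := commutator_le_of_le_normalizer (hE₂.trans hHV)
  set V₁ := ⁅V, E₁⁆
  set V₂ := ⁅V, E₂⁆
  by_cases hE : E₁ ≤ normalizer (V₂ : Set G)
  · have h3 : V₁ ⊓ V₂ = ⊥ := by
      rcases hirr (V₁ ⊓ V₂) inf_le_left (H8.le_normalizer_inf hn₁ hE) with h | h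
      · exact h
      · exact absurd (h ▸ inf_le_right) h12
    have h4 : V₂ ≤ centralizer (E₁ : Set G) := by
      rw [← commutator_eq_bot_iff_le_centralizer, eq_bot_iff, ← h3]
      exact le_inf (commutator_mono hV₂ le_rfl) (commutator_le_of_le_normalizer hE)
    apply hnc
    rw [le_centralizer_iff]
    intro v hv
    exact (mul_mem_cancel_right (hx1 (H8.conj_mem_cj x (inv_mem hv)))).1 (h4 (hcomm2 v hv))
  · have hinv : ∀ y ∈ E₁, y ∉ normalizer (V₂ : Set G) → ∀ v ∈ V₁, y * v * y⁻¹ = v⁻¹ := by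
      intro y hy hyn
      have h3 := commutator_eq_bot_iff_le_centralizer.1 (B₂ y (hE₁ hy) hyn)
      have key : ∀ v ∈ V₁, x * x * v⁻¹ * (x * x)⁻¹ =
          (y * v * y⁻¹) * (x * ((y * v * y⁻¹) * v)⁻¹ * x⁻¹) := by
        intro v hv
        have h4 := h3 (H8.conj_mem_cj y (hcomm2 v hv)) x hx
        have h5 := hx1 (H8.conj_mem_cj x (inv_mem hv)) y hy
        have h6 : y * (v * (x * v⁻¹ * x⁻¹)) * y⁻¹ = (y * v * y⁻¹) * (x * v⁻¹ * x⁻¹) := by
          calc _ = (y * v * y⁻¹) * (y * (x * v⁻¹ * x⁻¹)) * y⁻¹ := by group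
            _ = _ := by rw [h5]; group
        rw [h6] at h4
        have hv' : y * v * y⁻¹ ∈ V := hV₁ (H8.conj_mem_of_le_normalizer hn₁ hy hv)
        generalize y * v * y⁻¹ = w at h4 hv' ⊢
        have hxw : x * w⁻¹ * x⁻¹ ∈ V := H8.conj_mem_of_le_normalizer hHV (hE₂ hx) (inv_mem hv')
        have h7 := mul_comm_of_mem hV hxw hv'
        have h8 := mul_comm_of_mem hV (inv_mem hv') (inv_mem (hV₁ hv))
        calc x * x * v⁻¹ * (x * x)⁻¹
            = (x * w⁻¹ * x⁻¹) * (x * (w * (x * v⁻¹ * x⁻¹))) * x⁻¹ := by group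
          _ = (x * w⁻¹ * x⁻¹) * w * (x * v⁻¹ * x⁻¹) := by rw [h4]; group
          _ = w * (x * (w⁻¹ * v⁻¹) * x⁻¹) := by rw [h7]; group
          _ = _ := by rw [h8]; group
      by_cases hxx : x * x ∈ normalizer (V₁ : Set G)
      · intro v hv
        have hv' : y * v * y⁻¹ ∈ V₁ := H8.conj_mem_of_le_normalizer hn₁ hy hv
        have h4 : x * ((y * v * y⁻¹) * v)⁻¹ * x⁻¹ ∈ V₁ ⊓ H8.cj x V₁ := by
          refine ⟨?_, H8.conj_mem_cj x (inv_mem (mul_mem hv' hv))⟩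
          have h5 := (mem_normalizer_iff.1 hxx _).1 (inv_mem hv)
          rw [key v hv] at h5
          exact (mul_mem_cancel_left hv').1 h5
        rw [hx2, mem_bot] at h4
        have h5 : (y * v * y⁻¹) * v = 1 := by
          rw [← inv_eq_one]
          calc _ = x⁻¹ * (x * ((y * v * y⁻¹) * v)⁻¹ * x⁻¹) * x := by group
            _ = 1 := by rw [h4]; group
        exact eq_inv_of_mul_eq_one_left h5
      · exfalso
        have h4 := commutator_eq_bot_iff_le_centralizer.1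
          (B₁ _ (mul_mem (hE₂ hx) (hE₂ hx)) hxx).1
        apply hnc
        rw [le_centralizer_iff]
        intro w hw
        have hv : y⁻¹ * w * y ∈ V₁ := H8.conj_mem_of_le_normalizer' hn₁ hy hw
        have h5 := h4 (H8.conj_mem_cj (x * x) (inv_mem hv))
        rw [key _ hv, show y * (y⁻¹ * w * y) * y⁻¹ = w by group] at h5
        exact (mul_mem_cancel_right (hx1 (H8.conj_mem_cj x (inv_mem (mul_mem hw hv))))).1 h5
    obtain ⟨y, hy, hyn⟩ := SetLike.not_le_iff_exists.1 hE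
    have huniq : ∀ z ∈ E₁, z ∉ normalizer (V₂ : Set G) → z = y := by
      intro z hz hzn
      have : z⁻¹ * y ∈ E₁ ⊓ centralizer (V₁ : Set G) := by
        refine ⟨E₁.mul_mem (E₁.inv_mem hz) hy, fun v hv => ?_⟩
        calc v * (z⁻¹ * y) = z⁻¹ * (z * v * z⁻¹) * y := by group
          _ = z⁻¹ * (y * v * y⁻¹) * y := by rw [hinv z hz hzn v hv, hinv y hy hyn v hv]
          _ = _ := by group
      rw [hfaith, mem_bot] at this
      exact inv_mul_eq_one.1 this
    have hsub : (E₁ : Set G) ⊆ {1, y} := by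
      intro z hz
      by_cases hzn : z ∈ normalizer (V₂ : Set G)
      · left
        have := huniq (y * z) (mul_mem hy hz) (fun h => hyn ((mul_mem_cancel_right hzn).1 h))
        simpa using this
      · right; exact huniq z hz hzn
    have h3 := Set.ncard_le_ncard hsub (Set.toFinite _)
    have h4 : ({1, y} : Set G).ncard ≤ 2 := (Set.ncard_insert_le _ _).trans (by simp)
    have h5 := h₁.two_lt
    rw [← SetLike.coe_sort_coe, Nat.card_coe_set_eq] at h5
    omega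

private theorem sn_pair_aux {V : Subgroup G} (hV : IsMulCommutative V) (n : ℕ) :
    ∀ H : Subgroup G, Nat.card H = n → H ≤ normalizer (V : Set G) → ∀ E₁ E₂ : Subgroup G,
      SN E₁ H → SN E₂ H → IrrOn V E₁ → IrrOn V E₂ → ¬ ⁅V, E₁⁆ ≤ ⁅V, E₂⁆ → ¬ ⁅V, E₂⁆ ≤ ⁅V, E₁⁆ →
      ⁅⁅V, E₁⁆, E₂⁆ = ⊥ ∧ ⁅⁅V, E₂⁆, E₁⁆ = ⊥ ∧ ⁅V, E₁⁆ ⊓ ⁅V, E₂⁆ = ⊥ := by
  induction n using Nat.strong_induction_on with
  | _ n ih =>
    intro H hn hHV E₁ E₂ s₁ s₂ h₁ h₂ h12 h21
    have B : ∀ E : Subgroup G, SN E H → IrrOn V E → E ≠ H → ∀ x ∈ H,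
        x ∉ normalizer ((⁅V, E⁆ : Subgroup G) : Set G) →
        ⁅H8.cj x ⁅V, E⁆, E⁆ = ⊥ ∧ ⁅V, E⁆ ⊓ H8.cj x ⁅V, E⁆ = ⊥ := by
      intro E s h hne x hx hxn
      obtain ⟨N, hEN, hNH, hHN⟩ := s.exists_normal hne
      have s' := s.mono hEN hNH.le
      have hne' : H8.cj x ⁅V, E⁆ ≠ ⁅V, E⁆ := fun h => hxn (H8.cj_eq_self_iff.1 h)
      have := ih _ (hn ▸ H8.card_lt_of_lt hNH) N rfl (hNH.le.trans hHV) E (H8.cj x E) s'
        (SN_cj s' (hHN hx)) h (h.cj (hHV hx))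
        (by
          rw [← cj_commutator_of_mem_normalizer (hHV hx)]
          exact fun h => hne' (eq_of_le_of_card_ge h (H8.card_cj _ _).le).symm)
        (by
          rw [← cj_commutator_of_mem_normalizer (hHV hx)]
          exact fun h => hne' (eq_of_le_of_card_ge h (H8.card_cj _ _).ge))
      rw [← cj_commutator_of_mem_normalizer (hHV hx)] at this
      exact this.2
    have B₁ := B E₁ s₁ h₁ (by rintro rfl; exact h21 (commutator_mono le_rfl s₂.le))
    have B₂ := B E₂ s₂ h₂ (by rintro rfl; exact h12 (commutator_mono le_rfl s₁.le))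
    have n₂ := sn_pair_step hV hHV s₁.le s₂.le h₁ h12 B₁ (fun x hx hxn => (B₂ x hx hxn).1)
    have n₁ := sn_pair_step hV hHV s₂.le s₁.le h₂ h21 B₂ (fun x hx hxn => (B₁ x hx hxn).1)
    have h3 : ⁅V, E₁⁆ ⊓ ⁅V, E₂⁆ = ⊥ := by
      rcases h₁.irr _ inf_le_left
        (H8.le_normalizer_inf (normalizer_commutator_ge_right _ _) n₁) with h | h
      · exact h
      · exact absurd (h ▸ inf_le_right) h12
    refine ⟨?_, ?_, h3⟩ <;> rw [eq_bot_iff, ← h3]
    · exact le_inf (commutator_le_of_le_normalizer n₂)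
        (commutator_mono (commutator_le_of_le_normalizer (s₁.le.trans hHV)) le_rfl)
    · exact le_inf (commutator_mono (commutator_le_of_le_normalizer (s₂.le.trans hHV)) le_rfl)
        (commutator_le_of_le_normalizer n₁)

/-- Two subnormal subgroups acting faithfully and irreducibly on incomparable commutator modules
centralize each other's module. -/
theorem subnormal_pair {V H E₁ E₂ : Subgroup G} (hV : IsMulCommutative V)
    (hHV : H ≤ normalizer (V : Set G)) (s₁ : SN E₁ H) (s₂ : SN E₂ H) (h₁ : IrrOn V E₁)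
    (h₂ : IrrOn V E₂) (h12 : ¬ ⁅V, E₁⁆ ≤ ⁅V, E₂⁆) (h21 : ¬ ⁅V, E₂⁆ ≤ ⁅V, E₁⁆) :
    ⁅⁅V, E₁⁆, E₂⁆ = ⊥ ∧ ⁅⁅V, E₂⁆, E₁⁆ = ⊥ ∧ ⁅V, E₁⁆ ⊓ ⁅V, E₂⁆ = ⊥ :=
  sn_pair_aux hV _ H rfl hHV E₁ E₂ s₁ s₂ h₁ h₂ h12 h21

omit [Finite G] in
theorem commutator_le_centralizer_of_both {V E₁ E₂ : Subgroup G} (h1 : ⁅⁅V, E₁⁆, E₂⁆ = ⊥)
    (h2 : ⁅⁅V, E₂⁆, E₁⁆ = ⊥) : ⁅E₁, E₂⁆ ≤ centralizer (V : Set G) := by
  rw [← commutator_eq_bot_iff_le_centralizer]
  exact commutator_commutator_eq_bot_of_rotate (by rw [commutator_comm E₂ V]; exact h2) h1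

end Cfsg.Agent.H4
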