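import Cfsg.Agent.H4.Plane
import Cfsg.Agent.H4.LinRep
import Cfsg.Agent.H4.Replacement
import Cfsg.Agent.H4.Wielandt
import Cfsg.Agent.H8.PxQ
import Cfsg.Agent.H8.Hyperplane
import Cfsg.Agent.H8.Factor

/-!
# Failure of factorization for `p`-separable groups
-/

set_option autoImplicit false

namespace Cfsg.Agent.H4

open Subgroup
open scoped commutatorElement MatrixGroups

variable {G : Type*} [Group G] {p : ℕ}

section small

theorem eq_of_le_of_card_prime [Fact p.Prime] {A B : Subgroup G} (hA : Nat.card A = p)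
    (hB : B ≤ A) (h : B ≠ ⊥) : B = A := by
  have : Finite A := Nat.finite_of_card_ne_zero (hA ▸ (Fact.out : p.Prime).ne_zero)
  refine eq_of_le_of_card_ge hB ?_
  have h1 := card_dvd_of_le hB
  rw [hA, Nat.dvd_prime Fact.out] at h1
  rcases h1 with h1 | h1
  · exact absurd (card_eq_one.1 h1) h
  · rw [hA, h1]

theorem exists_zpowers_eq_of_card_prime [Fact p.Prime] {A : Subgroup G} (hA : Nat.card A = p) :
    ∃ a, a ≠ 1 ∧ a ^ p = 1 ∧ zpowers a = A := by
  have h1 : A ≠ ⊥ := by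
    rintro rfl
    rw [card_bot] at hA
    exact (Fact.out : p.Prime).one_lt.ne hA
  obtain ⟨⟨a, ha⟩, ha1⟩ := ne_bot_iff_exists_ne_one.1 h1
  have ha2 : a ≠ 1 := fun h => ha1 (Subtype.ext h)
  refine ⟨a, ha2, ?_, eq_of_le_of_card_prime hA (zpowers_le.2 ha) (by rwa [Ne, zpowers_eq_bot])⟩
  rw [← hA]
  exact congrArg Subtype.val (pow_card_eq_one' (x := (⟨a, ha⟩ : A)))

theorem inf_eq_bot_of_card_prime [Fact p.Prime] {A B : Subgroup G} (hA : Nat.card A = p)
    (hB : Nat.card B = p) (h : A ≠ B) : A ⊓ B = ⊥ := by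
  by_contra h1
  exact h ((eq_of_le_of_card_prime hA inf_le_left h1).symm.trans
    (eq_of_le_of_card_prime hB inf_le_right h1))

theorem card_sup_of_card_prime [Fact p.Prime] {A B W : Subgroup G} (hW : IsMulCommutative W)
    (hAW : A ≤ W) (hBW : B ≤ W) (hA : Nat.card A = p) (hB : Nat.card B = p) (h : A ≠ B) :
    Nat.card ↥(A ⊔ B) = p ^ 2 := by
  have := L0.card_sup_mul_card_inf_of_le_normalizer (hAW.trans (H8.le_normalizer_of_comm hW hBW))
  rwa [inf_eq_bot_of_card_prime hA hB h, card_bot, mul_one, hA, hB, ← pow_two] at this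

theorem commutator_normalizer_zpowers_le (u : G) :
    ⁅normalizer (zpowers u : Set G), normalizer (zpowers u : Set G)⁆ ≤
      centralizer (zpowers u : Set G) := by
  rw [commutator_le]
  intro g hg k hk
  obtain ⟨i, hi⟩ := (mem_normalizer_iff.1 (inv_mem hg) u).1 (mem_zpowers u)
  obtain ⟨j, hj⟩ := (mem_normalizer_iff.1 (inv_mem hk) u).1 (mem_zpowers u)
  simp only [inv_inv] at hi hj
  rw [H8.centralizer_zpowers, mem_centralizer_singleton_iff]
  have e1 : k⁻¹ * (g⁻¹ * u * g) * k = g⁻¹ * (k⁻¹ * u * k) * g := by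
    conv_lhs => rw [← hi, ← inv_inv k, inv_inv k⁻¹, ← conj_zpow, inv_inv, ← hj, ← zpow_mul]
    conv_rhs => rw [← hj, ← inv_inv g, inv_inv g⁻¹, ← conj_zpow, inv_inv, ← hi, ← zpow_mul]
    rw [mul_comm]
  calc ⁅g, k⁆ * u = g * k * (g⁻¹ * (k⁻¹ * u * k) * g) * g⁻¹ * k⁻¹ := by
        rw [commutatorElement_def]; group
    _ = u * ⁅g, k⁆ := by rw [← e1, commutatorElement_def]; group

theorem normalizer_le_centralizer_of_card_two {U : Subgroup G} (h : Nat.card U = 2) :
    normalizer (U : Set G) ≤ centralizer (U : Set G) := by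
  obtain ⟨u, hu1, hu2, rfl⟩ := exists_zpowers_eq_of_card_prime h
  intro g hg
  obtain ⟨i, hi⟩ := exists_zp_of_mem_zpowers hu2 ((mem_normalizer_iff.1 hg u).1 (mem_zpowers u))
  rw [H8.centralizer_zpowers, mem_centralizer_singleton_iff]
  fin_cases i
  · exact absurd (conj_eq_one_iff.1 (hi.symm.trans (zp_zero u))) hu1
  · rw [← mul_inv_eq_iff_eq_mul, ← hi]
    exact zp_one hu2

end small

/-- The standing hypotheses: `H` acts faithfully on `V` and has a self-centralizing normal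
`p'`-subgroup `F`. -/
structure FF (p : ℕ) (V H F : Subgroup G) : Prop where
  ea : IsElementaryAbelian p V
  norm : H ≤ normalizer (V : Set G)
  faithful : H ⊓ centralizer (V : Set G) = ⊥
  le : F ≤ H
  normal : H ≤ normalizer (F : Set G)
  coprime : ¬ p ∣ Nat.card F
  selfc : H ⊓ centralizer (F : Set G) ≤ F

/-- Minimal nontrivially acting best offenders. -/
def MinOff (p : ℕ) (V A : Subgroup G) : Prop :=
  IsBestOffenderOn p V A ∧ ⁅V, A⁆ ≠ ⊥ ∧
    ∀ B : Subgroup G, B ≤ A → IsBestOffenderOn p V B → ⁅V, B⁆ ≠ ⊥ → B = A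

/-- Transvections. -/
structure Tv (p : ℕ) (V H : Subgroup G) (a : G) : Prop where
  mem : a ∈ H
  pow : a ^ p = 1
  card : Nat.card ↥⁅V, zpowers a⁆ = p

variable [Finite G] [hp : Fact p.Prime] {V H F : Subgroup G}

theorem FF.of (hV : IsElementaryAbelian p V) (hHV : H ≤ normalizer (V : Set G))
    (hf : H ⊓ centralizer (V : Set G) = ⊥)
    (hS1 : centralizer (pPrimeCore p H : Set H) ≤ pPrimeCore p H) :
    FF p V H ((pPrimeCore p H).map H.subtype) := by
  refine ⟨hV, hHV, hf, map_subtype_le _, L0.le_normalizer_map_pPrimeCore H,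
    L0.not_dvd_card_map_pPrimeCore H, ?_⟩
  rw [← H7.map_subtype_centralizer]
  exact map_mono hS1

namespace FF

omit [Finite G] hp in
theorem eq_bot_of_le (h : FF p V H F) {A : Subgroup G} (hA : A ≤ H)
    (hc : A ≤ centralizer (V : Set G)) : A = ⊥ :=
  eq_bot_iff.2 (h.faithful ▸ le_inf hA hc)

omit [Finite G] hp in
theorem commutator_ne_bot (h : FF p V H F) {A : Subgroup G} (hA : A ≤ H) (h1 : A ≠ ⊥) :
    ⁅V, A⁆ ≠ ⊥ := fun h2 => h1 (h.eq_bot_of_le hA (commutator_eq_bot_iff_le_centralizer'.1 h2))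

theorem inf_eq_bot (h : FF p V H F) {P : Subgroup G} (hP : IsPGroup p P) : P ⊓ F = ⊥ :=
  (L0.disjoint_of_isPGroup_of_not_dvd hP h.coprime).eq_bot

theorem eq_bot_of_le_centralizer (h : FF p V H F) {P : Subgroup G} (hP : IsPGroup p P)
    (hPH : P ≤ H) (hc : P ≤ centralizer (F : Set G)) : P = ⊥ :=
  eq_bot_iff.2 (h.inf_eq_bot hP ▸ le_inf le_rfl ((le_inf hPH hc).trans h.selfc))

theorem eq_bot_of_le_normalizer (h : FF p V H F) {P : Subgroup G} (hP : IsPGroup p P)
    (hPH : P ≤ H) (hn : F ≤ normalizer (P : Set G)) : P = ⊥ :=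
  h.eq_bot_of_le_centralizer hP hPH (commutator_eq_bot_iff_le_centralizer.1
    (H8.commutator_eq_bot_of_normalize_of_disjoint (hPH.trans h.normal) hn (h.inf_eq_bot hP)))

omit [Finite G] hp in
theorem ea_of_quadratic (h : FF p V H F) {A : Subgroup G} (hA : A ≤ H) (hq : ⁅⁅V, A⁆, A⁆ = ⊥) :
    IsElementaryAbelian p A :=
  isElementaryAbelian_of_quadratic h.ea.2 (hA.trans h.norm)
    (eq_bot_iff.2 (h.faithful ▸ inf_le_inf_right _ hA)) hq

omit [Finite G] hp in
theorem ea_of_best (h : FF p V H F) {A : Subgroup G} (hA : A ≤ H) (hb : IsBestOffenderOn p V A) :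
    IsElementaryAbelian p A :=
  isElementaryAbelian_of_isBestOffenderOn hb (eq_bot_iff.2 (h.faithful ▸ inf_le_inf_right _ hA))

theorem copAct (h : FF p V H F) {A : Subgroup G} (hA : A ≤ H) (hP : IsPGroup p A) :
    H8.CopAct A F := H8.CopAct.of_pgroup hP h.coprime (hA.trans h.normal)

theorem copAct_V (h : FF p V H F) {Q : Subgroup G} (hQ : Q ≤ F) : H8.CopAct Q V :=
  H8.CopAct.of_pgroup_right (L0.not_dvd_card_of_le hQ h.coprime) (EA.isPGroup h.ea)
    ((hQ.trans h.le).trans h.norm)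

theorem jv_le_of_hyperplane (h : FF p V H F) {A B : Subgroup G} (hAH : A ≤ H)
    (hA : IsElementaryAbelian p A) (hB : B ≤ A) (hi : B.relIndex A = p)
    (hc : ¬ F ⊓ centralizer (B : Set G) ≤ centralizer (A : Set G)) : jv V A ≤ jv V B := by
  have hlt : V ⊓ centralizer (A : Set G) < V ⊓ centralizer (B : Set G) := by
    refine lt_of_le_of_ne (inf_le_inf_left _ (centralizer_anti hB)) fun he => hc ?_
    have hAQ : A ≤ normalizer ((F ⊓ centralizer (B : Set G) : Subgroup G) : Set G) :=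
      H8.le_normalizer_inf (hAH.trans h.normal) (H8.le_normalizer_centralizer_of_comm hA.1 hB)
    have hQ' : ⁅F ⊓ centralizer (B : Set G), A⁆ ≤ F ⊓ centralizer (B : Set G) :=
      commutator_le_of_le_normalizer hAQ
    have hQH := (hQ'.trans inf_le_left).trans h.le
    rw [← commutator_eq_bot_iff_le_centralizer]
    refine h.eq_bot_of_le hQH (le_centralizer_iff.1 (H8.pxq (EA.isPGroup (EA.mono hA hB))
      (EA.isPGroup h.ea) (L0.not_dvd_card_of_le (hQ'.trans inf_le_left) h.coprime)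
      (le_centralizer_iff.1 (hQ'.trans inf_le_right)) ((hB.trans hAH).trans h.norm)
      (hQH.trans h.norm) ?_))
    rw [le_centralizer_iff, commutator_comm]
    refine le_trans (commutator_mono ?_ ?_) (commutator_le_of_le_normalizer (A := normalizer
      ((centralizer ((V ⊓ centralizer (B : Set G) : Subgroup G) : Set G) : Subgroup G) : Set G))
      le_rfl)
    · rw [← he]
      exact le_centralizer_iff.1 inf_le_right
    · exact H8.le_normalizer_centralizer (H8.le_normalizer_inf ((inf_le_left.trans h.le).trans h.norm)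
        (inf_le_right.trans le_normalizer))
  obtain ⟨D, h1, h2, h3⟩ := H8.exists_hyperplane_ge ((EA.isPGroup h.ea).to_le inf_le_left) hlt
  rw [jv_def, jv_def, H8.card_eq_of_relIndex hB hi, H8.card_eq_of_relIndex h2 h3, mul_assoc,
    mul_comm p]
  exact Nat.mul_le_mul_left _ (Nat.mul_le_mul_right _ (card_le_of_le h1))

theorem exists_hyperplane (h : FF p V H F) {A : Subgroup G} (hAH : A ≤ H)
    (hA : IsBestOffenderOn p V A) {C : Subgroup G} (hC : C ≤ A) (hC1 : C ≠ ⊥) :
    ∃ B, B ≤ A ∧ B.relIndex A = p ∧ IsBestOffenderOn p V B ∧ jv V B = jv V A ∧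
      ¬ F ⊓ centralizer (B : Set G) ≤ centralizer (C : Set G) := by
  have hAe := h.ea_of_best hAH hA
  by_contra hcon
  push Not at hcon
  apply hC1
  refine h.eq_bot_of_le_centralizer ((EA.isPGroup hAe).to_le hC) (hC.trans hAH)
    (le_centralizer_iff.1 ((h.copAct hAH (EA.isPGroup hAe)).le_of_hyperplanes hAe
      (fun h0 => hC1 (eq_bot_iff.2 (h0 ▸ hC))) fun B hB hi => ?_))
  by_cases hc : F ⊓ centralizer (B : Set G) ≤ centralizer (A : Set G)
  · exact hc.trans (centralizer_anti hC)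
  · have h1 := h.jv_le_of_hyperplane hAH hAe hB hi hc
    exact hcon B hB hi (isBestOffenderOn_of_le hA hB h1) (le_antisymm (hA.1 B hB) h1)

theorem jv_eq (h : FF p V H F) {A : Subgroup G} (hAH : A ≤ H) (hA : IsBestOffenderOn p V A) :
    jv V A = Nat.card V := by
  induction hn : Nat.card A using Nat.strong_induction_on generalizing A with
  | _ n ih =>
  by_cases h1 : A = ⊥
  · rw [h1, jv_bot]
  obtain ⟨B, hB, hi, hb, hj, -⟩ := h.exists_hyperplane hAH hA le_rfl h1
  rw [← hj]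
  exact ih _ (hn ▸ H5.card_lt_of_lt (H8.lt_of_relIndex_prime hp.out hB hi)) (hB.trans hAH) hb rfl

theorem card_eq_of_minOff (h : FF p V H F) {A : Subgroup G} (hAH : A ≤ H) (hA : MinOff p V A) :
    Nat.card A = p := by
  have h1 : A ≠ ⊥ := by
    rintro rfl
    exact hA.2.1 (commutator_bot_right V)
  obtain ⟨B, hB, hi, hb, -⟩ := h.exists_hyperplane hAH hA.1 le_rfl h1
  have h2 : B = ⊥ := by
    by_contra h2
    exact (H8.lt_of_relIndex_prime hp.out hB hi).ne
      (hA.2.2 B hB hb (h.commutator_ne_bot (hB.trans hAH) h2))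
  rwa [h2, relIndex_bot_left] at hi

omit [Finite G] in
theorem minOff_of_card (h : FF p V H F) {A : Subgroup G} (hAH : A ≤ H)
    (hA : IsBestOffenderOn p V A) (hc : Nat.card A = p) : MinOff p V A := by
  refine ⟨hA, h.commutator_ne_bot hAH ?_, fun B hB _ h1 => eq_of_le_of_card_prime hc hB ?_⟩
  · rintro rfl
    rw [card_bot] at hc
    exact hp.out.one_lt.ne hc
  · rintro rfl
    exact h1 (commutator_bot_right V)

theorem exists_tv (h : FF p V H F) {A : Subgroup G} (hAH : A ≤ H) (hA : MinOff p V A) :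
    ∃ a, Tv p V H a ∧ zpowers a = A := by
  have hc := h.card_eq_of_minOff hAH hA
  obtain ⟨a, -, ha, rfl⟩ := exists_zpowers_eq_of_card_prime hc
  refine ⟨a, ⟨hAH (mem_zpowers a), ha, ?_⟩, rfl⟩
  have h1 := card_commutator_zpowers_mul_card_centralizer h.ea.1 (h.norm (hAH (mem_zpowers a)))
  rw [← h.jv_eq hAH hA.1, jv_def, hc] at h1
  exact Nat.eq_of_mul_eq_mul_right Nat.card_pos h1

theorem relIndex_eq_of_minOff (h : FF p V H F) {A : Subgroup G} (hAH : A ≤ H)
    (hA : MinOff p V A) : (V ⊓ centralizer (A : Set G)).relIndex V = p := by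
  refine H8.relIndex_eq_of_card inf_le_left ?_
  rw [← h.jv_eq hAH hA.1, jv_def, h.card_eq_of_minOff hAH hA, mul_comm]

/-- Best offenders are generated by minimal ones. -/
theorem le_of_minOff (h : FF p V H F) {A : Subgroup G} (hAH : A ≤ H)
    (hA : IsBestOffenderOn p V A) {M : Subgroup G} (hM : ∀ B, B ≤ A → MinOff p V B → B ≤ M) :
    A ≤ M := by
  induction hn : Nat.card A using Nat.strong_induction_on generalizing A with
  | _ n ih =>
  by_cases h1 : A = ⊥
  · rw [h1]; exact bot_le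
  have key : ∀ B, B ≤ A → B.relIndex A = p → IsBestOffenderOn p V B → B ≤ M := fun B hB hi hb =>
    ih _ (hn ▸ H5.card_lt_of_lt (H8.lt_of_relIndex_prime hp.out hB hi)) (hB.trans hAH) hb
      (fun C hC => hM C (hC.trans hB)) rfl
  obtain ⟨B, hB, hi, hb, -⟩ := h.exists_hyperplane hAH hA le_rfl h1
  by_cases h2 : B = ⊥
  · rw [h2, relIndex_bot_left] at hi
    exact hM A le_rfl (h.minOff_of_card hAH hA hi)
  obtain ⟨B', hB', hi', hb', -, hc⟩ := h.exists_hyperplane hAH hA hB h2
  rcases H8.eq_or_eq_of_relIndex_prime hp.out hi' le_sup_left (sup_le hB' hB) with h3 | h3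
  · exact absurd (inf_le_right.trans (centralizer_anti (sup_eq_left.1 h3))) hc
  · rw [← h3]
    exact sup_le (key B' hB' hi' hb') (key B hB hi hb)

theorem exists_iSupIndep (h : FF p V H F) {A : Subgroup G} (hAH : A ≤ H)
    (hA : IsBestOffenderOn p V A) : ∃ (k : ℕ) (B : Fin k → Subgroup G),
      (∀ i, B i ≤ A ∧ MinOff p V (B i)) ∧ iSupIndep B ∧ ⨆ i, B i = A := by
  classical
  have hex : ∃ (k : ℕ) (B : Fin k → Subgroup G), (∀ i, B i ≤ A ∧ MinOff p V (B i)) ∧
      ⨆ i, B i = A := by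
    let T := {B : Subgroup G // B ≤ A ∧ MinOff p V B}
    obtain ⟨k, ⟨e⟩⟩ := Finite.exists_equiv_fin T
    refine ⟨k, fun i => (e.symm i).1, fun i => (e.symm i).2, le_antisymm
      (iSup_le fun i => (e.symm i).2.1) (h.le_of_minOff hAH hA fun B h1 h2 => ?_)⟩
    have := le_iSup (fun i => (e.symm i).1) (e ⟨B, h1, h2⟩)
    rwa [e.symm_apply_apply] at this
  obtain ⟨B, hB, hs⟩ := Nat.find_spec hex
  have hmin := fun m (hm : m < Nat.find hex) => Nat.find_min hex hm
  generalize Nat.find hex = k at B hB hs hmin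
  refine ⟨k, B, hB, fun i => ?_, hs⟩
  by_contra hd
  rw [disjoint_iff] at hd
  have h1 := inf_eq_left.1 (eq_of_le_of_card_prime (h.card_eq_of_minOff ((hB i).1.trans hAH)
    (hB i).2) inf_le_left hd)
  obtain ⟨k, rfl⟩ : ∃ m, k = m + 1 := ⟨k - 1, by have := i.pos; omega⟩
  refine hmin k (Nat.lt_succ_self k) ⟨fun j => B (i.succAbove j), fun j => hB _,
    le_antisymm (iSup_le fun j => (hB _).1) ?_⟩
  have h2 : ∀ j, j ≠ i → B j ≤ ⨆ j, B (i.succAbove j) := by
    intro j hj
    obtain ⟨j, rfl⟩ := Fin.exists_succAbove_eq hj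
    exact le_iSup (fun j => B (i.succAbove j)) j
  rw [← hs]
  refine iSup_le fun j => ?_
  by_cases hj : j = i
  · rw [hj]
    exact h1.trans (iSup₂_le h2)
  · exact h2 j hj

end FF

end Cfsg.Agent.H4
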