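import Cfsg.Agent.H4.TP5

/-!
# Degree `3p`: the doubly transitive case
-/

set_option autoImplicit false
set_option linter.unusedSectionVars false

namespace Cfsg.Agent.H4

open Finset Subgroup Cfsg.Agent.L0 Cfsg.Agent.H6 MulAction
open scoped ComplexConjugate Classical

variable {G : Type*} [Group G] [Finite G] {Ω : Type*} [MulAction G Ω]

theorem exists_odd_part {t : G} (ht : orderOf t = 2) (hc : t ∈ center G) {u : ℕ}
    (h : Nat.card G = 4 * u) (hu : ¬ 2 ∣ u) :
    ∃ K : Subgroup G, Nat.card K = u ∧ ∀ g, (orderOf g).Coprime 2 → g ∈ K := by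
  have : (zpowers t).Normal := ⟨fun n hn g => by
    rwa [mem_center_iff.mp (zpowers_le.mpr hc hn) g, mul_inv_cancel_right]⟩
  have h1 : Nat.card (⊤ : Subgroup (G ⧸ zpowers t)) = 2 * u := by
    have := card_eq_card_quotient_mul_card_subgroup (zpowers t)
    rw [Nat.card_zpowers, ht, h] at this
    rw [card_top]; omega
  obtain ⟨K, -, h2, h3⟩ := Sieve.exists_index_two h1 hu
  have h4 : Nat.card (K.comap (QuotientGroup.mk' (zpowers t))) = 2 * u := by
    have h5 := (K.comap (QuotientGroup.mk' (zpowers t))).card_mul_index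
    have h6 := K.card_mul_index
    rw [index_comap_of_surjective _ (QuotientGroup.mk'_surjective _), h] at h5
    rw [h2, ← card_top, h1] at h6
    have h7 : K.index = 2 := Nat.eq_of_mul_eq_mul_left (show 0 < u by omega) (by omega)
    rw [h7] at h5
    omega
  obtain ⟨L, -, h5, h6⟩ := Sieve.exists_index_two h4 hu
  exact ⟨L, h5, fun g hg => h6 g (h3 _ (mem_top _)
    (hg.coprime_dvd_left (orderOf_map_dvd (QuotientGroup.mk' (zpowers t)) g))) hg⟩

theorem sum_prinBlk_two {t : G} (ht : orderOf t = 2) {K : Subgroup G}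
    (hK : ∀ g, g ∈ K ↔ g * t = t * g ∧ ¬ 2 ∣ orderOf g) :
    Nat.card K * ∑ χ ∈ prinBlk 2 G, χ.1 t * conj (χ.1 t) = Nat.card (centralizer ({t} : Set G)) := by
  have := Fintype.ofFinite G
  rw [← blkPart_indicator, H9.blkPart_prinBlk_eq_avg Nat.prime_two hK
    (isClassFunction_indicator_isConj _) (isPPart_self Nat.prime_two (k := 1) ht), sum_eq_single 1]
  · have := natCard_ne_zero K
    simp only [OneMemClass.coe_one, one_mul, IsConj.refl, if_true]
    field_simp
  · intro k _ hk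
    rw [if_neg]
    intro h
    have h1 : (k * t) ^ 2 = 1 := by
      rw [← orderOf_dvd_iff_pow_eq_one, ← orderOf_eq_of_isConj h, ht]
    rw [(show Commute (k : G) t from ((hK k).mp k.2).1).mul_pow, ← ht, pow_orderOf_eq_one, mul_one,
      ht] at h1
    have : Fact (Nat.Prime 2) := ⟨Nat.prime_two⟩
    exact ((hK k).mp k.2).2 (orderOf_eq_prime h1 fun h => hk (Subtype.ext h)).symm.dvd
  · simp

variable {p : ℕ} [hp : Fact p.Prime]

namespace TA

variable (T : TA p G)

theorem v_IV [Finite Ω] [IsPretransitive G Ω] (hΩ : Nat.card Ω = 3 * p) (hm : T.m + 1 = 3 * p) :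
    T.v T.t + 1 = (fixedBy Ω T.t).ncard := by
  have h5 := T.five_le
  have : Nonempty Ω := (Nat.card_pos_iff.mp (by omega)).1
  obtain ⟨n, hn⟩ := exists_dec (isChar_pc (G := G) Ω)
  have hd : pc Ω (1 : G) = (3 * p : ℕ) := by rw [pc_one, hΩ]
  have h1 := T.rel0 hn (fun i hi => pc_xp T.D (hΩ ▸ dvd_mul_left _ _) hi) 1
  rw [T.hδ, T.hδ0] at h1
  have h2 := hn.one_le_pc
  have h3 := hn.eq_sum hd T.B.S (fun ζ hζ => by
    rw [T.hS] at hζ
    simp only [mem_insert, mem_singleton] at hζ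
    rcases hζ with rfl | rfl <;> omega) (by rw [T.sum_S, deg_irrOne]; unfold TP.m at hm; omega) T.t
  rw [T.sum_S, irrOne_apply, T.v_eq, pc, add_comm] at h3
  exact_mod_cast h3.symm

theorem IV_one [Finite Ω] [IsPretransitive G Ω] [FaithfulSMul G Ω] (hΩ : Nat.card Ω = 3 * p)
    (hm : T.m + 1 = 3 * p) (h1 : (fixedBy Ω T.t).ncard = 1) : False := by
  have h5 := T.five_le
  have := T.simple
  have : Nontrivial Ω := Finite.one_lt_card_iff_nontrivial.mp (by omega)
  have h0 : T.v T.t = 0 := by have := T.v_IV hΩ hm; omega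
  obtain ⟨a, b, hab⟩ := exists_pair_ne Ω
  have h := T.se h1
  obtain ⟨Q, -, hQ, h3⟩ := h.exists_sdp T.four
    (fun x hx => eq_of_smul_eq_smul (α := Ω) fun c => by rw [hx c, one_smul]) hab
  obtain ⟨t', ht'⟩ := h.exists_Iab hab
  obtain ⟨X, hX, -, -⟩ := (h.szHyp hab ht' hQ h3).exists_suz (by
    obtain ⟨a, -, b, -, ha, hb, h1, h2⟩ := T.four
    exact ⟨a, b, ha.1, hb.1, ha.2, hb.2, h1, h2⟩)
  have h4 := X.index_H
  rw [hX, index_stabilizer_of_transitive, hΩ] at h4
  have hq : Nat.card X.Q = T.m := by omega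
  have hQs : X.Q ≤ centralizer {X.s} := fun x hx =>
    mem_centralizer_singleton_iff.mpr (X.Z_comm X.s_mem_Z hx).symm
  have h6 := (X.sdp.inf_of_left_le hQs fun g hg =>
    X.mem_H_of_comm X.sQ X.s1 (mem_centralizer_singleton_iff.mp hg)).card
  rw [show X.D ⊓ centralizer {X.s} = X.V from Subgroup.ext fun v => by
    rw [X.mem_V', Subgroup.mem_inf, mem_centralizer_singleton_iff],
    ← card_centralizer_eq_of_isConj (T.conj_t X.ss X.s1), hq] at h6
  change T.c = _ at h6
  have h7 := X.card_G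
  have h8 := X.sdp_D.card
  have h9 := X.card_K
  have h10 : X.q ≤ T.m := hq ▸ card_le_of_le X.Z_le
  have h11 := T.order
  have h12 : Odd (Nat.card X.V) := X.odd_D.of_dvd_nat (card_dvd_of_le X.V_le)
  have hV : 0 < Nat.card X.V := Nat.card_pos
  rw [← T.c_mul_i, hq, h8, h6, hm] at h7
  have h13 : T.i = 3 * p * Nat.card X.K :=
    Nat.eq_of_mul_eq_mul_left (Nat.mul_pos (show 0 < T.m by omega) hV) (by rw [h7]; ring)
  rw [h0, h13, h6] at h11
  have h14 : (3 : ℤ) * Nat.card X.K = Nat.card X.V * (T.m - 1) :=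
    mul_left_cancel₀ (a := (p : ℤ) * T.m ^ 2) (by have := T.two_le; positivity)
      (by push_cast at h11; linear_combination h11)
  have h15 : Nat.card X.V ≠ 1 := fun h => by rw [h] at h14; omega
  have h16 : (3 : ℤ) ≤ Nat.card X.V := by obtain ⟨k, hk⟩ := h12; omega
  have h17 : X.q = T.m := by
    have : (3 : ℤ) * (T.m - 1) ≤ Nat.card X.V * (T.m - 1) :=
      mul_le_mul_of_nonneg_right h16 (by omega)
    omega
  have h18 : X.Q = X.Z := (eq_of_le_of_card_ge X.Z_le (by rw [hq, ← h17]; rfl)).symm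
  have hr := X.rk1 X.core_eq_bot
  have h19 := (BS.Rec.rec_L2 hr h18).1
  rw [((BS.Rec.gen_normal hr).eq_bot_or_eq_top).resolve_left fun e =>
    X.tH ((mem_bot.1 (e ▸ BS.Rec.Rk1.t_mem (Q := X.Q)) : X.t = 1) ▸ one_mem _), top_inf_eq] at h19
  rw [h19] at h8
  exact h15 (Nat.eq_of_mul_eq_mul_left Nat.card_pos (h8.symm.trans (mul_one _).symm))

theorem card_dvd_of_fix [Finite Ω] (h3 : (fixedBy Ω T.t).ncard = 3) {R : Subgroup G} (hR : IsPGroup 2 R)
    (h : ∀ r ∈ R, ∀ a ∈ fixedBy Ω T.t, r • a = a) : Nat.card R ∣ Nat.card Ω - 3 := by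
  have : Fact (Nat.Prime 2) := ⟨Nat.prime_two⟩
  have h1 := dvd_ncard_of_orbits (G := R) (fixedBy Ω T.t)ᶜ (fun g x hx hgx => hx (by
    have := h g⁻¹ (inv_mem g.2) _ hgx
    rw [Subgroup.smul_def, inv_smul_smul] at this
    exact this ▸ hgx)) (m := Nat.card R) fun x hx => by
      rw [show stabilizer R x = ⊥ from ?_, index_bot]
      by_contra h2
      obtain ⟨k, hk0, hk⟩ := (hR.to_subgroup (stabilizer R x)).nontrivial_iff_card.mp
        ((nontrivial_iff_ne_bot _).mpr h2)
      obtain ⟨s, hs⟩ := exists_prime_orderOf_dvd_card' (G := stabilizer R x) 2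
        (hk ▸ dvd_pow_self 2 hk0.ne')
      rw [← orderOf_coe, ← orderOf_coe] at hs
      have h4 := Set.ncard_le_ncard (s := insert x (fixedBy Ω T.t)) (t := fixedBy Ω ((s : R) : G))
        (Set.insert_subset s.2 fun a ha => h _ (s : R).2 a ha)
      rw [Set.ncard_insert_of_notMem hx, T.ncard_fix (H9.mul_self_of_orderOf_two hs)
        (H9.ne_one_of_orderOf_two hs)] at h4
      omega
  rwa [Set.ncard_compl, h3] at h1

theorem IV_three [Finite Ω] [IsPretransitive G Ω] (hΩ : Nat.card Ω = 3 * p)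
    (hm : T.m + 1 = 3 * p) (h3 : (fixedBy Ω T.t).ncard = 3) : False := by
  have h5 := T.five_le
  have := T.simple
  have : Fact (Nat.Prime 2) := ⟨Nat.prime_two⟩
  have h0 : T.v T.t = 2 := by have := T.v_IV hΩ hm; omega
  have ht : orderOf T.t = 2 := H9.orderOf_two_of T.t_ne T.tt
  have hp4 : p % 4 = 1 := by have := T.four_dvd T.tt; omega
  set C := centralizer ({T.t} : Set G) with hC
  let F : SubMulAction C Ω := ⟨fixedBy Ω T.t, fun g x hx => by
    rw [mem_fixedBy] at hx ⊢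
    rw [Subgroup.smul_def, ← mul_smul, ← mem_centralizer_singleton_iff.mp g.2, mul_smul, hx]⟩
  have := Fintype.ofFinite F
  have hF : Fintype.card F = 3 := by rw [← Nat.card_eq_fintype_card, ← h3]; rfl
  have : Nontrivial F := Fintype.one_lt_card_iff_nontrivial.mp (by omega)
  let φ := toPermHom C F
  let C1 := (Equiv.Perm.sign.comp φ).ker
  obtain ⟨R⟩ : Nonempty (Sylow 2 C1) := inferInstance
  obtain ⟨a, ha⟩ := R.isPGroup'.exists_card_eq
  have h1 : 2 ^ a ∣ 3 * p - 3 := by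
    have h2 := T.card_dvd_of_fix h3 (R := ((R : Subgroup C1).map C1.subtype).map C.subtype)
      ((R.isPGroup'.map _).map _) (by
        rintro _ ⟨_, ⟨r, hr, rfl⟩, rfl⟩ x hx
        have h4 : φ r ∈ alternatingGroup F := r.2
        have h6 := orderOf_dvd_natCard _ h4
        rw [nat_card_alternatingGroup, Nat.card_eq_fintype_card, hF] at h6
        obtain ⟨k, hk⟩ := R.isPGroup' ⟨r, hr⟩
        have h7 : (φ r) ^ 2 ^ k = 1 := by
          rw [← map_pow, show (r : C) ^ 2 ^ k = 1 from congrArg (fun y : R => ((y : C1) : C)) hk, map_one]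
        have h8 : φ r = 1 := orderOf_eq_one_iff.mp (Nat.eq_one_of_dvd_coprimes
          (Nat.Coprime.pow_right k (by decide)) h6 (orderOf_dvd_of_pow_eq_one h7))
        exact congrArg Subtype.val (Equiv.congr_fun h8 ⟨x, hx⟩))
    rwa [card_map_of_injective C.subtype_injective, card_map_of_injective C1.subtype_injective, ha,
      hΩ] at h2
  have h2 : C1.index ∣ 2 := by
    rw [index_ker]; exact (card_subgroup_dvd_card _).trans (by simp)
  have h4 := C1.card_mul_index
  have h6 := (R : Subgroup C1).card_mul_index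
  have h7 := R.not_dvd_index
  have h8 := T.order
  have h9 := T.odd_i
  generalize (R : Subgroup C1).index = u at h6 h7
  rw [ha] at h6
  change _ = T.c at h4
  obtain ⟨k, hk⟩ : ∃ k, p = 4 * k + 1 := ⟨p / 4, by omega⟩
  obtain ⟨d, hd⟩ : 2 ^ a ∣ 4 * k := (Nat.Coprime.pow_left a (by decide)).dvd_of_dvd_mul_left
    (show 2 ^ a ∣ 3 * (4 * k) by rwa [show 3 * (4 * k) = 3 * p - 3 by omega])
  have h10 : 9 * T.i * (2 ^ a * (d * d)) = 2 * C1.index * (p * u * (6 * k + 1) * (12 * k + 1)) := by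
    apply Nat.eq_of_mul_eq_mul_left (Nat.two_pow_pos a)
    have h11 : (T.m : ℤ) = 12 * k + 2 := by omega
    have h12 : (4 : ℤ) * k = 2 ^ a * d := by exact_mod_cast hd
    rw [h0, h11, ← h4, ← h6] at h8
    zify
    push_cast at h8
    linear_combination h8 - 9 * T.i * (4 * k + 2 ^ a * d) * h12
  have h11 : Odd (p * u * (6 * k + 1) * (12 * k + 1)) :=
    ((Odd.mul ⟨2 * k, by omega⟩ (Nat.odd_iff.mpr (by omega))).mul ⟨3 * k, by omega⟩).mul ⟨6 * k, by omega⟩
  have h12 : Odd (9 * T.i) := Nat.odd_iff.mpr (by omega)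
  generalize p * u * (6 * k + 1) * (12 * k + 1) = O at h10 h11
  have h13 : ¬ 8 ∣ 2 ^ a * (d * d) := fun h => by
    have := h.mul_left (9 * T.i)
    rw [h10] at this
    obtain ⟨w, rfl⟩ := h11
    rcases (Nat.dvd_prime Nat.prime_two).mp h2 with h | h <;> rw [h] at this <;> omega
  have h14 : a = 2 ∧ d % 2 = 1 := by
    rcases (show a = 0 ∨ a = 1 ∨ a = 2 ∨ 3 ≤ a by omega) with rfl | rfl | rfl | h
    · exact absurd ⟨2 * k * k, by rw [show d = 4 * k by omega]; ring⟩ h13
    · exact absurd ⟨k * k, by rw [show d = 2 * k by omega]; ring⟩ h13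
    · refine ⟨rfl, by_contra fun h => h13 ?_⟩
      obtain ⟨w, rfl⟩ : 2 ∣ d := by omega
      exact ⟨2 * w * w, by ring⟩
    · exact absurd ((pow_dvd_pow 2 h).mul_right _) h13
  obtain ⟨rfl, h15⟩ := h14
  have h16 : C1.index = 2 := ((Nat.dvd_prime Nat.prime_two).mp h2).resolve_left fun h => by
    rw [h] at h10
    obtain ⟨w, rfl⟩ := h11
    have : 9 * T.i * (2 ^ 2 * (d * d)) = 4 * (9 * T.i * (d * d)) := by ring
    omega
  rw [h16, ← h6] at h4
  have htC : T.t ∈ C := mem_centralizer_singleton_iff.mpr rfl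
  have ht1 : (⟨T.t, htC⟩ : C) ∈ C1 := by
    rw [MonoidHom.mem_ker, MonoidHom.comp_apply, show φ ⟨T.t, htC⟩ = 1 from
      Equiv.ext fun x => Subtype.ext x.2, map_one]
  obtain ⟨K, h17, h18⟩ := exists_odd_part (G := C1) (t := ⟨_, ht1⟩) (by rw [← ht, ← orderOf_coe, ← orderOf_coe])
    (mem_center_iff.mpr fun g => Subtype.ext (Subtype.ext (mem_centralizer_singleton_iff.mp g.1.2)))
    h6.symm h7
  have h19 := sum_prinBlk_two ht (K := (K.map C1.subtype).map C.subtype) fun g => by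
    constructor
    · rintro ⟨_, ⟨r, hr, rfl⟩, rfl⟩
      refine ⟨mem_centralizer_singleton_iff.mp r.1.2, fun h => h7 (h.trans ?_)⟩
      rw [← h17]
      exact (orderOf_coe _).dvd.trans ((orderOf_coe _).dvd.trans (orderOf_dvd_natCard _ hr))
    · rintro ⟨h20, h21⟩
      have h22 := (Nat.Prime.coprime_iff_not_dvd Nat.prime_two).mpr h21
      have h23 : (⟨g, mem_centralizer_singleton_iff.mpr h20⟩ : C) ∈ C1 := by
        rw [MonoidHom.mem_ker, ← orderOf_eq_one_iff]
        refine Nat.eq_one_of_dvd_coprimes h22 ?_ ((orderOf_map_dvd _ _).trans (orderOf_coe _).symm.dvd)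
        exact (_root_.orderOf_dvd_natCard _).trans (by simp)
      exact ⟨_, ⟨⟨_, h23⟩, h18 _ (by rw [← orderOf_coe, ← orderOf_coe]; exact h22.symm), rfl⟩, rfl⟩
  rw [card_map_of_injective C.subtype_injective, card_map_of_injective C1.subtype_injective, h17] at h19
  change _ = (T.c : ℂ) at h19
  choose z hz using fun ζ : IrrCharacter G =>
    IsGeneralizedCharacter.exists_int_of_sq_eq_one (irr_isGen ζ) ((sq _).trans T.tt)
  have h20 : ∑ ζ ∈ prinBlk 2 G, z ζ * z ζ = 8 := by
    simp only [hz, map_intCast] at h19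
    rw [← h4] at h19
    have h21 : (u : ℤ) * ∑ ζ ∈ prinBlk 2 G, z ζ * z ζ = 2 ^ 2 * u * 2 := by exact_mod_cast h19
    exact mul_left_cancel₀ (a := (u : ℤ)) (by omega) (by rw [h21]; ring)
  have h21 : prinBlk p G ⊆ prinBlk 2 G := by
    have h22 : ∀ b : (ZMod p)ˣ, T.χ ∈ prinBlk 2 G ∧ T.B.c b ∈ prinBlk 2 G := fun b => by
      have h23 := T.D.brauer_tuan (a := 3) Nat.prime_two (by omega) (by simp [T.hK])
        (by rw [← T.c_mul_i, ← h4]; exact ⟨u * T.i, by ring⟩) b
      rw [T.B.sum_filter_d, sum_filter, T.sum_S, if_pos (irrOne_mem_prinBlk Nat.prime_two), T.B.δ_one,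
        T.hδ, T.hδ0, deg_irrOne] at h23
      have := T.f0_eq
      unfold TP.m at *
      by_contra h24
      split_ifs at h23 with h25 h26 h26
      · exact h24 ⟨h25, h26⟩
      all_goals omega
    intro ζ hζ
    rcases (T.B.mem_iff ζ).mp hζ with h | ⟨q, rfl⟩
    · rw [T.hS] at h
      rcases mem_insert.mp h with rfl | h
      · exact irrOne_mem_prinBlk Nat.prime_two
      · exact mem_singleton.mp h ▸ (h22 1).1
    · exact QuotientGroup.out_eq' q ▸ (h22 q.out).2
  have z1 : z (irrOne G) = 1 := by exact_mod_cast (hz _).symm.trans (irrOne_apply T.t)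
  have z2 : z T.χ = 2 := by
    have := (hz _).symm.trans (T.v_eq T.t)
    rw [h0] at this
    exact_mod_cast this
  have z3 : ∀ q, z (T.B.c q) = 1 := fun q => by
    have := (hz _).symm.trans (T.val_c q (T.not_dvd_of_mul_self T.tt))
    rw [T.v_eq, h0] at this
    exact_mod_cast this
  have h22 := T.card_Q
  rw [← sum_sdiff h21, T.B.sum_blk, T.sum_S] at h20
  simp only [z1, z2, z3, mul_one, sum_const, card_univ, nsmul_eq_mul] at h20
  have h23 : ∀ ζ ∈ prinBlk 2 G \ prinBlk p G, 1 ≤ z ζ * z ζ := fun ζ hζ => by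
    have := apply_ne_zero_of_mem_prinBlk Nat.prime_two (mem_sdiff.mp hζ).1 (z := T.t)
      (by change ¬ 2 ∣ T.i; omega)
    rw [hz, Int.cast_ne_zero] at this
    exact mul_self_pos.mpr this
  have h24 := card_nsmul_le_sum _ _ _ h23
  rw [nsmul_one] at h24
  have hp5 : p = 5 := by omega
  have h25 : ∑ ζ ∈ prinBlk 2 G \ prinBlk p G, z ζ * z ζ = 1 := by omega
  obtain ⟨ζ, hζ⟩ := card_eq_one.mp (show #(prinBlk 2 G \ prinBlk p G) = 1 by
    rcases Nat.eq_zero_or_pos #(prinBlk 2 G \ prinBlk p G) with h | h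
    · rw [card_eq_zero.mp h, sum_empty] at h25; omega
    · omega)
  rw [hζ, sum_singleton] at h25
  have h26 := sum_prinBlk_degree_mul_eq_zero (G := G) Nat.prime_two ht.symm.dvd
  rw [← sum_sdiff h21, T.B.sum_blk, T.sum_S, hζ, sum_singleton] at h26
  simp only [hz, deg_eq, z1, z2, z3, T.B.deg_c, deg_irrOne, sum_const, card_univ, nsmul_eq_mul] at h26
  have h27 := T.f0_eq
  have h28 : (deg ζ : ℤ) * z ζ + (1 * 1 + T.m * 2 +
      Fintype.card ((ZMod p)ˣ ⧸ T.D.A) * (T.B.f0 * 1)) = 0 := by exact_mod_cast h26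
  rw [show Fintype.card ((ZMod p)ˣ ⧸ T.D.A) = 2 by omega] at h28
  have h29 : deg ζ = 55 := by
    rcases mul_self_eq_one_iff.mp h25 with h | h <;> rw [h] at h28 <;> omega
  have h30 := IsIrrCharacter.degree_dvd_card ζ.2 (deg_eq ζ)
  rw [h29, ← T.c_mul_i] at h30
  have h31 : 144 * T.i = 910 * T.c := by
    rw [h0, show (T.m : ℤ) = 14 by omega, show (p : ℤ) = 5 by omega] at h8
    omega
  have h32 : 11 ∣ T.c ∧ 11 ∣ T.i := by
    rcases (Nat.Prime.dvd_mul (by norm_num)).mp ((show 11 ∣ 55 by norm_num).trans h30) with h | h <;>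
      omega
  have : Nontrivial Ω := Finite.one_lt_card_iff_nontrivial.mp (by omega)
  obtain ⟨x, y, hxy⟩ := exists_pair_ne Ω
  obtain ⟨g, rfl⟩ := exists_smul_eq G x y
  have h33 := ((Nat.mul_dvd_mul h32.1 h32.2).trans T.c_mul_i.dvd).trans
    ((dvd_mul_left _ _).trans (two_mul_card_dvd_factorial T.not_comm hxy.symm))
  rw [hΩ, hp5] at h33
  revert h33
  decide

end TA

end Cfsg.Agent.H4
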